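/-
Weakly closed TI-subgroups: the maximal edges connect the points.
-/
import Cfsg.Agent.Timm.W2
import Cfsg.Agent.Grp.Cores

set_option autoImplicit false

open Cfsg Subgroup
open scoped commutatorElement

namespace CL.WTI

open CL.Even CL.Timm CL.Grp

universe u

section

variable {G H : Type*} [Group G] [Finite G] [Group H] {π : G →* H} {A B C F : Subgroup G}

theorem bad_ed (k : Nb A B) (hs : Function.Surjective π) (hk : π.ker ≤ 𝒩(A)) :
    Ed (A.map π) (B.map π) ↔ ¬ ax A B ≤ π.ker := by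
  rw [← Subgroup.map_eq_bot_iff, k.toW.map_ax hk k.pt]
  exact ⟨fun e => e.nt, fun e => ⟨k.map hs hk, e⟩⟩

theorem bad_lift (w : W A) (hs : Function.Surjective π) (hk : π.ker ≤ 𝒩(A)) {R : Subgroup G → Subgroup G → Prop}
    (h0 : R A A) (hR : ∀ B B', Pt A B → Nb B B' → ¬ ax B B' ≤ π.ker → R A B → R A B') (hC : Pt A C)
    (h : Relation.ReflTransGen Ed (A.map π) (C.map π)) : R A C := by
  generalize e : C.map π = C' at h
  induction h generalizing C with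
  | refl => rwa [w.map_inj hk hC (Pt.refl A) e]
  | tail h1 h2 ih =>
    subst e
    obtain ⟨B, hB, rfl⟩ := Pt.exists_map hs ((hC.map π).trans h2.pt.symm)
    have k : Nb B C := ⟨w.of_pt hB, hB.symm.trans hC, fun e => h2.ne (by rw [e])⟩
    exact hR B C hB k ((bad_ed k hs (hB.ker_le hk)).1 h2) (ih hB rfl)

omit [Finite G] in
theorem bad_cel (k : Nb A F) (k' : Nb A C) (h : ax A C ≤ ax A F) {c f x : G} (hc : c ∈ ax C A) (c1 : c ≠ 1)
    (hc' : c ∈ 𝒩(F)) (hf : f ∈ ax F A) (e : c * f * c⁻¹ = f) (hx : x ∈ A) : ⁅x, f⁆ ∈ ax A C :=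
  ⟨(k.cel_mem hx hf).1, k'.norm_of_comm' hc.1 c1 (by
    have := k.cel_conj hx hf hc.2 hc' (h (k'.cel_mem hx hc))
    rw [e, mul_inv_eq_iff_eq_mul] at this
    exact this.symm)⟩

omit [Finite G] in
theorem bad_norm {X J₁ J₂ J₃ : Subgroup G} (h1 : ∀ x ∈ X, ∀ i ∈ J₁, ⁅x, i⁆ ∈ J₁ ⊔ J₂ ⊔ J₃)
    (h2 : ∀ x ∈ X, ∀ i ∈ J₂, ⁅x, i⁆ ∈ J₁ ⊔ J₂ ⊔ J₃) (h3 : ∀ x ∈ X, ∀ i ∈ J₃, ⁅x, i⁆ ∈ J₁ ⊔ J₂ ⊔ J₃) :
    X ≤ 𝒩(J₁ ⊔ J₂ ⊔ J₃) := le_norm_of_cj_le fun x hx => by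
  have key : ∀ J ≤ J₁ ⊔ J₂ ⊔ J₃, (∀ i ∈ J, ⁅x, i⁆ ∈ J₁ ⊔ J₂ ⊔ J₃) → cj x J ≤ J₁ ⊔ J₂ ⊔ J₃ := by
    rintro J hJ h _ ⟨i, hi, rfl⟩
    simpa [cel_def] using mul_mem (h i hi) (hJ hi)
  rw [cj_sup, cj_sup]
  exact sup_le (sup_le (key _ (le_sup_left.trans le_sup_left) (h1 x hx)) (key _ (le_sup_right.trans le_sup_left)
    (h2 x hx))) (key _ le_sup_right (h3 x hx))

end

variable {G : Type u} [Group G] [Finite G] {q r : ℕ} {A C F : Subgroup G}

theorem bad_quot (r2 : R2Thm.{u}) (se : SEThm.{u}) (ho : HoltP.{u}) (e : Ed A F) (k : Nb A C) (h4 : 4 ≤ Nat.card A)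
    (h0 : ax A C = ⊥) (ht : A ⊔ F ⊔ C = ⊤) (hn : ¬ Relation.ReflTransGen Ed A C) :
    ∃ B, Nb A B ∧ ¬ Ed A B ∧ ∃ a ∈ A, a ≠ 1 ∧ ∃ b ∈ B, b ≠ 1 ∧ Even (orderOf (a * b)) := by
  have h1 : ∀ B, Pt A B → B ≤ ncl ⊤ A := fun B ⟨g, e⟩ => e ▸ cj_le_ncl A (mem_top g)
  obtain ⟨_, hG⟩ := r2 e.toW h4 (top_le_iff.1 (ht.ge.trans (sup_le (sup_le (le_ncl _ _) (h1 F e.pt)) (h1 C k.pt))))
    (eq_bot_iff.2 (h0.le.trans' (inf_le_inf_left _ (le_sup_left.trans (k.w'.le_norm_of_pgroup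
      (isPGroup_sup' pCore_isP k.w'.isP (le_top.trans (normal_iff_top_le.1 inferInstance))) le_sup_right)))))
  have hs := QuotientGroup.mk'_surjective (center G)
  have hz : ∀ B : Subgroup G, (QuotientGroup.mk' (center G)).ker ≤ 𝒩(B) := fun B =>
    (QuotientGroup.ker_mk' _).le.trans (center_le_normalizer _)
  have h2 : ∀ B, Ed A B → Ed (A.map (QuotientGroup.mk' (center G))) (B.map (QuotientGroup.mk' (center G))) :=
    fun B e => (bad_ed e.toNb hs (hz A)).2 fun h => e.nt (eq_bot_iff.2 (h0.le.trans' (le_inf inf_le_left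
      (h.trans (hz C)))))
  have e' := h2 F e
  have h3 : A.map (QuotientGroup.mk' (center G)) ≠ ⊥ := fun h => e'.nt (eq_bot_iff.2 (inf_le_left.trans h.le))
  obtain h | ⟨-, B, hB, h5, _, ⟨a, ha, rfl⟩, a1, b, hb, b1, h6⟩ := ho hG e'.toW h3 fun c => hn (bad_lift e.toW hs (hz A)
    .refl (fun B B' _ k h1 h2 => h2.tail ⟨k, fun e => h1 (e ▸ bot_le)⟩) k.pt (c _ (k.pt.map _)))
  · exact (e'.nt (se hG h e'.toNb h3 (e'.isP.to_le inf_le_left) (inf_le_left.trans le_normalizer) inf_le_right)).elim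
  obtain ⟨B, hB', rfl⟩ := hB.exists_map hs
  obtain ⟨b, hb, rfl⟩ := hb
  exact ⟨B, ⟨e.toW, hB', fun e => h5 (e ▸ .refl)⟩, fun e => h5 (.single (h2 B e)), a, ha, fun e => a1 (by simp [e]), b,
    hb, fun e => b1 (by simp [e]), h6.trans_dvd (by rw [← map_mul]; exact orderOf_map_dvd _ _)⟩

theorem bad_top (r2 : R2Thm.{u}) (se : SEThm.{u}) (ho : HoltP.{u}) {H : Type u} [Group H] {π : G →* H}
    (hs : Function.Surjective π) (k : Nb A F) (e : Ed A C) (h1 : π.ker ≤ 𝒩(A)) (h2 : A ⊓ π.ker = ax A C)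
    (h3 : Nat.card (ax A C) < Nat.card (ax A F)) (h4 : 2 * Nat.card (ax A C) < Nat.card A)
    (ht : A ⊔ F ⊔ C = ⊤) {R : Subgroup G → Prop} (h0 : R A)
    (hR : ∀ B B', Pt A B → Nb B B' → Nat.card (ax A C) < Nat.card (ax B B') → R B → R B') : R C := by
  by_contra hn
  have := Finite.of_surjective π hs
  have a1 : ∀ B B', Pt A B → Pt A B' → B ⊓ π.ker ≤ ax B B' := fun B B' _ h => inf_le_inf_left _ (h.ker_le h1)
  obtain ⟨B, k', h5, _, ⟨a, ha, rfl⟩, a2, b, hb, b1, h6⟩ := bad_quot r2 se ho ((bad_ed k hs h1).2 fun h =>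
      h3.not_ge (card_le_of_le (h2 ▸ le_inf inf_le_left h))) (e.toNb.map hs h1) (by
      obtain ⟨n, hn⟩ := (e.isP.map π).exists_card_eq
      rw [card_eq_card_inf_ker_mul_card_map π A, inf_comm, h2, mul_comm 2, hn] at h4
      exact hn ▸ Nat.pow_le_pow_right (n := 2) (i := 2) two_pos ((Nat.pow_lt_pow_iff_right (a := 2) (n := 1)
        one_lt_two).1 (Nat.lt_of_mul_lt_mul_left h4)))
    (by rw [← e.toW.map_ax h1 e.pt, Subgroup.map_eq_bot_iff, ← h2]; exact inf_le_right)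
    (by rw [← Subgroup.map_sup, ← Subgroup.map_sup, ht, map_top_of_surjective π hs])
    fun h => hn (bad_lift (R := fun _ => R) e.toW hs h1 h0 (fun B B' hB k h => hR B B' hB k (by
      refine lt_of_eq_of_lt ?_ (card_lt_of_lt (a1 B B' hB (hB.trans k.pt)) fun e => h (e.trans inf_le_right))
      obtain ⟨g, rfl⟩ := hB
      rw [← h2, ← card_cj g, cj_inf, cj_eq (normal_iff_top_le.1 π.normal_ker (mem_top g))])) e.pt h)
  obtain ⟨B, hB, rfl⟩ := k'.pt.exists_map hs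
  obtain ⟨b, hb, rfl⟩ := hb
  have k1 : Nb A B := ⟨e.toW, hB, fun e => k'.ne (by rw [e])⟩
  have h7 := not_not.1 (mt (bad_ed k1 hs h1).2 h5)
  have h8 := not_not.1 (mt (bad_ed k1.symm hs (hB.ker_le h1)).2 fun e => h5 e.symm)
  have h9 := Ed.odd ⟨k1, fun h => e.nt (eq_bot_iff.2 (h2 ▸ h ▸ a1 A B (Pt.refl A) hB))⟩ ha
    (fun h => a2 (h7 ⟨ha, h⟩)) hb fun h => b1 (h8 ⟨hb, h⟩)
  exact Nat.not_even_iff_odd.2 h9 (h6.trans_dvd (by rw [← map_mul]; exact orderOf_map_dvd _ _))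

theorem bad_main (r2 : R2Thm.{u}) (se : SEThm.{u}) (ho : HoltP.{u}) (s : St q r A) (e : Ed A C)
    (hn : ¬ Relation.ReflTransGen (Mx q r) A C) (hm : ∀ B B', Pt A B → Ed B B' →
      ¬ Relation.ReflTransGen (Mx q r) B B' → Nat.card (ax B B') ≤ Nat.card (ax A C)) : False := by
  obtain ⟨F₀, m₀⟩ := s.ex
  obtain ⟨F, m, h1, -, h2⟩ := m₀.exists_ge e.toNb
  have j1 : Nat.card (ax A C) < r := not_le.1 fun h => hn (.single (m.of_card (Pt.refl A) e.toNb h))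
  have j2 : q < Nat.card (ax A C) := by
    have := e.card_le_sq
    have := m.two_le_q
    rw [m.cq] at *
    nlinarith
  obtain ⟨c, hc, c1, hc'⟩ : ∃ c ∈ ax C A, c ≠ 1 ∧ c ∈ 𝒩(F) := by
    by_contra! h
    have := Nat.card_le_card_of_injective (fun c : ax C A => (⟨cj c F, s.uni.exists_cj m c.2.2 (h2 c.2)⟩ :
      {B | ∃ a ∈ A, cj a F = B})) fun c d e => Subtype.ext (inv_mul_eq_one.1 (by_contra fun e' =>
        h _ (mul_mem (inv_mem d.2) c.2) e' (cj_eq_cj_iff.1 (congrArg Subtype.val e)))).symm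
    rw [Nat.card_coe_set_eq, m.card_orb', e.card_eq] at this
    omega
  have e' : Ed C F := Ed.of_mem ⟨e.w', e.pt.symm.trans m.pt, fun h => hn (.single (h ▸ m))⟩ hc.1 hc' c1
  have h3 := hm F C m.pt e'.symm fun h => hn (h.head m)
  have h4 : ax F A ⊓ centralizer {c} ≤ ax F C := fun f hf =>
    ⟨hf.1.1, e.norm_of_comm' hc.1 c1 (mem_centralizer_singleton_iff.1 hf.2)⟩
  have h5 : Nat.card (ax A C) ≤ Nat.card (ax F A ⊓ centralizer {c} : Subgroup G) := by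
    obtain ⟨x, hx, hx'⟩ := m.exists_not_mem
    choose f hf hf' using fun v : ax A C => m.exists_cel hx hx' (h1 v.2)
    refine Nat.card_le_card_of_injective (fun v => ⟨f v, hf v, mem_centralizer_singleton_iff.2 ?_⟩) fun v w e =>
      Subtype.ext (by rw [← hf', ← hf', show f v = f w from congrArg Subtype.val e])
    have := m.cel_conj hx (hf v) hc.2 hc' (h1 (e.cel_mem hx hc))
    rw [hf', ← e.comm_ax v.2 hc, mul_inv_cancel_right, ← hf'] at this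
    exact eq_mul_of_mul_inv_eq (m.cel_inj hx hx' (conj_mem (norm_ax hc' hc.2) (hf v)) (hf v) this.symm) |>.symm
  have h6 : ax F C ≤ ax F A := (eq_of_le_of_card_ge h4 (h3.trans h5)).ge.trans inf_le_left
  have h7 : Nat.card (ax C F) = Nat.card (ax C A) := by
    rw [e.card_eq, ← e'.card_eq]
    exact h3.antisymm (h5.trans (card_le_of_le h4))
  have h8 : ax C A = ax C F := (e.symm.lc e'.toNb ((elem_isP m.elem_nn).to_le (sup_le_sup h1 h6))).elim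
    (fun h => eq_of_le_of_card_ge h h7.le) fun h => (eq_of_le_of_card_ge h h7.ge).symm
  have o1 : ∀ {x}, x ∈ ax A C → x ∈ ax A C ⊔ ax F C ⊔ ax C A := fun h => mem_sup_left (mem_sup_left h)
  have o2 : ∀ {x}, x ∈ ax F C → x ∈ ax A C ⊔ ax F C ⊔ ax C A := fun h => mem_sup_left (mem_sup_right h)
  have o3 : ∀ {B : Subgroup G}, W B → ∀ {O : Subgroup G} {x y}, x ∈ B → y ∈ B → ⁅x, y⁆ ∈ O := fun w _ _ _ hx hy =>
    cel_eq_one.2 (w.comm hx hy) ▸ one_mem _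
  have hY : A ⊔ F ⊔ C ≤ 𝒩(ax A C ⊔ ax F C ⊔ ax C A) := sup_le (sup_le
    (bad_norm (fun x hx i hi => o3 e.toW hx hi.1) (fun x hx i hi => o1 (bad_cel m.toNb e.toNb h1 hc c1 hc' (h6 hi)
      (by rw [e'.comm_ax ⟨hc.1, hc'⟩ hi, mul_inv_cancel_right]) hx)) fun x hx i hi => o1 (e.cel_mem hx hi))
    (bad_norm (fun x hx i hi => o2 (bad_cel m.toNb.symm e'.toNb.symm h6 ⟨hc.1, hc'⟩ c1 hc.2 (h1 hi)
      (by rw [← e.comm_ax hi hc, mul_inv_cancel_right]) hx)) (fun x hx i hi => o3 m.w' hx hi.1)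
      fun x hx i hi => o2 (e'.symm.cel_mem hx (h8 ▸ hi))))
    (bad_norm (fun x hx i hi => mem_sup_right (e.symm.cel_mem hx hi))
      (fun x hx i hi => mem_sup_right (h8 ▸ e'.cel_mem hx hi)) fun x hx i hi => o3 e.w' hx hi.1)
  have hA : A ≤ A ⊔ F ⊔ C := le_sup_left.trans le_sup_left
  have hF : F ≤ A ⊔ F ⊔ C := le_sup_right.trans le_sup_left
  have hC : C ≤ A ⊔ F ⊔ C := le_sup_right
  have ht : A.subgroupOf (A ⊔ F ⊔ C) ⊔ F.subgroupOf _ ⊔ C.subgroupOf _ = ⊤ := by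
    rw [← subgroupOf_sup hA hF, ← subgroupOf_sup le_sup_left hC, subgroupOf_self]
  have := normal_subgroupOf_of_le_normalizer hY
  generalize A ⊔ F ⊔ C = Y at *
  have cd : ∀ {B B' : Subgroup G}, B ≤ Y → B' ≤ Y →
      Nat.card (ax (B.subgroupOf Y) (B'.subgroupOf Y)) = Nat.card (ax B B') := fun hB hB' => by
    rw [ax_subgroupOf hB', card_subgroupOf_of_le (inf_le_left.trans hB)]
  have := bad_top r2 se ho (QuotientGroup.mk'_surjective ((ax A C ⊔ ax F C ⊔ ax C A).subgroupOf Y))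
    (m.toNb.subgroupOf hA hF)
    ⟨e.toNb.subgroupOf hA hC, fun h => e.nt (card_eq_one.1 (by rw [← cd hA hC, h, card_bot]))⟩
    ((QuotientGroup.ker_mk' _).le.trans fun x hx => (mem_norm_subgroupOf hA).2 ((sup_le (sup_le
      (inf_le_left.trans le_normalizer) (h6.trans inf_le_right)) inf_le_right : _ ≤ 𝒩(A)) hx))
    (by
      rw [ax_subgroupOf hC, QuotientGroup.ker_mk']
      exact le_antisymm (fun x hx => ⟨hx.1, (sup_le (sup_le inf_le_right inf_le_right)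
        (inf_le_left.trans le_normalizer) : _ ≤ 𝒩(C)) hx.2⟩) fun x hx => ⟨hx.1, o1 hx⟩)
    (by rwa [cd hA hC, cd hA hF, m.cr])
    (by rw [cd hA hC, card_subgroupOf_of_le hA, m.cq]; have := m.two_le_q; nlinarith) ht
    (R := fun B => Relation.ReflTransGen (Mx q r) A (B.map Y.subtype)) (by rw [map_subgroupOf_eq_of_le hA])
    fun B B' hB k h hR => by
      obtain ⟨g', hg', rfl⟩ := pt_subgroupOf.1 (hB.trans k.pt)
      obtain ⟨g, hg, rfl⟩ := pt_subgroupOf.1 hB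
      rw [map_subgroupOf_eq_of_le (cj_le_of_mem hA ‹_›)] at hR ⊢
      rw [cd hA hC, cd (cj_le_of_mem hA hg) (cj_le_of_mem hA hg')] at h
      exact hR.trans (by_contra fun h' => h.not_ge (hm _ _ (Pt.of_cj g A) ⟨⟨e.toW.conj g,
        (Pt.of_cj g A).symm.trans (Pt.of_cj g' A), fun e => k.ne (by rw [e])⟩, fun e => by
          rw [e, card_bot] at h; exact absurd Nat.card_pos (Nat.lt_one_iff.1 h).not_gt⟩ h'))
  exact hn (by rwa [map_subgroupOf_eq_of_le hC] at this)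

theorem badThm (r2 : R2Thm.{u}) (se : SEThm.{u}) (ho : HoltP.{u}) : BadThm.{u} := by
  intro G _ _ q r A s c B hB
  suffices h : ∀ B B', Pt A B → Ed B B' → Relation.ReflTransGen (Mx q r) B B' by
    have := c B hB
    induction this with
    | refl => exact .refl
    | tail _ e ih => exact (ih (hB.trans e.pt.symm)).trans (h _ _ (hB.trans e.pt.symm) e)
  by_contra! h
  obtain ⟨B, B', h⟩ := h
  obtain ⟨p, hp, hm⟩ := Set.exists_max_image {p : Subgroup G × Subgroup G | Pt A p.1 ∧ Ed p.1 p.2 ∧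
    ¬ Relation.ReflTransGen (Mx q r) p.1 p.2} (fun p => Nat.card (ax p.1 p.2)) (Set.toFinite _) ⟨(B, B'), h⟩
  exact bad_main r2 se ho (s.pt hp.1) hp.2.1 hp.2.2 fun B B' a b c => hm (B, B') ⟨hp.1.trans a, b, c⟩

end CL.WTI
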