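/-
Weakly closed TI-subgroups, step (CL): two commuting lines with one axis.
-/
import Cfsg.Agent.Timm.W2

set_option autoImplicit false
set_option linter.unusedSectionVars false

open Cfsg Subgroup
open scoped commutatorElement

namespace CL.WTI

open CL.Even CL.Timm CL.Grp

universe u

theorem cl_count {α ι : Type*} [Finite α] [Finite ι] {I : Set ι} (O : ι → Set α) {T : Set α} {k : ℕ}
    (hk : ∀ i ∈ I, (O i).ncard = k) (hs : ∀ i ∈ I, O i ⊆ T) (hd : ∀ i ∈ I, ∀ j ∈ I, ∀ x ∈ O i, x ∈ O j → i = j) :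
    I.ncard * k ≤ T.ncard := by
  classical
  have h1 := Finset.card_biUnion (s := I.toFinite.toFinset) (t := fun i => (O i).toFinite.toFinset) fun i hi j hj e =>
    Finset.disjoint_left.2 fun x h1 h2 => e (hd i (by simpa using hi) j (by simpa using hj) x (by simpa using h1)
      (by simpa using h2))
  rw [Finset.sum_congr rfl (g := fun _ => k) fun i hi => by rw [← Set.ncard_eq_toFinset_card, hk i (by simpa using hi)],
    Finset.sum_const, smul_eq_mul, ← Set.ncard_eq_toFinset_card] at h1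
  rw [← h1, Set.ncard_eq_toFinset_card T]
  refine Finset.card_le_card fun x hx => ?_
  simp only [Finset.mem_biUnion, Set.Finite.mem_toFinset] at hx ⊢
  obtain ⟨i, hi, hx⟩ := hx
  exact hs i hi hx

variable {G : Type*} [Group G] [Finite G] {q r : ℕ} {A F F' B B' : Subgroup G} {g h x e : G}

/-- the hypotheses of (CL) -/
structure ClH (q r : ℕ) (A F F' : Subgroup G) : Prop where
  s : SmP q r A
  m : Mx q r A F
  m' : Mx q r A F'
  hV : ax A F = ax A F'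
  hc : ax F A ≤ 𝒞(ax F' A)
  hl : ¬ Ln A F F'

/-- the points of `⟨A, F, F'⟩` -/
def clL (A F F' : Subgroup G) : Set (Subgroup G) := {B | ∃ g ∈ A ⊔ F ⊔ F', cj g A = B}

/-- the elements centralising `h` modulo `E` -/
def clK (E : Subgroup G) (h : G) : Subgroup G where
  carrier := {g | g ∈ 𝒩(E) ∧ ⁅g, h⁆ ∈ E}
  mul_mem' ha hb := ⟨mul_mem ha.1 hb.1, cel_mul_left _ _ h ▸ mul_mem (conj_mem ha.1 hb.2) ha.2⟩
  one_mem' := ⟨one_mem _, by simp⟩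
  inv_mem' {a} ha := ⟨inv_mem ha.1, by
    rw [show ⁅a⁻¹, h⁆ = a⁻¹ * ⁅a, h⁆⁻¹ * a by simp only [cel_def]; group]
    exact conj_mem' ha.1 (inv_mem ha.2)⟩

theorem clL_pt (hB : B ∈ clL A F F') : Pt A B := let ⟨g, _, e⟩ := hB; ⟨g, e⟩

theorem clL_cj (hB : B ∈ clL A F F') (hg : g ∈ A ⊔ F ⊔ F') : cj g B ∈ clL A F F' :=
  let ⟨k, hk, e⟩ := hB; ⟨g * k, mul_mem hg hk, by rw [cj_mul, e]⟩

theorem clL_self (A F F' : Subgroup G) : A ∈ clL A F F' := ⟨1, one_mem _, cj_one A⟩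

namespace ClH

variable (c : ClH q r A F F')
include c

theorem mem_of_le (hB : Pt A B) (e : B ≤ A ⊔ F ⊔ F') : B ∈ clL A F F' :=
  c.m.exists_cj_eq hB (le_sup_left.trans le_sup_left) e

theorem n1 : ax F A ≤ 𝒩(F') := fun _ hf =>
  let ⟨_, hb, b1⟩ := c.m'.exists_mem'; c.m'.norm_of_comm' hb.1 b1 (comm_of_mem (c.hc hf) hb).symm

theorem n2 : ax F' A ≤ 𝒩(F) := fun _ hf =>
  let ⟨_, hb, b1⟩ := c.m.exists_mem'; c.m.norm_of_comm' hb.1 b1 (comm_of_mem (c.hc hb) hf)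

theorem nb : Nb F F' := ⟨c.m.w', c.m.pt.symm.trans c.m'.pt, fun e => c.hl (e ▸ Ln.right A _)⟩

theorem nn_eq : nn F F' = ax F A ⊔ ax F' A := by
  rw [nn, (c.m.symm.of_le c.nb c.n1).2, (c.m'.symm.of_le c.nb.symm c.n2).2]

theorem nn_eq' : nn A F' = ax A F ⊔ ax F' A := by rw [nn, c.hV]

theorem le_norm : A ⊔ F ⊔ F' ≤ 𝒩(nn A F ⊔ ax F' A) := by
  refine sup_le (sup_le ?_ ?_) ?_
  · have := le_norm_sup c.m.le_norm_nn c.m'.le_norm_nn
    rwa [c.nn_eq', ← sup_assoc, sup_eq_left.2 (le_sup_left : ax A F ≤ nn A F)] at this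
  · have := le_norm_sup c.m.toNb.symm.le_norm_nn c.nb.le_norm_nn
    rwa [c.nn_eq, nn_comm, ← sup_assoc, sup_eq_left.2 (le_sup_right : ax F A ≤ nn A F)] at this
  · have := le_norm_sup c.m'.toNb.symm.le_norm_nn c.nb.symm.le_norm_nn
    rwa [nn_comm F', nn_comm F', c.nn_eq, c.nn_eq', ← sup_sup_distrib_right] at this

theorem le_op : nn A F ⊔ ax F' A ≤ op A (ax A F) := sup_le c.m.nn_le_op (c.hV ▸ c.m'.ax_le_op)

theorem le_cent : nn A F ⊔ ax F' A ≤ 𝒞(nn A F ⊔ ax F' A) := by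
  have h1 := c.le_op.trans op_le_cent
  have h2 : ∀ {F : Subgroup G}, Mx q r A F → ax F A ≤ 𝒞(ax F A) := fun m =>
    inf_le_left.trans (m.w'.le_cent.trans (cent_mono inf_le_left))
  have h3 := le_centralizer_iff.1 h1
  rw [nn, cent_sup, cent_sup]
  exact le_inf (le_inf h1 (sup_le (sup_le (h3.trans (cent_mono (le_sup_right.trans le_sup_left))) (h2 c.m))
    (le_centralizer_iff.1 c.hc))) (sup_le (sup_le (h3.trans (cent_mono le_sup_right)) c.hc) (h2 c.m'))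

theorem fix (hB : B ∈ clL A F F') : nn A F ⊔ ax F' A ≤ 𝒩(B) := by
  obtain ⟨g, hg, rfl⟩ := hB
  rw [← cj_norm, ← cj_eq (c.le_norm hg)]
  exact cj_mono g (c.le_op.trans op_le_norm)

theorem inf_eq : A ⊓ (nn A F ⊔ ax F' A) = ax A F :=
  le_antisymm (inf_le_inf_left _ (c.fix (c.mem_of_le c.m.pt (le_sup_right.trans le_sup_left))))
    (le_inf inf_le_left (le_sup_left.trans le_sup_left))

theorem mx (hB : B ∈ clL A F F') (hB' : B' ∈ clL A F F') (hne : B' ≠ B) :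
    Mx q r B B' ∧ ax B B' = B ⊓ (nn A F ⊔ ax F' A) := by
  have h1 : Nat.card ↥(B ⊓ (nn A F ⊔ ax F' A)) = r := by
    obtain ⟨g, hg, rfl⟩ := hB
    rw [← cj_eq (c.le_norm hg), ← cj_inf, card_cj, c.inf_eq, c.m.cr]
  have h2 := inf_le_inf_left B (c.fix hB')
  have m := c.m.of_card (clL_pt hB) ⟨c.m.of_pt (clL_pt hB), (clL_pt hB).symm.trans (clL_pt hB'), hne⟩
    (h1 ▸ card_le_of_le h2)
  exact ⟨m, (eq_of_le_of_card_ge h2 (m.cr.trans h1.symm).le).symm⟩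

theorem sub : clL A F F' \ {A} ⊆ ClS q r A F F' := fun _ hB =>
  ⟨(c.mx (clL_self A F F') hB.1 hB.2).1, (c.mx (clL_self A F F') hB.1 hB.2).2.trans c.inf_eq,
    (c.mx hB.1 (clL_self A F F') (Ne.symm hB.2)).2 ▸ inf_le_right⟩

theorem count : q * q + q ≤ (clL A F F' \ {A}).ncard := by
  have hF' := c.mem_of_le c.m'.pt le_sup_right
  have h1 : ∀ B, Ln A F B → B ∈ clL A F F' := fun B l => c.mem_of_le (l.pt c.m.pt) (l.le.trans le_sup_left)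
  have h2 : ∀ B, Ln A F B → Mx q r F' B := fun B l => (c.mx hF' (h1 B l) fun e => c.hl (e ▸ l)).1
  have h3 := cl_count (I := insert A {B | ∃ a ∈ A, cj a F = B}) (fun B => {C | ∃ y ∈ F', cj y B = C})
    (T := clL A F F' \ {F'}) (k := q) (fun B l => (h2 B l).card_orb') (by
      rintro B l _ ⟨y, hy, rfl⟩
      exact ⟨clL_cj (h1 B l) (mem_sup_right hy), fun e => (h2 B l).ne (cj_inj.1 (e.trans (cj_eq (le_normalizer hy)).symm))⟩)
    (by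
      rintro B l C l' _ ⟨y, hy, rfl⟩ ⟨z, hz, e⟩
      by_contra hne
      have e1 : Ln F' B C := Or.inr ⟨z⁻¹ * y, mul_mem (inv_mem hz) hy, by rw [cj_mul, ← e, cj_inv_cj]⟩
      exact c.hl ((((c.s F c.m).of_ln c.m.toNb l l' (Ne.symm hne)).2.2.2.2 F').1
        ((((c.s.pt c.m'.pt B (h2 B l)).of_ln (h2 B l).toNb (Ln.right _ _) e1 (Ne.symm hne)).2.2.2.2 F').2 (Ln.left _ _))))
  have h4 : A ∉ {B | ∃ a ∈ A, cj a F = B} := fun ⟨a, ha, e⟩ =>
    c.m.ne (cj_inj.1 (e.trans (cj_eq (le_normalizer ha)).symm))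
  rw [Set.ncard_insert_of_notMem h4, c.m.card_orb', Set.ncard_sdiff_singleton_of_mem hF'] at h3
  rw [Set.ncard_sdiff_singleton_of_mem (clL_self A F F')]
  exact le_trans (le_of_eq (by ring)) h3

end ClH

theorem cla : CLa.{u} := fun s m m' hV hc hl =>
  (ClH.count ⟨s, m, m', hV, hc, hl⟩).trans (Set.ncard_le_ncard (ClH.sub ⟨s, m, m', hV, hc, hl⟩))

/-- the commutators with `h` of the elements of a subgroup of an abelian group `E` -/
def clI {E : Subgroup G} (hE : E ≤ 𝒞(E)) (hh : h ∈ 𝒩(E)) (U : Subgroup G) : Subgroup G :=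
  (U.subgroupOf E).map (MonoidHom.mk' (fun e : E => ⁅(e : G), h⁆) fun a b => by
    rw [coe_mul, cel_mul_left, conj_eq_of_mem (hE a.2) (cel_mem_left b.2 hh),
      comm_of_mem (hE (cel_mem_left a.2 hh)) (cel_mem_left b.2 hh)])

theorem mem_clI {E U : Subgroup G} {hE : E ≤ 𝒞(E)} {hh : h ∈ 𝒩(E)} (hU : U ≤ E) :
    x ∈ clI hE hh U ↔ ∃ e ∈ U, ⁅e, h⁆ = x :=
  ⟨fun ⟨e, h1, h2⟩ => ⟨e, h1, h2⟩, fun ⟨e, h1, h2⟩ => ⟨⟨e, hU h1⟩, h1, h2⟩⟩

theorem clI_le {E U : Subgroup G} {hE : E ≤ 𝒞(E)} {hh : h ∈ 𝒩(E)} (hU : U ≤ E) (h1 : h ∈ 𝒩(U)) : clI hE hh U ≤ U :=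
  fun _ hx => let ⟨_, h2, h3⟩ := (mem_clI hU).1 hx; h3 ▸ cel_mem_left h2 h1

theorem clI_card_sup {E U U' : Subgroup G} {hE : E ≤ 𝒞(E)} {hh : h ∈ 𝒩(E)} (hU : U ≤ E) (hU' : U' ≤ E) :
    Nat.card (clI hE hh (U ⊔ U')) ≤ Nat.card (clI hE hh U) * Nat.card (clI hE hh U') := by
  have h1 : ∀ {U}, U ≤ E → clI hE hh U ≤ E := fun hU =>
    (map_mono (comap_mono hU)).trans (clI_le (hE := hE) (hh := hh) le_rfl hh)
  rw [clI, subgroupOf_sup hU hU', Subgroup.map_sup]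
  exact card_sup_le ((h1 hU).trans (hE.trans ((cent_mono (h1 hU')).trans (cent_le_norm _))))

theorem clI_card_mul {E U : Subgroup G} {hE : E ≤ 𝒞(E)} {hh : h ∈ 𝒩(E)} (hU : U ≤ E) :
    Nat.card (clI hE hh U) * Nat.card (U ⊓ 𝒞(zpowers h) : Subgroup G) ≤ Nat.card U := by
  choose! σ h1 h2 using fun x (hx : x ∈ clI hE hh U) => (mem_clI hU).1 hx
  refine card_mul_le_of_inj inf_le_left σ h1 fun a ha b hb e => ?_
  rw [← h2 a ha, ← h2 b hb, show σ b = σ a * ((σ a)⁻¹ * σ b) by group, cel_mul_left,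
    cel_eq_one.2 (comm_of_mem e.2 (mem_zpowers h)).symm]
  group

/-- commutation with `x` commutes with commutation with `h` -/
theorem cl_cel {V : Subgroup G} (w : W A) (hV : V ≤ A) (hx : x ∈ A) (h1 : ⁅x, h⁆ ∈ V) (he : e ∈ op A V)
    (he' : h * e⁻¹ * h⁻¹ ∈ op A V) : ⁅x, ⁅e, h⁆⁆ = ⁅⁅x, e⁆, h⁆ := by
  have e1 : ⁅x, e⁻¹⁆ = ⁅x, e⁆⁻¹ := eq_inv_of_mul_eq_one_right (by rw [← op_cel_mul he (inv_mem he) hx]; simp)
  have e2 : h * x * h⁻¹ = ⁅x, h⁆⁻¹ * x := by simp only [cel_def]; group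
  have e3 : h * ⁅x, e⁻¹⁆ * h⁻¹ = ⁅x, h * e⁻¹ * h⁻¹⁆ := by
    rw [CL.Timm.cel_conj, e2, cel_mul_left, cel_eq_one.2 (comm_of_mem (op_le_cent he') (inv_mem h1)), mul_one,
      w.comm (inv_mem (hV h1)) (hV ((mem_op.1 he').2.2 x hx)), mul_inv_cancel_right]
  rw [show ⁅e, h⁆ = e * (h * e⁻¹ * h⁻¹) by simp only [cel_def]; group, op_cel_mul he he' hx, ← e3, e1,
    cel_def ⁅x, e⁆ h]
  group

theorem clb : CLb.{u} := fun {G} _ _ {q r A F F' h} s m m' hV hc hl h1 h2 h3 k1 k2 k3 hn hr => by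
  have c : ClH q r A F F' := ⟨s, m, m', hV, hc, hl⟩
  have hE := c.le_cent
  have hh : h ∈ 𝒩(nn A F ⊔ ax F' A) := norm_sup (norm_nn h1 h2) (norm_ax h3 h1)
  have VE : ax A F ≤ nn A F ⊔ ax F' A := le_sup_left.trans le_sup_left
  have hK : A ⊔ F ⊔ F' ≤ clK (nn A F ⊔ ax F' A) h := sup_le (sup_le
    (fun x hx => ⟨c.le_norm (mem_sup_left (mem_sup_left hx)), VE (k1 x hx)⟩)
    fun x hx => ⟨c.le_norm (mem_sup_left (mem_sup_right hx)), mem_sup_left (mem_sup_right (k2 x hx))⟩)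
    fun x hx => ⟨c.le_norm (mem_sup_right hx), mem_sup_right (k3 x hx)⟩
  have hfix : ∀ B ∈ clL A F F', h ∈ 𝒩(B) := by
    rintro _ ⟨g, hg, rfl⟩
    rw [← cj_norm, mem_cj, show g⁻¹ * h * g = ⁅g⁻¹, h⁆ * h by simp only [cel_def]; group]
    exact mul_mem (op_le_norm (c.le_op (hK (inv_mem hg)).2)) h1
  obtain ⟨x, hx, hx'⟩ := m.exists_not_mem
  have hψ : ∀ e ∈ nn A F ⊔ ax F' A, ⁅x, ⁅e, h⁆⁆ = ⁅⁅x, e⁆, h⁆ := fun e he =>
    cl_cel m.toW inf_le_left hx (k1 x hx) (c.le_op he) (c.le_op (conj_mem hh (inv_mem he)))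
  have hψ' : ∀ U ≤ nn A F ⊔ ax F' A, ∀ y ∈ clI hE hh U, ⁅x, y⁆ ∈ clI hE hh (ax A F) := fun U hU y hy => by
    obtain ⟨e, he, rfl⟩ := (mem_clI hU).1 hy
    exact (mem_clI VE).2 ⟨_, (mem_op.1 (c.le_op (hU he))).2.2 x hx, (hψ e (hU he)).symm⟩
  have hB : ∀ B ∈ clL A F F' \ {A}, clI hE hh (ax B A) ≤ ax B A ∧ x ∉ 𝒩(B) ∧
      Nat.card (clI hE hh (ax B A)) = Nat.card (clI hE hh (ax A F)) := fun B hB => by
    obtain ⟨b1, b2, b3⟩ := c.sub hB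
    have b4 := clI_le (hE := hE) (hh := hh) b3 (norm_ax (hfix B hB.1) h1)
    have b5 : x ∉ 𝒩(B) := fun e => hx' (b2.le ⟨hx, e⟩).2
    refine ⟨b4, b5, Nat.card_eq_of_bijective (fun y => ⟨_, hψ' _ b3 y y.2⟩)
      ⟨fun y z e => Subtype.ext (b1.cel_inj hx b5 (b4 y.2) (b4 z.2) (congrArg Subtype.val e)), fun y => ?_⟩⟩
    obtain ⟨v, hv, e⟩ := (mem_clI VE).1 y.2
    obtain ⟨b, hb, rfl⟩ := b1.exists_cel hx b5 (b2.ge hv)
    exact ⟨⟨_, (mem_clI b3).2 ⟨b, hb, rfl⟩⟩, Subtype.ext ((hψ b (b3 hb)).trans e)⟩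
  have c1 := (clI_card_mul (hE := hE) (hh := hh) VE).trans (m.cr ▸ hr)
  have c2 := Nat.le_of_mul_le_mul_right c1 Nat.card_pos
  have c3 : 1 < Nat.card (clI hE hh (ax A F)) := (one_lt_card_iff_ne_bot _).2 fun e => hn (mem_cent_iff.2 fun v hv =>
    cel_eq_one.1 (mem_bot.1 (e ▸ (mem_clI VE).2 ⟨v, hv, rfl⟩)))
  have c4 := (clI_card_sup (hE := hE) (hh := hh) le_sup_left le_sup_right).trans (Nat.mul_le_mul_right _
    (clI_card_sup VE (le_sup_right.trans le_sup_left)))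
  rw [(hB F ⟨c.mem_of_le m.pt (le_sup_right.trans le_sup_left), m.ne⟩).2.2,
    (hB F' ⟨c.mem_of_le m'.pt le_sup_right, m'.ne⟩).2.2] at c4
  have ΦE := clI_le (hE := hE) (hh := hh) le_rfl hh
  have c5 := card_le_mul_of_fib (K := 𝒞(zpowers x)) (fun y => ⁅x, y⁆) (hψ' _ le_rfl) fun y hy z hz e => by
    have := op_cel_mul (c.le_op (ΦE hy)) (c.le_op (ΦE (mul_mem (inv_mem hy) hz))) hx
    rw [mul_inv_cancel_left, ← e, left_eq_mul] at this
    exact mem_cent_iff.2 fun _ ⟨k, hk⟩ => hk ▸ ((show Commute _ _ from cel_eq_one.1 this).zpow_left k).eq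
  have c6 := cl_count (I := clL A F F' \ {A}) (fun B => (clI hE hh (ax B A) : Set G) \ {1})
    (T := (clI hE hh (nn A F ⊔ ax F' A) : Set G) \ (clI hE hh (nn A F ⊔ ax F' A) ⊓ 𝒞(zpowers x) : Subgroup G))
    (k := Nat.card (clI hE hh (ax A F)) - 1)
    (fun B b => by rw [Set.ncard_sdiff_singleton_of_mem (one_mem _), ← (hB B b).2.2]; rfl)
    (fun B b y hy => ⟨map_mono (comap_mono (c.sub b).2.2) hy.1, fun e => (hB B b).2.1
      ((c.sub b).1.norm_of_comm' ((hB B b).1 hy.1).1 hy.2 (comm_of_mem e.2 (mem_zpowers x)))⟩)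
    fun B b B' b' y hy hy' => m.eq_of_mem_pt (clL_pt b.1) (clL_pt b'.1) ((hB B b).1 hy.1).1 ((hB B' b').1 hy'.1).1 hy.2
  rw [Set.ncard_sdiff (SetLike.coe_subset_coe.2 inf_le_left)] at c6
  change _ ≤ Nat.card (clI hE hh (nn A F ⊔ ax F' A)) -
    Nat.card (clI hE hh (nn A F ⊔ ax F' A) ⊓ 𝒞(zpowers x) : Subgroup G) at c6
  have c7 := c.count
  have c8 := m.two_le_q
  generalize Nat.card (clI hE hh (nn A F ⊔ ax F' A) ⊓ 𝒞(zpowers x) : Subgroup G) = a at c5 c6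
  generalize Nat.card (clI hE hh (nn A F ⊔ ax F' A)) = b at c4 c5 c6
  generalize (clL A F F' \ {A}).ncard = n at c6 c7
  obtain ⟨k, hk⟩ : ∃ k, Nat.card (clI hE hh (ax A F)) = k + 2 := ⟨_, (Nat.sub_add_cancel c3).symm⟩
  rw [hk] at c2 c4 c5 c6
  have d1 : n * (k + 1) + a ≤ b := by
    have : 0 < n * (k + 1) := Nat.mul_pos (by nlinarith) k.succ_pos
    change n * (k + 1) ≤ b - a at c6
    omega
  have d2 : (k + 1) * ((k + 2) * n) ≤ (k + 1) * ((k + 2) * ((k + 2) * (k + 2))) := by nlinarith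
  have d3 := Nat.le_of_mul_le_mul_left (Nat.le_of_mul_le_mul_left d2 k.succ_pos) (by omega)
  nlinarith

end CL.WTI
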