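/-
Weakly closed TI-subgroups: `q = 2`, a triangle with an edge that is not maximal (G2).
-/
import Cfsg.Agent.Timm.W2

set_option autoImplicit false
set_option linter.unusedSectionVars false

open Cfsg Subgroup
open scoped commutatorElement

namespace CL.WTI

open CL.Even CL.Timm CL.Grp

universe u

namespace G2P

variable {G : Type*} [Group G] {r : ℕ} {A B C F : Subgroup G} {a b c f f' g i i' k k' u x x' y : G}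

/-- `f` is the element of `F_A` with `[A, f] = {1, i}` -/
def R (A F : Subgroup G) (f i : G) : Prop := f ∈ ax F A ∧ ∀ x ∈ A, x ∉ 𝒩(F) → ⁅x, f⁆ = i

theorem R.conj (h : R A F f i) (h1 : g ∈ 𝒩(A)) (h2 : g ∈ 𝒩(F)) : R A F (g * f * g⁻¹) (g * i * g⁻¹) :=
  ⟨conj_mem (norm_ax h2 h1) h.1, fun x hx hx' => by
    rw [← h.2 _ (conj_mem' h1 hx) fun e => hx' (by simpa [mul_assoc] using mul_mem (mul_mem h2 e) (inv_mem h2)),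
      CL.Timm.cel_conj]
    simp [mul_assoc]⟩

theorem R.mul (m : Nb A F) (h : R A F f i) (h' : R A F f' i') : R A F (f * f') (i * i') :=
  ⟨mul_mem h.1 h'.1, fun x hx hx' => by rw [m.cel_mul hx h.1 h'.1, h.2 x hx hx', h'.2 x hx hx']⟩

theorem R.inj (m : Nb A F) (h : R A F f i) (h' : R A F f' i) : f = f' :=
  let ⟨x, hx, hx'⟩ := m.exists_not_mem
  m.cel_inj hx hx' h.1 h'.1 ((h.2 x hx hx').trans (h'.2 x hx hx').symm)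

theorem R.eq (m : Nb A F) (h : R A F f i) (h' : R A F f i') : i = i' :=
  let ⟨x, hx, hx'⟩ := m.exists_not_mem
  (h.2 x hx hx').symm.trans (h'.2 x hx hx')

theorem R.mem (m : Nb A F) (h : R A F f i) : i ∈ ax A F :=
  let ⟨x, hx, hx'⟩ := m.exists_not_mem
  h.2 x hx hx' ▸ m.cel_mem hx h.1

theorem R.one : R A F 1 1 := ⟨one_mem _, fun _ _ _ => by simp⟩

variable [Finite G]

theorem idx (m : Mx 2 r A F) (hx : x ∈ A) (hx' : x' ∈ A) (e : x ∈ 𝒩(F) ↔ x' ∈ 𝒩(F)) : x * x' ∈ 𝒩(F) := by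
  have h1 := ((ax A F).subgroupOf A).card_mul_index
  rw [card_subgroupOf_of_le inf_le_left, m.cr, m.cq, mul_comm] at h1
  exact ((mul_mem_iff_of_index_two (Nat.eq_of_mul_eq_mul_right (by have := m.two_le_r; omega) h1) (a := ⟨x, hx⟩)
    (b := ⟨x', hx'⟩)).2 ((and_iff_right hx).trans (e.trans (and_iff_right hx').symm))).2

theorem R.of (m : Mx 2 r A F) (hx : x ∈ A) (h1 : x ∉ 𝒩(F)) (hf : f ∈ ax F A) : R A F f ⁅x, f⁆ :=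
  ⟨hf, fun y hy h2 => by
    have := m.cel_mul' (mul_mem hy hx) hx hf.2
    rwa [m.cel_ax ⟨mul_mem hy hx, idx m hy hx (iff_of_false h2 h1)⟩ hf, one_mul, mul_assoc, m.sq hx, mul_one] at this⟩

theorem R.ex (m : Mx 2 r A F) (hi : i ∈ ax A F) : ∃ f, R A F f i := by
  obtain ⟨x, hx, hx'⟩ := m.exists_not_mem
  obtain ⟨f, hf, rfl⟩ := m.exists_cel hx hx' hi
  exact ⟨f, R.of m hx hx' hf⟩

theorem R.norm (p : Tr 2 r A F C) (h : R A F f i) : f ∈ 𝒩(C) ↔ i ∈ 𝒩(C) := by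
  obtain ⟨x, hx, hx'⟩ := p.mF.exists_not_mem_ax p.mC p.ne
  rw [← h.2 x hx.1 hx', ← p.mem_norm_iff hx hx' h.1]
  exact ⟨norm_ax h.1.2, p.tri f h.1⟩

theorem R.uu (s : S2 2 r A) (m : Mx 2 r A F) (h : R A F f u) (hu : u ∈ uu 2 r A)
    (h1 : ∀ v ∈ uu 2 r A, v = 1 ∨ v = u) : f ∈ uu 2 r F ∧ ∀ v ∈ uu 2 r F, v = 1 ∨ v = f := by
  obtain ⟨x, hx, hx'⟩ := m.exists_not_mem
  obtain ⟨y, hy, -, e⟩ := (s.sm F m).exists_swap m.toNb hx hx'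
  have e1 := m.swap_conj' hx hy e h.1
  rw [h.2 x hx hx'] at e1
  rw [← m.swap_left hx hy e, ← cj_uu, ← e1]
  refine ⟨conj_mem_cj _ hu, ?_⟩
  rintro _ ⟨v, hv, rfl⟩
  rcases h1 v hv with rfl | rfl
  exacts [Or.inl (map_one _), Or.inr rfl]

/-- a triangle whose third edge is small -/
structure T (r : ℕ) (A F C : Subgroup G) : Prop extends Tr 2 r A F C where
  a1 : ∀ y ∈ F, y ∈ 𝒩(C) → y ∈ 𝒩(A)
  a2 : ∀ y ∈ C, y ∈ 𝒩(F) → y ∈ 𝒩(A)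

/-- the map `ψ_y` -/
def Ps (A F C : Subgroup G) (y i k : G) : Prop := i ∈ 𝒩(F) ∧ ∃ c, R A C c i ∧ R A F ⁅y, c⁆ k

theorem small (s : S2 2 r A) (p : Tr 2 r A F C) (nm : ¬ Mx 2 r F C) : ∀ y ∈ F, y ∈ 𝒩(C) → y ∈ 𝒩(A) := fun y hy h => by
  have h1 : ax F A ⊓ 𝒩(C) ≤ ax F C := inf_le_inf_right _ inf_le_left
  obtain ⟨n, hn⟩ := card_dvd_of_le h1
  have h2 := s.full.card p.mF p.mC p.ne
  have h3 : ¬ r ≤ Nat.card (ax F C) := fun e => nm (p.mF.of_card p.mF.pt p.ed.toNb e)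
  rw [← p.card_FI'] at h2
  refine ((eq_of_le_of_card_ge h1 ?_).ge ⟨hy, h⟩).1.2
  rcases Nat.lt_or_ge n 2 with e | e
  · exact hn.le.trans (mul_le_of_le_one_right' (by omega))
  · exact absurd (h2.ge.trans (by rw [hn, mul_comm]; exact Nat.mul_le_mul_left _ e)) h3

namespace T

variable (p : T r A F C)
include p

theorem symm : T r A C F := ⟨p.toTr.symm, p.a2, p.a1⟩

theorem act (hc : R A C c i) (h1 : c ∈ 𝒩(F)) (hf : f' ∈ ax F A) (h2 : f' ∉ 𝒩(C)) : R A F ⁅f', c⁆ i := by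
  obtain ⟨x, hx, hx'⟩ := p.mF.exists_not_mem
  have h3 := R.of p.mF hx hx' hf
  have h4 := (h3.mem p.mF.toNb).1
  have h5 := h3.mul p.mF.toNb (h3.conj hc.1.2 h1)
  rw [← hc.2 _ h4 fun e => h2 ((h3.norm p.toTr).2 e)]
  simpa only [cel_def f', cel_def _ c, p.mF.w'.inv_eq hf.1, p.mF.inv_eq h4, mul_assoc] using h5

theorem ex (hy : y ∈ F) (hi : i ∈ ax A F ⊓ ax A C) : ∃ k ∈ ax A F ⊓ ax A C, Ps A F C y i k := by
  obtain ⟨c, hc⟩ := R.ex p.mC hi.2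
  have h1 := p.ed.cel_mem hy ⟨hc.1.1, (hc.norm p.symm.toTr).2 hi.1.2⟩
  obtain ⟨x, hx, hx'⟩ := p.mF.exists_not_mem
  have h2 := R.of p.mF hx hx' ⟨h1.1, p.a1 _ h1.1 h1.2⟩
  have h3 := h2.mem p.mF.toNb
  exact ⟨_, ⟨h3, h3.1, (h2.norm p.toTr).1 h1.2⟩, hi.1.2, c, hc, h2⟩

theorem eq (h : Ps A F C y i k) (h' : Ps A F C y i k') : k = k' := by
  obtain ⟨-, c, h1, h2⟩ := h
  obtain ⟨-, c', h3, h4⟩ := h'
  exact h2.eq p.mF.toNb (h3.inj p.mC.toNb h1 ▸ h4)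

theorem mul (hy : y ∈ F) (h : Ps A F C y i k) (h' : Ps A F C y i' k') : Ps A F C y (i * i') (k * k') := by
  obtain ⟨h0, c, h1, h2⟩ := h
  obtain ⟨h0', c', h3, h4⟩ := h'
  exact ⟨mul_mem h0 h0', _, h1.mul p.mC.toNb h3, p.ed.cel_mul hy ⟨h1.1.1, (h1.norm p.symm.toTr).2 h0⟩
    ⟨h3.1.1, (h3.norm p.symm.toTr).2 h0'⟩ ▸ h2.mul p.mF.toNb h4⟩

theorem sh0 (hy : y ∈ F) (hf : f ∈ F) (h1 : f ∈ 𝒩(C)) (h : Ps A F C y i k) : Ps A F C (y * f) i k := by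
  obtain ⟨h0, c, h2, h3⟩ := h
  have h4 := (h2.norm p.symm.toTr).2 h0
  exact ⟨h0, c, h2, by rwa [p.ed.cel_mul' hy hf h4, p.ed.cel_ax ⟨hf, h1⟩ ⟨h2.1.1, h4⟩, mul_one]⟩

theorem sh1 (hy : y ∈ F) (hf : f ∈ ax F A) (h1 : f ∉ 𝒩(C)) (h : Ps A F C y i k) : Ps A F C (y * f) i (k * i) := by
  obtain ⟨h0, c, h2, h3⟩ := h
  have h4 := (h2.norm p.symm.toTr).2 h0
  exact ⟨h0, c, h2, p.ed.cel_mul' hy hf.1 h4 ▸ h3.mul p.mF.toNb (p.act h2 h4 hf h1)⟩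

theorem exf : ∃ f ∈ ax F A, f ∉ 𝒩(C) := by
  obtain ⟨x, hx, hx'⟩ := p.mC.exists_not_mem_ax p.mF p.ne.symm
  obtain ⟨f, hf⟩ := R.ex p.mF hx
  exact ⟨f, hf.1, fun e => hx' ((hf.norm p.toTr).1 e)⟩

theorem nes (hy : y ∈ F) (hy' : y ∉ 𝒩(A)) (h : Ps A F C y i k) (h1 : i ≠ 1) : k ≠ 1 ∧ k ≠ i := by
  have key : ∀ y ∈ F, y ∉ 𝒩(A) → ¬ Ps A F C y i 1 := fun y hy hy' ⟨_, c, h2, h3⟩ => h1 (h2.eq p.mC.toNb
    (by rw [p.ed.eq_one_of_cel (fun e => hy' (p.a1 y hy e)) h2.1.1 (h3.inj p.mF.toNb R.one)]; exact R.one))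
  refine ⟨fun e => key y hy hy' (e ▸ h), fun e => ?_⟩
  obtain ⟨f, hf, h2⟩ := p.exf
  have h3 := p.sh1 hy hf h2 h
  obtain ⟨-, c, h4, -⟩ := h
  rw [e, p.mC.sq (h4.mem p.mC.toNb).1] at h3
  exact key _ (mul_mem hy hf.1) (fun e => hy' (((𝒩(A)).mul_mem_cancel_right hf.2).1 e)) h3

omit p in
theorem conj (h : Ps A F C y i k) (h1 : g ∈ 𝒩(A)) (h2 : g ∈ 𝒩(F)) (h3 : g ∈ 𝒩(C)) :
    Ps A F C (g * y * g⁻¹) (g * i * g⁻¹) (g * k * g⁻¹) :=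
  let ⟨h0, _, h4, h5⟩ := h
  ⟨mul_mem (mul_mem h2 h0) (inv_mem h2), _, h4.conj h1 h3, CL.Timm.cel_conj g y _ ▸ h5.conj h1 h2⟩

theorem four (s : S2 2 r A) (m : Mx 2 r A B) (hi : i ∈ ax A F ⊓ ax A C) (h1 : i ∉ 𝒩(B)) :
    Nat.card (ax A F ⊓ ax A C : Subgroup G) ≤ 4 := by
  obtain ⟨y, hy, hy'⟩ := p.mF.symm.exists_not_mem
  have i1 : i ≠ 1 := fun e => h1 (e ▸ one_mem _)
  obtain ⟨k, hk, h2⟩ := p.ex hy hi
  obtain ⟨j, hj, j1, j2⟩ : ∃ j ∈ ax A F ⊓ ax A C, j ≠ 1 ∧ j ∈ 𝒩(B) := by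
    by_cases h3 : k ∈ 𝒩(B)
    · exact ⟨k, hk, (p.nes hy hy' h2 i1).1, h3⟩
    · exact ⟨k * i, mul_mem hk hi, fun e => (p.nes hy hy' h2 i1).2 (by rw [eq_inv_of_mul_eq_one_left e, s.inv_eq hi.1.1]),
        idx m hk.1.1 hi.1.1 (iff_of_false h3 h1)⟩
  obtain ⟨b, hb⟩ := R.ex m ⟨hj.1.1, j2⟩
  have bF := (hb.norm (s.tri B F m p.mF fun e => h1 (e.ge hi.1).2)).2 hj.1.2
  have bC := (hb.norm (s.tri B C m p.mC fun e => h1 (e.ge hi.2).2)).2 hj.2.2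
  have c0 : ∀ a ∈ A, a ∈ 𝒩(B) → b * a * b⁻¹ = a := fun a ha e => by rw [← m.comm_ax ⟨ha, e⟩ hb.1, mul_inv_cancel_right]
  have c1 : ∀ a ∈ A, a ∉ 𝒩(B) → b * a * b⁻¹ = a * j := fun a ha e => by
    rw [← hb.2 a ha e, cel_def, s.inv_eq ha, ← mul_assoc, ← mul_assoc, ← mul_assoc, s.sq ha, one_mul]
  have h3 := conj_mem bF hy
  have bA : b ∈ 𝒩(A) := hb.1.2
  have h4 : y⁻¹ * (b * y * b⁻¹) ∈ ax F A := ⟨F.mul_mem (F.inv_mem hy) h3, idx p.mF.symm (inv_mem hy) h3 (iff_of_false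
    (fun e => hy' (inv_mem_iff.1 e)) fun e => hy' (by simpa [mul_assoc] using mul_mem (mul_mem (inv_mem bA) e) bA))⟩
  by_cases h5 : y⁻¹ * (b * y * b⁻¹) ∈ 𝒩(C)
  · obtain ⟨l, -, h6⟩ := p.ex hy hj
    have h7 := p.sh0 hy h4.1 h5 (p.mul hy h2 h6)
    have h8 := conj h2 hb.1.2 bF bC
    rw [mul_inv_cancel_left] at h7
    rw [c1 i hi.1.1 h1] at h8
    have h9 := p.eq h7 h8
    by_cases e : k ∈ 𝒩(B)
    · exact absurd (mul_eq_left.1 (h9.trans (c0 k hk.1.1 e))) (p.nes hy hy' h6 j1).1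
    · exact absurd (mul_left_cancel (h9.trans (c1 k hk.1.1 e))) (p.nes hy hy' h6 j1).2
  · choose ψ h6 h7 using fun a : (ax A F ⊓ ax A C : Subgroup G) => p.ex hy a.2
    refine (Nat.card_le_card_of_injective (fun a => ((a.1 ∈ 𝒩(B), ψ a ∈ 𝒩(B)) : Prop × Prop)) fun a a' e => ?_).trans
      (by simp)
    have h8 := p.mul hy (h7 a) (h7 a')
    have h9 := conj h8 hb.1.2 bF bC
    have h10 := p.sh1 hy h4 h5 h8
    rw [c0 _ (mul_mem a.2.1.1 a'.2.1.1) (idx m a.2.1.1 a'.2.1.1 (Iff.of_eq (congrArg Prod.fst e))),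
      c0 _ (mul_mem (h6 a).1.1 (h6 a').1.1) (idx m (h6 a).1.1 (h6 a').1.1 (Iff.of_eq (congrArg Prod.snd e)))] at h9
    rw [mul_inv_cancel_left] at h10
    exact Subtype.ext (by rw [eq_inv_of_mul_eq_one_left (mul_eq_left.1 (p.eq h10 h9)), s.inv_eq a'.2.1.1])

theorem bot (s : S2 2 r A) (m : Mx 2 r A B) (hu : u ∈ uu 2 r A)
    (h0 : ∀ v ∈ ax A F ⊓ ax A C, v ∈ 𝒩(B) → v = 1 ∨ v = u) : u = 1 := by
  by_contra u1
  have hI : ∀ v ∈ uu 2 r A, v ∈ ax A F ⊓ ax A C := fun v hv =>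
    ⟨⟨hv.1, (mem_uu.1 hv).2 F p.mF⟩, hv.1, (mem_uu.1 hv).2 C p.mC⟩
  have hU := fun v hv => h0 v (hI v hv) ((mem_uu.1 hv).2 B m)
  obtain ⟨y, hy, hy'⟩ := p.mF.symm.exists_not_mem
  obtain ⟨k, hk, h1⟩ := p.ex hy (hI u hu)
  obtain ⟨k1, k2⟩ := p.nes hy hy' h1 u1
  obtain ⟨-, c, h2, h3⟩ := h1
  obtain ⟨y', h4, h5⟩ : ∃ y' ∈ C, Ps A C F y' k u := by
    obtain ⟨y', h4, h5⟩ := p.mC.symm.exists_not_mem
    obtain ⟨l, hl, h6⟩ := p.symm.ex h4 ⟨hk.2, hk.1⟩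
    obtain ⟨l1, l2⟩ := p.symm.nes h4 h5 h6 k1
    by_cases e : l ∈ 𝒩(B)
    · exact ⟨y', h4, (h0 l ⟨hl.2, hl.1⟩ e).resolve_left l1 ▸ h6⟩
    · obtain ⟨c', h7, h8⟩ := p.symm.exf
      exact ⟨_, mul_mem h4 h7.1, (h0 _ (mul_mem ⟨hl.2, hl.1⟩ hk) (idx m hl.1.1 hk.1.1 (iff_of_false e fun e' =>
        (h0 k hk e').elim k1 k2))).resolve_left (fun e' => l2 (by
          rw [eq_inv_of_mul_eq_one_left e', s.inv_eq hk.1.1])) ▸ p.symm.sh1 h4 h7 h8 h6⟩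
  obtain ⟨-, f, h6, h7⟩ := h5
  have e1 := h3.inj p.mF.toNb h6
  have e2 := h7.inj p.mC.toNb h2
  have e3 : y * c * y⁻¹ = y' * f * y'⁻¹ := by
    rw [eq_mul_of_mul_inv_eq e1, eq_mul_of_mul_inv_eq e2]
    exact p.comm h6.1.1 ((h6.norm p.toTr).2 hk.2.2) h2.1.1 ((h2.norm p.symm.toTr).2 (hI u hu).1.2)
  have e4 := s.eq_of_mem_pt (p.mC.pt.cj_right y) (p.mF.pt.cj_right y') (conj_mem_cj y h2.1.1)
    (e3 ▸ conj_mem_cj y' h6.1.1) fun e => u1 (h2.eq p.mC.toNb (by rw [show c = 1 by simpa using e]; exact R.one))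
  have h8 := conj_mem_cj y (h2.uu s p.mC hu hU).1
  rw [cj_uu, e4, ← cj_uu, e3, mem_cj'] at h8
  obtain ⟨f', h9⟩ := R.ex p.mF (hI u hu).1
  rcases (h9.uu s p.mF hu hU).2 f h8 with rfl | rfl
  exacts [k1 (h6.eq p.mF.toNb R.one), k2 (h6.eq p.mF.toNb h9)]

end T

end G2P

open G2P in
theorem g2Thm : G2Thm.{u} := by
  intro G _ _ r A F C s mF mC ne nm
  have t := s.tri F C mF mC ne
  have p : T r A F C := ⟨t, small s t nm, small s t.symm fun m => nm m.symm⟩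
  have c1 := s.full.card mF mC ne
  have c2 : ∀ v ∈ A, v ≠ 1 → Nat.card (zpowers v) = 2 := fun v hv h => by
    rw [Nat.card_zpowers, orderOf_eq_prime (by rw [pow_two, s.sq hv]) h]
  have c3 : ∀ v ∈ A, ∀ w ∈ zpowers v, w = 1 ∨ w = v := fun v hv w ⟨n, e⟩ => by
    rcases Int.even_or_odd' n with ⟨n, rfl | rfl⟩ <;> simp [← e, zpow_add, zpow_mul, pow_two, s.sq hv]
  have c4 : 8 ≤ r := by
    obtain ⟨i, hi, i1⟩ := (bot_or_exists_ne_one _).resolve_left t.nt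
    obtain ⟨y, hy, hy'⟩ := mF.symm.exists_not_mem
    obtain ⟨k, hk, h⟩ := p.ex hy hi
    have h1 := card_lt_of_lt (zpowers_le.2 hi) fun e => (c3 i hi.1.1 k (e hk)).elim (p.nes hy hy' h i1).1 (p.nes hy hy' h i1).2
    obtain ⟨n, rfl⟩ := mF.pow_r
    rw [c2 i hi.1.1 i1] at h1
    exact Nat.pow_le_pow_right (n := 2) (i := 3) two_pos ((Nat.pow_lt_pow_iff_right (a := 2) (n := 2) one_lt_two).1 (by omega))
  refine ⟨c4, ?_⟩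
  by_cases h : ∀ B, Mx 2 r A B → ax A F ⊓ ax A C ≤ 𝒩(B)
  · refine Or.inl (by rwa [show uu 2 r A = ax A F ⊓ ax A C from le_antisymm (fun v hv =>
      ⟨⟨hv.1, (mem_uu.1 hv).2 F mF⟩, hv.1, (mem_uu.1 hv).2 C mC⟩) fun v hv => mem_uu.2 ⟨hv.1.1, fun B m => h B m hv⟩])
  push Not at h
  obtain ⟨B, m, h⟩ := h
  obtain ⟨i, hi, h1⟩ := SetLike.not_le_iff_exists.1 h
  have h2 := p.four s m hi h1
  refine Or.inr ⟨by omega, eq_bot_iff.2 fun u hu => by_contra fun u1 => u1 (p.bot s m hu fun v hv h3 => c3 u hu.1 v ?_)⟩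
  by_contra h4
  have h5 := card_lt_of_lt (B := ax A F ⊓ ax A C ⊓ 𝒩(B)) (zpowers_le.2 ⟨⟨⟨hu.1, (mem_uu.1 hu).2 F mF⟩, hu.1,
    (mem_uu.1 hu).2 C mC⟩, (mem_uu.1 hu).2 B m⟩) fun e => h4 (e ⟨hv, h3⟩)
  have h6 := card_lt_of_lt (inf_le_left (a := ax A F ⊓ ax A C) (b := 𝒩(B))) fun e => h (e.trans inf_le_right)
  have h7 := card_dvd_of_le (inf_le_left (a := ax A F ⊓ ax A C) (b := 𝒩(B)))
  rw [c2 u hu.1 u1] at h5
  rw [show Nat.card (ax A F ⊓ ax A C : Subgroup G) = 4 by omega,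
    show Nat.card (ax A F ⊓ ax A C ⊓ 𝒩(B) : Subgroup G) = 3 by omega] at h7
  exact absurd h7 (by norm_num)

end CL.WTI
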