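/-
Weakly closed TI-subgroups: the case `q = 2` with three axes.
-/
import Cfsg.Agent.Timm.W2

set_option autoImplicit false
set_option linter.unusedSectionVars false

open Cfsg Subgroup
open scoped commutatorElement

namespace CL.WTI

open CL.Even CL.Timm CL.Grp

universe u

section

variable {G : Type*} [Group G] [Finite G] {A B B' C : Subgroup G} {f x : G} {r : ℕ}

theorem g2b_ax (m : Mx 2 r A B) : uu 2 r A ≤ ax A B := fun _ h => ⟨(mem_uu.1 h).1, (mem_uu.1 h).2 _ m⟩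

theorem g2b_star (s : S2 2 r B) (m : Mx 2 r B B') (hx : x ∈ B) (hf : f ∈ uu 2 r B') : ⁅x, f⁆ ∈ uu 2 r B := by
  have hf' := g2b_ax m.symm hf
  by_cases e : x ∈ 𝒩(B')
  · rw [m.cel_ax ⟨hx, e⟩ hf']; exact one_mem _
  obtain ⟨y, hy, -, e'⟩ := (s.sm _ m).exists_swap m.toNb hx e
  have := conj_mem_cj (x * y * x) hf
  rwa [cj_uu, m.swap_right hx hy e', (m.swap_conj hx hy e' hf').1] at this

theorem g2b_card (h : 2 * Nat.card (uu 2 r A) = r) (hB : Pt A B) : 2 * Nat.card (uu 2 r B) = r := by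
  obtain ⟨g, rfl⟩ := hB
  rwa [← cj_uu, card_cj]

theorem g2b_eq (s : S2 2 r B) (h : 2 * Nat.card (uu 2 r B) = r) (k : Nb B C) (hn : ¬ Mx 2 r B C)
    (e : uu 2 r B ≤ 𝒩(C)) : uu 2 r B = ax B C := by
  obtain ⟨F, m⟩ := s.ex
  obtain ⟨n, h1⟩ := m.pow_r
  obtain ⟨j, h2⟩ := (s.isP.to_le (inf_le_left : ax B C ≤ B)).exists_card_eq
  have h3 : 2 ^ j < 2 ^ n := by
    rw [← h1, ← h2]; exact not_le.1 fun e => hn (m.of_card (Pt.refl B) k e)
  have h4 : 2 ^ (j + 1) ≤ 2 ^ n := Nat.pow_le_pow_right (by omega) ((Nat.pow_lt_pow_iff_right (by omega)).1 h3)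
  exact eq_of_le_of_card_ge (le_inf inf_le_left e) (by rw [pow_succ, ← h1] at h4; exact h2.le.trans (by omega))

theorem g2b_tr (s : S2 2 r B) (t : Tr 2 r B C B') : uu 2 r C ≤ 𝒩(B') := fun u hu =>
  t.tri u (g2b_ax t.mF.symm hu) (le_norm_of_commutator_le (commutator_le.2 fun _ hx _ hv =>
    g2b_ax t.mC (g2b_star s t.mF hx.1 hv)) hu)

theorem g2b_step (s : S2 2 r A) (h8 : 8 ≤ r) (h : 2 * Nat.card (uu 2 r A) = r) (hB : Pt A B) (m : Mx 2 r B B')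
    (R : uu 2 r A ≤ 𝒩(B) ∧ uu 2 r B ≤ 𝒩(A)) : uu 2 r A ≤ 𝒩(B') ∧ uu 2 r B' ≤ 𝒩(A) := by
  by_cases e1 : B' = A
  · subst e1; exact ⟨inf_le_left.trans le_normalizer, inf_le_left.trans le_normalizer⟩
  by_cases e2 : Mx 2 r A B'
  · exact ⟨(g2b_ax e2).trans inf_le_right, (g2b_ax e2.symm).trans inf_le_right⟩
  have e3 : B ≠ A := fun e => e2 (e ▸ m)
  have sB := s.pt hB
  have hB' := hB.trans m.pt
  by_cases e4 : Mx 2 r A B
  · have t := sB.tri A B' e4.symm m fun e => e2 (sB.mx_of_ax e4.symm m e e1)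
    exact ⟨g2b_tr sB t, g2b_tr sB t.symm⟩
  have k : Nb A B := ⟨s.toW, hB, e3⟩
  have k' : Nb A B' := ⟨s.toW, hB', e1⟩
  have a1 := g2b_eq s h k e4 R.1
  have a2 := g2b_eq sB (g2b_card h hB) k.symm (fun e => e4 e.symm) R.2
  have c1 : ∀ {x u}, x ∈ B → u ∈ uu 2 r A → ⁅x, u⁆ ∈ ax B B' := fun hx hu =>
    g2b_ax m (a2 ▸ k.symm.cel_mem hx (a1 ▸ hu))
  have n1 : uu 2 r A ≤ 𝒩(ax B B') := le_norm_of_commutator_le (commutator_le.2 fun _ hx _ hv => c1 hx.1 hv)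
  obtain ⟨u, hu, u1, u2⟩ : ∃ u ∈ uu 2 r A, u ≠ 1 ∧ u ∈ 𝒩(B') := by
    by_contra! hn
    have := Nat.card_le_card_of_injective (fun u : uu 2 r A => (⟨cj u B', sB.uni.exists_cj m (R.1 u.2) (n1 u.2)⟩ :
      {C | ∃ a ∈ B, cj a B' = C})) fun a b e => Subtype.ext (by_contra fun e' =>
        hn _ (mul_mem (inv_mem b.2) a.2) (fun e'' => e' (inv_mul_eq_one.1 e'').symm)
          (cj_eq_cj_iff.1 (congrArg Subtype.val e)))
    rw [Nat.card_coe_set_eq, m.card_orb'] at this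
    omega
  obtain ⟨x, hx, hx'⟩ := m.exists_not_mem
  have n2 : uu 2 r B' ≤ 𝒩(A) := fun f hf => by
    have hf' := g2b_ax m.symm hf
    have e := m.cel_conj hx hf' (R.1 hu) u2 (c1 hx hu)
    rw [k.comm_ax (a1.le hu) (a2.le (g2b_star sB m hx hf)), mul_inv_cancel_right] at e
    exact s.norm_of_comm (Pt.refl A) (mem_uu.1 hu).1 u1
      (mul_inv_eq_iff_eq_mul.1 (m.cel_inj hx hx' hf' (conj_mem (norm_ax u2 (R.1 hu)) hf') e).symm).symm
  have a3 := g2b_eq (s.pt hB') (g2b_card h hB') k'.symm (fun e => e2 e.symm) n2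
  refine ⟨?_, n2⟩
  rw [a1]
  rcases k.lc k' ((elem_isP m.elem_nn).to_le (a2 ▸ a3 ▸ sup_le_sup (g2b_ax m) (g2b_ax m.symm))) with e | e
  · exact e.trans inf_le_right
  · refine (eq_of_le_of_card_ge e ?_).ge.trans inf_le_right
    have := g2b_card h hB'
    rw [← k'.card_eq, ← a1, ← a3]
    omega

end

theorem g2bThm : G2bThm.{u} := by
  intro G _ _ _ r A hG s c h8 h
  have R : ∀ B, Relation.ReflTransGen (Mx 2 r) A B → Pt A B ∧ uu 2 r A ≤ 𝒩(B) ∧ uu 2 r B ≤ 𝒩(A) := fun B hB => by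
    induction hB with
    | refl => exact ⟨Pt.refl A, inf_le_left.trans le_normalizer, inf_le_left.trans le_normalizer⟩
    | tail _ m ih => exact ⟨ih.1.trans m.pt, g2b_step s h8 h ih.1 m ih.2⟩
  obtain ⟨u, hu, u1⟩ := (bot_or_exists_ne_one (uu 2 r A)).resolve_left fun e => by
    rw [e, card_bot] at h; omega
  have k : normalClosure {u} ≤ centralizer {u} := (closure_le _).2 fun y hy => by
    obtain ⟨_, rfl, e⟩ := Group.mem_conjugatesOfSet_iff.1 hy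
    obtain ⟨g, rfl⟩ := isConj_iff.1 e
    have h1 := conj_mem_cj g hu
    rw [cj_uu] at h1
    have h2 := (R _ (c _ (Pt.of_cj g A))).2
    refine mem_centralizer_singleton_iff.2 (Eq.symm ?_)
    by_cases e : cj g A = A
    · exact s.comm (mem_uu.1 hu).1 (e ▸ (mem_uu.1 h1).1)
    · exact (⟨s.toW, Pt.of_cj g A, e⟩ : Nb A _).comm_ax ⟨(mem_uu.1 hu).1, h2.1 hu⟩ ⟨(mem_uu.1 h1).1, h2.2 h1⟩
  rcases (normalClosure_normal (s := {u})).eq_bot_or_eq_top with e | e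
  · exact u1 (mem_bot.1 (e ▸ subset_normalClosure (Set.mem_singleton u)))
  rcases (inferInstance : (center G).Normal).eq_bot_or_eq_top with e' | e'
  · exact u1 (mem_bot.1 (e' ▸ mem_center_iff.2 fun g => mem_centralizer_singleton_iff.1 (k (e ▸ mem_top g))))
  · exact hG ⟨⟨fun a b => mem_center_iff.1 (e' ▸ mem_top b : b ∈ center G) a⟩⟩

end CL.WTI
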