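/-
Weakly closed TI-subgroups: the commuting lemma.
-/
import Cfsg.Agent.Timm.W2

set_option autoImplicit false

open Cfsg Subgroup
open scoped commutatorElement

namespace CL.WTI

open CL.Even CL.Timm CL.Grp

universe u

variable {G : Type*} [Group G] [Finite G] {q r : ℕ} {A B F : Subgroup G} {f : G}

theorem lemC_core (m : Mx q r A F) (k : Mx q r A B) (hV : ax A B = ax A F) (hf : f ∈ ax F A) (f1 : f ≠ 1)
    (h : ∀ b ∈ ax B A, ⁅f, b⁆ * ⁅f, b⁆ = 1 ∧ ⁅f, b⁆ ∈ 𝒞(ax B A)) : ax B A ≤ 𝒞(ax F A) := by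
  by_contra hn
  have h0 : ∀ b ∈ ax B A, b ∈ 𝒩(F) → b = 1 := fun b hb e => by_contra fun b1 =>
    hn (Nb.comm_of_fix k.toEd m.toNb hV hb b1 e)
  have hB : ax B A ≤ op A (ax A F) := hV ▸ k.ax_le_op
  have hA : A ≤ op A (ax A F) := m.le_cent.trans (cent_le_op inf_le_left)
  have hn' : ax B A ≤ 𝒩(A) := inf_le_right
  have fi := m.w'.inv_eq hf.1
  -- the commutators with `f`
  have h1 : ∀ g ∈ ax B A ⊔ A, ⁅f, g⁆ ∈ 𝒞(ax B A ⊔ A) ⊓ 𝒩(F) := fun g hg => by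
    obtain ⟨b, hb, x, hx, rfl⟩ := (mem_sup_nr hn').1 hg
    have k1 := m.cel_mem' hf hx
    rw [cel_mul_right, conj_eq_of_mem (op_le_cent (hB hb)) k1, cent_sup]
    refine mul_mem ⟨⟨(h b hb).2, m.op_cel inf_le_left (m.ax_le_op hf) (hB hb)⟩, m.norm_of_comm' hf.1 f1 ?_⟩
      ⟨⟨mem_cent_iff.2 fun c hc => (k.comm_ax (hV ▸ k1) hc).symm, m.le_cent k1.1⟩, k1.2⟩
    calc ⁅f, b⁆ * f = f * (b * f⁻¹ * b⁻¹ * f⁻¹⁻¹) := by rw [cel_def]; group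
      _ = f * ⁅f, b⁆⁻¹ := by rw [fi, fi, cel_def, fi]; simp [mul_assoc, fi]
      _ = _ := by rw [inv_eq_of_mul_eq_one_left (h b hb).1]
  have h2 : ∀ g ∈ ax B A ⊔ A, ⁅f, g⁆ ∈ op F (ax F A) := fun g hg => by
    have k1 := cent_le_op (inf_le_left : ax A F ≤ A) (cent_mono le_sup_right (h1 g hg).1)
    have k2 := m.op_cent k1 (h1 g hg).2
    exact mem_op.2 ⟨(h1 g hg).2, k2, fun y hy =>
      m.cel_mem_of_cent (h1 g hg).2 (by rw [cent_sup]; exact ⟨op_le_cent k1, k2⟩) hy⟩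
  obtain ⟨y, hy, hy'⟩ := m.toNb.symm.exists_not_mem
  obtain ⟨g, hg, g1, g2⟩ : ∃ g ∈ ax B A ⊔ A, ⁅y, ⁅f, g⁆⁆ = 1 ∧ g ∉ ax A F := by
    by_contra! hc
    have k1 := card_le_mul_of_fib (A := ax B A ⊔ A) (K := ax A F) (T := ax F A) (fun g => ⁅y, ⁅f, g⁆⁆)
      (fun g hg => (mem_op.1 (h2 g hg)).2.2 y hy) fun g hg g' hg' e => by
        have k2 := mul_mem (inv_mem hg) hg'
        refine hc _ k2 (mul_left_cancel (a := ⁅y, ⁅f, g⁆⁆) ?_)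
        rw [← op_cel_mul (h2 g hg) (h2 _ k2) hy, mul_one, ← conj_eq_of_mem (le_centralizer_iff.1
          (zpowers_le.2 (h1 _ k2).1) hg) (mem_zpowers _), ← cel_mul_right, mul_inv_cancel_left]
        exact e.symm
    have k2 := card_lt_of_lt (A := nn A B) (B := ax B A ⊔ A) (sup_le (inf_le_left.trans le_sup_right) le_sup_left)
      fun e => k.not_le fun x hx => (k.mem_ax_of_nn hx (e (mem_sup_right hx))).2
    have k3 := card_le_of_le (inf_le_right : (ax B A ⊔ A) ⊓ ax A F ≤ ax A F)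
    rw [k.card_nn'] at k2
    rw [m.cr] at k3
    rw [m.cr'] at k1
    exact absurd (k1.trans (Nat.mul_le_mul_left r k3)) (not_le.2 k2)
  have e1 : g * f * g⁻¹ = ⁅f, g⁆⁻¹ * f := by rw [cel_def]; group
  have e2 : ∀ z ∈ F, z * ⁅f, g⁆ = ⁅f, g⁆ * z → z ∈ 𝒩(cj g F) := fun z hz e =>
    m.w'.norm_of_comm (Pt.of_cj g F) (conj_mem_cj g hf.1) (fun e => f1 (conj_eq_one_iff.1 e)) (by
      rw [e1]
      exact ((show Commute z ⁅f, g⁆ from e).inv_right.mul_right (m.w'.comm hz hf.1)).eq)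
  have e3 : g ∈ 𝒩(F) := cj_eq_iff_mem.1 (m.symm.eq_of_lt (Pt.of_cj g F)
    (fun z hz => e2 z hz.1 (comm_of_mem (op_le_cent (h2 g hg)) hz)) hy hy' (e2 y hy (cel_eq_one.1 g1)))
  obtain ⟨b, hb, x, hx, rfl⟩ := (mem_sup_nr hn').1 hg
  by_cases hx' : x ∈ 𝒩(B)
  · have k1 : x ∈ ax A F := hV ▸ (⟨hx, hx'⟩ : x ∈ ax A B)
    rw [h0 b hb ((mul_mem_cancel_right (show x ∈ 𝒩(F) from k1.2)).1 e3), one_mul] at g2
    exact g2 k1
  · have k1 : b * x * (b * x) = ⁅b, x⁆ := by rw [cel_def, m.inv_eq hx, k.w'.inv_eq hb.1]; group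
    have k2 := m.toEd.sq_eq_one (mul_mem (hB hb) (hA hx)) e3 (k1 ▸ (k.cel_mem' hb hx).1)
    rw [k1, k.cel_symm hx hb.2] at k2
    rw [k.eq_one_of_cel hx' hb.1 k2, one_mul] at g2 e3
    exact g2 ⟨hx, e3⟩

theorem lemC : LemC.{u} := by
  intro G _ _ q r A F F' m m' hP
  have := Fact.mk Nat.prime_two
  obtain ⟨R, hR⟩ : ∃ R, R = ax F A ⊔ ax F' A := ⟨_, rfl⟩
  rw [← hR] at hP
  have hRA : R ≤ 𝒩(A) := hR ▸ sup_le inf_le_right inf_le_right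
  obtain ⟨E, ⟨e1, e2, e3, e4⟩, hmax⟩ := (Set.toFinite {E : Subgroup G | E ≤ R ∧ (∀ x ∈ E, x * x = 1) ∧ ax F' A ≤ E ∧
    ∀ K, (∀ B, Mx q r A B → ax B A ≤ E → ax B A ≤ K) → E ≤ K}).exists_maximal
    ⟨ax F' A, hR ▸ le_sup_right, fun x hx => m'.w'.sq hx.1, le_rfl, fun K hK => hK F' m' le_rfl⟩
  have ec : E ≤ 𝒞(E) := fun a ha => mem_cent_iff.2 fun b hb => by
    rw [← inv_eq_of_mul_eq_one_left (e2 _ (mul_mem hb ha)), mul_inv_rev, inv_eq_of_mul_eq_one_left (e2 a ha),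
      inv_eq_of_mul_eq_one_left (e2 b hb)]
  have key : ∀ C, Mx q r A C → ax C A ≤ R → ∀ f ∈ ax C A, f ≠ 1 → f ∈ 𝒩(E) → ax C A ≤ E := fun C k hC f hf f1 hn => by
    have h1 : E ≤ 𝒞(ax C A) := e4 _ fun B kB hB =>
      lemC_core k kB (kB.lc k (hP.to_le (sup_le (hB.trans e1) hC))) hf f1 fun b hb =>
        ⟨e2 _ (cel_mem_right hn (hB hb)), cent_mono hB (ec (cel_mem_right hn (hB hb)))⟩
    refine le_sup_right.trans (hmax (y := E ⊔ ax C A) ⟨sup_le e1 hC, fun x hx => ?_, e3.trans le_sup_left,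
      fun K hK => sup_le (e4 K fun B kB hB => hK B kB (hB.trans le_sup_left)) (hK C k le_sup_right)⟩ le_sup_left)
    obtain ⟨a, ha, b, hb, rfl⟩ := (mem_sup_nr (h1.trans (cent_le_norm _))).1 hx
    rw [mul_assoc, ← mul_assoc b, comm_of_mem (h1 ha) hb, mul_assoc, k.w'.sq hb.1, mul_one, e2 a ha]
  have hRE : R ≤ 𝒩(E) := by
    by_contra hn
    obtain ⟨g, ⟨hg, hg'⟩, g1⟩ := SetLike.exists_of_lt (lt_inf_normalizer_of_isPGroup hP
      (lt_of_le_of_ne (inf_le_left : R ⊓ 𝒩(E) ≤ R) fun e => hn (e.ge.trans inf_le_right)))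
    refine g1 ⟨hg, mem_norm_of_cj_le (cj_le_iff.2 (e4 _ fun B kB hB => cj_le_iff.1 ?_))⟩
    have h1 : cj g (ax B A) = ax (cj g B) A := by rw [cj_ax, cj_eq (hRA hg)]
    have h2 : ax (cj g B) A ≤ R ⊓ 𝒩(E) := h1 ▸ cj_le_of_le (hB.trans (le_inf e1 le_normalizer)) hg'
    obtain ⟨f, hf, f1⟩ := (kB.cj_right (hRA hg)).exists_mem'
    exact h1 ▸ key _ (kB.cj_right (hRA hg)) (h2.trans inf_le_left) f hf f1 (h2 hf).2
  obtain ⟨f, hf, f1⟩ := m.exists_mem'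
  have hF : ax F A ≤ R := hR ▸ le_sup_left
  exact (key F m hF f hf f1 (hRE (hF hf))).trans (ec.trans (cent_mono e3))

end CL.WTI
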