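/-
Weakly closed TI-subgroups: the line theorem for `q = r`, and the centralizer of `A`.
-/
import Cfsg.Agent.Timm.W2
import Cfsg.Agent.Inv.ZStar
import Cfsg.Agent.Grp.Coprime2

set_option autoImplicit false

open Cfsg Subgroup
open scoped commutatorElement

namespace CL.WTI

open CL.Even CL.Timm CL.Grp

universe u

variable {G : Type*} [Group G] [Finite G] {A B F F' P : Subgroup G} {d f f' g n : G} {q r : ℕ}

theorem line1_cover (m : Mx q q A F) (hn : n ∈ nn A F) : ∃ B, Ln A F B ∧ n ∈ B := by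
  obtain ⟨v, hv, f, hf, rfl⟩ := m.mem_nn.1 hn
  by_cases f1 : f = 1
  · exact ⟨A, Ln.left A F, by simpa [f1] using hv.1⟩
  let T : Subgroup G :=
    { carrier := {v | ∃ x ∈ A, ⁅x, f⁆ = v}
      one_mem' := ⟨1, one_mem _, commutatorElement_one_left f⟩
      mul_mem' := by
        rintro _ _ ⟨x, hx, rfl⟩ ⟨y, hy, rfl⟩
        exact ⟨_, mul_mem hx hy, m.cel_mul' hx hy hf.2⟩
      inv_mem' := by
        rintro _ ⟨x, hx, rfl⟩
        exact ⟨x, hx, (m.inv_eq (m.cel_mem hx hf).1).symm⟩ }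
  have h1 := card_le_mul_of_fib (A := A) (T := T) (K := 𝒩(F)) (fun x => ⁅x, f⁆) (fun x hx => ⟨x, hx, rfl⟩)
    fun x hx y hy e => m.norm_of_comm' hf.1 f1 (cel_eq_one.1 (by
      rw [m.cel_mul' (inv_mem hx) hy hf.2, m.inv_eq hx, e, m.sq (m.cel_mem hy hf).1]))
  rw [m.cq, m.cr] at h1
  have h2 : T = ax A F := eq_of_le_of_card_ge (by rintro _ ⟨x, hx, rfl⟩; exact m.cel_mem hx hf)
    (m.cr.trans_le (Nat.le_of_mul_le_mul_right h1 (by have := m.two_le_r; omega)))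
  obtain ⟨x, hx, rfl⟩ := h2.ge hv
  exact ⟨_, (Ln.right A F).cj_left hx, by simpa [cel_def] using conj_mem_cj x hf.1⟩

theorem line1_q1 (m : Mx q q A F) (hB : Pt A B) (hd : d ∈ B) (hc : d ∈ 𝒞(nn A F)) : d ∈ nn A F := by
  by_cases d1 : d = 1
  · exact d1 ▸ one_mem _
  obtain ⟨v, hv, v1⟩ := m.exists_mem
  obtain ⟨f, hf, f1⟩ := m.exists_mem'
  have cN : ∀ {y}, y ∈ nn A F → y * d = d * y := comm_of_mem hc
  have dA := m.mem_norm_of_comm hv.1 v1 (cN (mem_sup_left hv)).symm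
  have dF := m.norm_of_comm' hf.1 f1 (cN (mem_sup_right hf)).symm
  by_cases e1 : B = A
  · exact mem_sup_left ⟨e1 ▸ hd, dF⟩
  by_cases e2 : B = F
  · exact mem_sup_right ⟨e2 ▸ hd, dA⟩
  have nB : nn A F ≤ 𝒩(B) := fun y hy => m.norm_of_comm hB hd d1 (cN hy)
  obtain ⟨m1, a1⟩ := m.of_le ⟨m.toW, hB, e1⟩ (le_sup_left.trans nB)
  obtain ⟨m2, a2⟩ := m.symm.of_le ⟨m.w', m.pt.symm.trans hB, e2⟩ (le_sup_right.trans nB)
  obtain ⟨x, hx, hx'⟩ := m.exists_not_mem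
  obtain ⟨k, hk, e⟩ := m.exists_cel hx hx' (a1 ▸ m1.cel_mem hx ⟨hd, dA⟩)
  obtain ⟨C, l, hC⟩ := line1_cover m2 (mul_mem (mem_sup_right (⟨hd, dF⟩ : d ∈ ax B F)) (mem_sup_left (a2 ▸ hk)))
  refine (mul_mem_cancel_right (mem_sup_right hk)).1 ?_
  by_cases k1 : d * k = 1
  · exact k1 ▸ one_mem _
  have pC := m.pt.trans (l.pt m2.pt)
  have h1 : C = A := m.eq_of_lt pC (fun y hy => m.norm_of_comm pC hC k1
    (Commute.mul_right (cN (mem_sup_left hy)) (m.comm_ax hy hk))) hx hx' (m.norm_of_comm pC hC k1 (cel_eq_one.1 (by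
      rw [cel_mul_right, conj_eq_of_mem hc (mem_sup_left (m.cel_mem hx hk)), ← e, m.sq (m.cel_mem hx hk).1])))
  exact mem_sup_left ⟨h1 ▸ hC, mul_mem dF (le_normalizer hk.1)⟩

theorem line1Thm (lc : LemC.{u}) : Line1Thm.{u} := fun _ _ => ⟨fun _ m _ => line1_cover m,
  fun _ m _ _ => line1_q1 m, fun F m y hy => by
    obtain ⟨v, hv, v1⟩ := m.exists_mem
    obtain ⟨B, l, h⟩ := line1_cover m (conj_mem (m.sup_le_norm_nn (mem_sup_right hy)) (mem_sup_left hv))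
    rwa [m.eq_of_mem_pt (Pt.of_cj y _) (l.pt m.pt) (conj_mem_cj y hv.1) h (by simpa using v1)], fun F F' m m' h => by
    obtain ⟨f, hf, f1⟩ := m'.exists_mem'
    obtain ⟨B, l, hB⟩ := line1_cover m (line1_q1 m m'.pt hf.1 (by
      rw [cent_sup]
      exact ⟨m.lc m' h ▸ op_le_cent (m'.ax_le_op hf), le_centralizer_iff.1 (lc m m' h) hf⟩))
    rwa [m.eq_of_mem_pt m'.pt (l.pt m.pt) hf.1 hB f1]⟩

/-- (K1) -/
theorem zn_k1 (hl : LineP q r A) (m : Mx q r A F) (m' : Mx q r A F') (hV : ax A F' = ax A F) (hP : IsPGroup 2 P)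
    (h0 : P ≤ op A (ax A F)) (hf : f ∈ ax F A) (f1 : f ≠ 1) (h1 : f ∈ P) (hf' : f' ∈ ax F' A) (f2 : f' ≠ 1)
    (h2 : f' ∈ P) : Ln A F F' := by
  obtain ⟨S, hS, PS⟩ := exists_isSylowIn_ge hP h0
  obtain ⟨z, hz, h3⟩ := m.exists_cent_cj inf_le_left hS (m.w'.isP.to_le inf_le_left) m.ax_le_op
  rw [cj_ax, cj_eq_of_mem_cent hz] at h3
  have m1 := m.cj_right (cent_le_norm _ hz)
  have a1 := ax_cent F hz
  generalize cj z F = E at h3 m1 a1
  have key : ∀ {B b}, Mx q r A B → ax A B = ax A F → b ∈ ax B A → b ≠ 1 → b ∈ S → Ln A E B := fun {B b} k e hb b1 bS => by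
    obtain ⟨a, ha, e1⟩ := (hl _ _ m1 (m1.cj_right hb.2) (hS.isPGroup.to_le (sup_le h3 (by
      rw [← cj_eq hb.2, ← cj_ax]; exact cj_le_of_mem h3 bS)))).resolve_left (m1.cj_right hb.2).ne
    have h4 := cj_eq_cj_iff.1 e1.symm
    rw [m.inv_eq ha] at h4
    have h5 : a * b * (a * b) = ⁅a, b⁆ := by rw [k.cel_eq ha hb.1, ← mul_assoc]
    have h6 := m1.sq_eq_one (a1 ▸ mul_mem (cent_le_op inf_le_left (m.le_cent ha)) (hS.le bS)) h4
      (h5 ▸ (k.cel_mem ha hb).1)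
    have h7 : a ∈ ax A E := a1 ▸ e ▸ ⟨ha, k.norm_of_comm' hb.1 b1 (cel_eq_one.1 (h5 ▸ h6))⟩
    have h8 := Nb.comm_of_fix k.toEd m1.toNb (e.trans a1.symm) hb b1 ((𝒩(E).mul_mem_cancel_left h7.2).1 h4)
    exact hl _ _ m1 k (isPGroup_sup' (m1.w'.isP.to_le inf_le_left) (k.w'.isP.to_le inf_le_left)
      (h8.trans (cent_le_norm _)))
  exact ((key m rfl hf f1 (PS h1)).symm' m.ne).trans (key m' hV hf' f2 (PS h2))

/-- the stabilizer of the line in `N(A)` -/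
def znL (A F : Subgroup G) (h : F ≠ A) : Subgroup G where
  carrier := {g | g ∈ 𝒩(A) ∧ Ln A F (cj g F)}
  one_mem' := ⟨one_mem _, by rw [cj_one]; exact Ln.right A F⟩
  mul_mem' {a b} ha hb := ⟨mul_mem ha.1 hb.1, ha.2.trans (by simpa only [cj_eq ha.1, cj_mul] using hb.2.conj a)⟩
  inv_mem' {a} ha := ⟨inv_mem ha.1, Ln.symm' (by simpa only [cj_eq (inv_mem ha.1), cj_inv_cj] using ha.2.conj a⁻¹) h⟩

/-- `op` preserves the line -/
theorem zn_op {G : Type u} [Group G] [Finite G] {A F : Subgroup G} (h4 : 4 ≤ r) (hl : LineP q r A) (m : Mx q r A F) :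
    op A (ax A F) ≤ znL A F m.ne := by
  have AH : A ≤ op A (ax A F) := m.le_cent.trans (cent_le_op inf_le_left)
  have FH := m.ax_le_op
  have sq2 : ∀ {f}, f ∈ F → IsPGroup 2 (zpowers f) := fun hf => m.w'.isP.to_le (zpowers_le.2 hf)
  have aV : ∀ {g}, g ∈ op A (ax A F) → ax A (cj g F) = ax A F := fun hg => by
    rw [← cj_eq_of_mem_cent (op_le_cent hg), cj_ax, cj_eq (op_le_norm hg)]
  have cf : ∀ {g f}, g ∈ op A (ax A F) → f ∈ ax F A → g * f * g⁻¹ ∈ ax (cj g F) A := fun hg hf =>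
    ⟨conj_mem_cj _ hf.1, conj_mem (le_norm_of_le op_le_norm hg) hf.2⟩
  have k1 : ∀ {g f}, g ∈ op A (ax A F) → f ∈ ax F A → f ≠ 1 → ⁅f, g * f * g⁻¹⁆ ∈ A → g ∈ znL A F m.ne :=
    fun {g f} hg hf f1 hc => by
      have h1 := cf hg hf
      have m1 := m.cj_right (op_le_norm hg)
      have p1 := isPGroup_sup (sq2 hf.1) m.isP (zpowers_le.2 hf.2)
      refine ⟨op_le_norm hg, zn_k1 hl m m1 (aV hg) (isPGroup_sup (m1.w'.isP.to_le (zpowers_le.2 h1.1)) p1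
        (zpowers_le.2 (mem_norm_of_cj_le ?_))) (sup_le (zpowers_le.2 (conj_mem (le_normalizer hg) (FH hf)))
          (sup_le (zpowers_le.2 (FH hf)) AH)) hf f1 (mem_sup_right (mem_sup_left (mem_zpowers f))) h1
        (by simpa using f1) (mem_sup_left (mem_zpowers _))⟩
      rw [cj_sup, cj_eq h1.2, MonoidHom.map_zpowers]
      refine sup_le (zpowers_le.2 ?_) le_sup_right
      have : (MulAut.conj (g * f * g⁻¹)).toMonoidHom f = ⁅f, g * f * g⁻¹⁆⁻¹ * f := by simp [cel_def, mul_assoc]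
      exact this ▸ mul_mem (mem_sup_right (inv_mem hc)) (mem_sup_left (mem_zpowers f))
  generalize hH : op A (ax A F) = H at AH FH k1 cf aV
  have := normal_subgroupOf_of_le_normalizer (hH ▸ op_le_norm : H ≤ 𝒩(A))
  let π := QuotientGroup.mk' (A.subgroupOf H)
  have e : ∀ z : H, π z = 1 ↔ (z : G) ∈ A := fun z => QuotientGroup.eq_one_iff z
  have inj : ∀ a b : H, (a : G) ∈ F → (b : G) ∈ F → π a = π b → a = b := fun a b ha hb h =>
    Subtype.ext (mul_inv_eq_one.1 (m.eq_one ((e (a * b⁻¹)).1 (by rw [map_mul, map_inv, h, mul_inv_cancel]))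
      (mul_mem ha (inv_mem hb))))
  have c1 : ∀ f : H, (f : G) ∈ ax F A → π f ≠ 1 → centralizer {π f} ≤ ((znL A F m.ne).subgroupOf H).map π :=
    fun f hf f1 x hx => by
      obtain ⟨g, rfl⟩ := QuotientGroup.mk'_surjective _ x
      refine mem_map_of_mem π (k1 g.2 hf (fun h => f1 ((e f).2 (h ▸ one_mem _))) ((e ⁅f, g * f * g⁻¹⁆).1 ?_))
      rw [map_commutatorElement, map_mul, map_mul, map_inv, mem_centralizer_singleton_iff.1 hx, mul_inv_cancel_right,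
        commutatorElement_self]
  have el := elem_map π (elem_subgroupOf (elem_of_le m.w'.elem (inf_le_left : ax F A ≤ F)) H)
  have : IsMulCommutative (((ax F A).subgroupOf H).map π) :=
    ⟨⟨fun a b => Subtype.ext (comm_of_mem (elem_le_cent el b.2) a.2)⟩⟩
  have c2 : oddCore (H ⧸ A.subgroupOf H) ≤ ((znL A F m.ne).subgroupOf H).map π := by
    refine le_of_forall_centralizer_le (A := ((ax F A).subgroupOf H).map π) (fun hc => ?_) le_normalizer_of_normal ?_ ?_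
    · have h1 := Nat.card_le_card_of_injective (fun f : ax F A => (⟨π ⟨f, FH f.2⟩, mem_map_of_mem π f.2⟩ :
        ((ax F A).subgroupOf H).map π)) fun a b h =>
          Subtype.ext (congrArg (fun t : H => (t : G)) (inj _ _ a.2.1 b.2.1 (congrArg Subtype.val h)))
      have h2 := Nat.le_of_dvd two_pos (Monoid.exponent_dvd_of_forall_pow_eq_one
        (G := ((ax F A).subgroupOf H).map π) fun a => Subtype.ext ((elem_iff.1 el).2 _ a.2))
      rw [IsCyclic.exponent_eq_card] at h2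
      rw [m.cr'] at h1
      omega
    · obtain ⟨n, hn⟩ := (elem_isP el).exists_card_eq
      exact hn ▸ (pPrimeCore_coprime 2 _).symm.pow_left n
    · rintro _ ⟨f, hf, rfl⟩ f1
      exact inf_le_right.trans (c1 f hf f1)
  obtain ⟨f, hf, f1⟩ := m.exists_mem'
  have f2 : π ⟨f, FH hf⟩ ≠ 1 := fun h => f1 (m.eq_one ((e _).1 h) hf.1)
  have c3 := CL.Inv.zstar_oddCore_sup_centralizer (z := π ⟨f, FH hf⟩) ⟨orderOf_eq_prime (by
    rw [← map_pow, sq, show (⟨f, FH hf⟩ : H) * ⟨f, FH hf⟩ = 1 from Subtype.ext (m.w'.sq hf.1), map_one]) f2,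
    fun x hx => by
      obtain ⟨g, rfl⟩ := QuotientGroup.mk'_surjective _ x
      have h1 := k1 g.2 hf f1 ((e ⁅(⟨f, FH hf⟩ : H), g * ⟨f, FH hf⟩ * g⁻¹⁆).1 (by
        rw [map_commutatorElement, map_mul, map_mul, map_inv]; exact cel_eq_one.2 hx))
      have h2 := (h1.2.nb m.toNb (m.cj_right h1.1).ne).2.2.1
      obtain ⟨v, hv, k, hk, h3⟩ := m.mem_nn.1 (mul_mem (h2.le (mem_sup_right (cf g.2 hf))) (inv_mem (mem_sup_right hf)))
      have h5 : v * k ∈ 𝒞(A) := by rw [h3]; exact m.op_cel inf_le_left (hH.ge g.2) (m.ax_le_op hf)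
      have h6 : k = 1 := by_contra fun h => m.not_mem_cent hk.1 h ((mul_mem_cancel_left (m.le_cent hv.1)).1 h5)
      rw [h6, mul_one] at h3
      have h7 := (e (g * ⟨f, FH hf⟩ * g⁻¹ * (⟨f, FH hf⟩ : H)⁻¹)).2 (h3 ▸ hv.1 : (g : G) * f * (g : G)⁻¹ * f⁻¹ ∈ A)
      rwa [map_mul, map_mul, map_mul, map_inv, map_inv, mul_inv_eq_one] at h7⟩
  intro g hg
  obtain ⟨l, hl, h⟩ := (sup_le c2 (c1 _ hf f2)) (c3.ge (mem_top (π ⟨g, hg⟩)))
  have h1 : (l : G)⁻¹ * g ∈ A := (e (l⁻¹ * ⟨g, hg⟩)).1 (by rw [map_mul, map_inv, h, inv_mul_cancel])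
  exact ((znL A F m.ne).mul_mem_cancel_left (x := (l : G)⁻¹) (inv_mem hl)).1
    ⟨le_normalizer h1, (Ln.right A F).cj_left h1⟩

theorem znThm : ZNThm.{u} := fun {G _ _ q r A} h4 sm hl => ⟨fun F F' m m' e => hl _ _ m m'
  ((isPGroup_sup' (elem_isP m.elem_nn) (m'.w'.isP.to_le (inf_le_left : ax F' A ≤ F')) fun g hg => by
    have h1 := zn_op h4 hl m (e ▸ m'.ax_le_op hg)
    rw [← cj_eq_iff_mem, cj_nn, cj_eq h1.1]
    exact (h1.2.nb m.toNb (m.cj_right h1.1).ne).2.2.1).to_le (sup_le_sup_right le_sup_right _)), fun F m z hz => by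
  have h1 := zn_op h4 hl m (cent_le_op inf_le_left hz)
  obtain ⟨a, ha, e⟩ := h1.2.resolve_left (m.cj_right h1.1).ne
  have h2 := cj_eq_cj_iff.1 e.symm
  have h3 : a⁻¹ * z ∈ 𝒞(A) := mul_mem (inv_mem (m.le_cent ha)) hz
  have h5 := m.op_cent (cent_le_op inf_le_left h3) h2
  obtain ⟨y, hy, hy'⟩ := m.symm.exists_not_mem
  obtain ⟨v, hv, h6⟩ := m.symm.exists_cel hy hy' (m.cel_mem_of_cent h2 (by
    rw [cent_sup]; exact ⟨cent_mono inf_le_left h3, h5⟩) hy)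
  have h7 := m.symm.cel_mem hy hv
  have h8 : a⁻¹ * z * v ∈ 𝒞(A) := mul_mem h3 (m.le_cent hv.1)
  have h9 : y * (a⁻¹ * z * v) = a⁻¹ * z * v * y := cel_eq_one.1 (by
    rw [cel_mul_right, conj_eq_of_mem h5 h7, ← h6, m.w'.sq h7.1])
  refine ⟨a * v⁻¹, mul_mem ha (inv_mem hv.1), a⁻¹ * z * v, ?_, by rw [← comm_of_mem h3 hv.1]; group⟩
  generalize a⁻¹ * z * v = c at h8 h9
  have hA : A ≤ centralizer {c} := fun x hx => mem_centralizer_singleton_iff.2 (comm_of_mem h8 hx)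
  obtain ⟨x, hx, e'⟩ := (sm F m y hy).resolve_left fun h => hy' (cj_eq_iff_mem.1 h)
  have hF : F ≤ centralizer {c} := by
    rw [← cj_inv_cj x F, e']
    exact cj_le_of_mem (cj_le_of_mem hA (mem_centralizer_singleton_iff.2 h9)) (hA (inv_mem hx))
  exact mem_cent_iff.2 fun t ht => mem_centralizer_singleton_iff.1 (sup_le hA hF ht)⟩

end CL.WTI
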