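/-
Weakly closed TI-subgroups: the line theorem for `q < r`.
-/
import Cfsg.Agent.Timm.W2

set_option autoImplicit false

open Cfsg Subgroup
open scoped commutatorElement

namespace CL.WTI

open CL.Even CL.Timm CL.Grp

universe u

variable {G : Type u} [Group G] [Finite G] {q r : ℕ} {A F C : Subgroup G}

omit [Finite G] in
theorem line2_norm {V I : Subgroup G} (hV : V ≤ A) (hI : I ≤ V) :
    op A I ≤ 𝒩(op A V) ∧ op A V ≤ 𝒩(op A I) :=
  ⟨norm_op op_le_norm (le_norm_of_commutator_le (commutator_le.2 fun v hv _ hg => hI ((mem_op.1 hg).2.2 v (hV hv)))),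
    norm_op op_le_norm (op_le_cent.trans ((cent_mono hI).trans (cent_le_norm _)))⟩

/-- the choice of the Sylow subgroups -/
theorem line2_syl (m : Mx q r A F) (mC : Mx q r A C) {P : Subgroup G} (hP : IsPGroup 2 P) (h : P ≤ op A (ax A F)) :
    ∃ S T C' : Subgroup G, IsPGroup 2 S ∧ IsPGroup 2 T ∧ P ≤ S ∧ S ≤ 𝒩(A) ∧ Mx q r A C' ∧ ax A C' = ax A C ∧ ax C' A ≤ T ∧
      S ⊓ op A (ax A F ⊓ ax A C) = T ⊓ op A (ax A F ⊓ ax A C) := by
  obtain ⟨S, hS, h1⟩ := exists_isSylowIn_ge hP (h.trans (le_sup_left (b := op A (ax A F ⊓ ax A C))))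
  have h2 := syl_inf_of_norm hS le_sup_right
    (hS.le.trans (sup_le (line2_norm inf_le_left inf_le_left).2 le_normalizer))
  obtain ⟨T, hT, h3⟩ := exists_isSylowIn_ge h2.isPGroup (h2.le.trans (le_sup_right (a := op A (ax A C))))
  obtain ⟨z, hz, h4⟩ := m.exists_cent_cj inf_le_left (syl_inf_of_norm hT le_sup_left
    (hT.le.trans (sup_le le_normalizer (line2_norm inf_le_left inf_le_right).1)))
    (mC.w'.isP.to_le inf_le_left) mC.ax_le_op
  rw [cj_ax, cj_eq_of_mem_cent hz] at h4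
  exact ⟨S, T, cj z C, hS.isPGroup, hT.isPGroup, h1, hS.le.trans (sup_le op_le_norm op_le_norm),
    mC.cj_right (cent_le_norm _ hz), ax_cent C hz, h4.trans inf_le_left,
    (h2.eq_of_le hT.isPGroup.to_inf_left (le_inf h3 inf_le_right) inf_le_right).symm⟩

theorem line2Thm (lc : LemC.{u}) (sl : SLThm.{u}) (ca : CLa.{u}) (cb : CLb.{u}) : Line2Thm.{u} := by
  intro G _ _ q r A lt cov full sm F F' m m' hP
  by_contra hn
  obtain ⟨C, mC, ne⟩ := cov.exists_ne m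
  obtain ⟨S, T, C, pS, pT, le, nS, mC, e, hC, hST⟩ := line2_syl m mC (isPGroup_sup hP m.isP
    (sup_le inf_le_right inf_le_right)) (sup_le (sup_le m.ax_le_op (m.lc m' hP ▸ m'.ax_le_op))
      (m.le_cent.trans (cent_le_op inf_le_left)))
  rw [← e] at ne hST
  clear e
  set O := op A (ax A F ⊓ ax A C)
  have hI := full.card m mC ne
  have aS : A ≤ S ⊓ O := le_inf (le_sup_right.trans le) (m.le_cent.trans (cent_le_op (inf_le_left.trans inf_le_left)))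
  let 𝓕 : Set (Subgroup G) := {B | Mx q r A B ∧ ax B A ≤ S}
  have hF : F ∈ 𝓕 := ⟨m, le_sup_left.trans (le_sup_left.trans le)⟩
  have hV : ∀ B ∈ 𝓕, ax A B = ax A F := fun B hB => hB.1.lc m (pS.to_le (sup_le hB.2 hF.2))
  have K : ∀ h ∈ S ⊓ O, h ∉ 𝒞(ax A F) → ∀ B ∈ 𝓕, ∀ B' ∈ 𝓕, h ∈ 𝒩(B) → h ∈ 𝒩(B') → Ln A B B' := by
    intro h hh h1 B hB B' hB' h2 h3
    by_contra h4
    have a1 : ∀ x ∈ A, ⁅x, h⁆ ∈ ax A F := fun x hx => ((mem_op.1 hh.2).2.2 x hx).1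
    have a2 : r ≤ q * Nat.card (ax A F ⊓ 𝒞(zpowers h) : Subgroup G) := hI ▸ Nat.mul_le_mul_left q (card_le_of_le
      (le_inf inf_le_left (le_centralizer_iff.1 (zpowers_le.2 (op_le_cent hh.2)))))
    have a3 := fun B (hB : B ∈ 𝓕) h2 => (sl hB.1 (pS.to_le (zpowers_le.2 hh.1)) (nS hh.1) h2 (hV B hB ▸ a1)
      (hV B hB ▸ h1) (hV B hB ▸ a2)).2.1
    exact cb sm hB.1 hB'.1 ((hV B hB).trans (hV B' hB').symm) (lc hB.1 hB'.1 (pS.to_le (sup_le hB.2 hB'.2))) h4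
      (nS hh.1) h2 h3 (hV B hB ▸ a1) (a3 B hB h2) (a3 B' hB' h3) (hV B hB ▸ h1) (hV B hB ▸ a2)
  have q2 := m.two_le_q
  obtain ⟨c, hc, c1⟩ : ∃ c ∈ ax C A, c ∉ 𝒩(ax A F) := by
    by_contra! h
    have := (full.minP m mC ne).symm.card_FI
    rw [inf_of_le_left h, mC.cr', inf_comm] at this
    rw [← this] at hI
    nlinarith
  have c2 := mC.w'.inv_eq hc.1
  have cm : ∀ f ∈ S ⊓ O, ∀ g ∈ S ⊓ O, Commute (f * c * f⁻¹) (g * c * g⁻¹) := fun f hf g hg => by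
    have a : ∀ f ∈ S ⊓ O, ax (cj f C) A = cj f (ax C A) := fun f hf => by rw [cj_ax, cj_eq (nS hf.1)]
    have := lc (mC.cj_right (nS hg.1)) (mC.cj_right (nS hf.1)) (pT.to_le (by
      rw [a f hf, a g hg]; exact sup_le (cj_le_of_mem hC (hST.le hg).1) (cj_le_of_mem hC (hST.le hf).1)))
    rw [a f hf, a g hg] at this
    exact comm_of_mem (this (conj_mem_cj g hc)) (conj_mem_cj f hc)
  have cm1 : ∀ f ∈ S ⊓ O, Commute (f * c * f⁻¹) c := fun f hf => by simpa using cm f hf 1 (one_mem _)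
  have ex : ∀ B ∈ 𝓕, ∃ f ∈ S ⊓ O, ⁅f, c⁆ ∈ S ⊓ O ∧ ⁅f, c⁆ ∉ 𝒞(ax A F) ∧ ⁅f, c⁆ ∈ 𝒩(B) := fun B hB => by
    have p := full.minP hB.1 mC (hV B hB ▸ ne)
    obtain ⟨f, hf, f1⟩ := (bot_or_exists_ne_one (ax B A ⊓ 𝒩(ax A C))).resolve_left fun e => by
      have := p.card_FI
      rw [e, card_bot, hV B hB] at this
      rw [← this] at hI
      omega
    have f2 : f ∈ S ⊓ O := ⟨hB.2 hf.1, mem_op.2 ⟨hf.1.2, cent_mono (hV B hB ▸ inf_le_left)
      (op_le_cent (hB.1.ax_le_op hf.1)), fun x hx => hV B hB ▸ p.cel_mem ((full _ _ hB.1 mC p.ne).ge hx) hf.1 hf.2⟩⟩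
    have f3 := hB.1.w'.sq hf.1.1
    refine ⟨f, f2, hST.ge ⟨T.mul_mem (T.mul_mem (T.mul_mem (hST.le f2).1 (hC hc)) (T.inv_mem (hST.le f2).1)) (T.inv_mem (hC hc)),
      cel_mem_left f2.2 ((line2_norm inf_le_left inf_le_right).2 (mC.ax_le_op hc))⟩, fun h => c1 ?_,
      hB.1.norm_of_comm' hf.1.1 f1 ?_⟩
    · obtain ⟨v, hv, v1⟩ := mC.exists_not_mem_ax hB.1 p.ne.symm
      rw [← hV B hB] at h ⊢
      refine (p.symm.mem_norm_iff hv v1 hc).2 ?_
      have a1 := comm_of_mem h hv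
      have a2 := hB.1.comm_ax hv hf.1
      have a3 : c⁻¹ * v * c * f = f * (c⁻¹ * v * c) := by
        calc _ = f * c⁻¹ * f⁻¹ * (⁅f, c⁆ * v) * c * f := by simp only [cel_def]; group
          _ = f * c⁻¹ * (f⁻¹ * (v * f)) * (c * f⁻¹ * c⁻¹ * c * f) := by rw [← a1]; simp only [cel_def]; group
          _ = _ := by rw [a2]; group
      have := (𝒩(B)).mul_mem hv.2 (inv_mem (hB.1.norm_of_comm' hf.1.1 f1 a3))
      rw [c2] at this
      simpa [cel_def, c2, mul_assoc] using this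
    · have a := (cm1 f f2).eq
      rw [hB.1.w'.inv_eq hf.1.1] at a
      rw [cel_def, c2, hB.1.w'.inv_eq hf.1.1]
      calc _ = c * (f * c * (f * f)) := by rw [a]; group
        _ = f * f * (c * f * c) := by rw [f3]; group
        _ = _ := by group
  choose! f f1 f2 f3 f4 using ex
  have ex2 : ∀ B ∈ 𝓕, ∃ a ∈ A, a⁻¹ * ⁅f F, c⁆ ∈ 𝒩(B) := fun B hB => by
    have a1 : Commute ⁅f B, c⁆ ⁅f F, c⁆ :=
      ((cm _ (f1 B hB) _ (f1 F hF)).mul_right (cm1 _ (f1 B hB)).inv_right).mul_left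
        ((cm1 _ (f1 F hF)).symm.mul_right (Commute.refl c).inv_right).inv_left
    have a2 := hB.1.cj_right (nS (f2 F hF).1)
    obtain ⟨a, ha, e⟩ := (K _ (f2 B hB) (f3 B hB) B hB _ ⟨a2, by
      rw [← cj_eq (nS (f2 F hF).1), ← cj_ax]; exact cj_le_of_mem hB.2 (f2 F hF).1⟩ (f4 B hB)
        (cj_eq_iff_mem.1 (by rw [← cj_mul, a1.eq, cj_mul, cj_eq (f4 B hB)]))).resolve_left a2.ne
    exact ⟨a, ha, cj_eq_cj_iff.1 e.symm⟩
  choose! a a1 a2 using ex2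
  have h1 := (ca sm m m' (m.lc m' hP) (lc m m' hP) hn).trans (Set.ncard_le_ncard (t := 𝓕) fun B hB =>
    ⟨hB.1, hB.2.2.trans (sup_le (sup_le (inf_le_left.trans (le_sup_right.trans le)) hF.2)
      (le_sup_right.trans (le_sup_left.trans le)))⟩)
  have h2 : 𝓕.ncard ≤ q * {B | ∃ a ∈ A, cj a F = B}.ncard := by
    classical
    rw [Set.ncard_eq_toFinset_card _, Set.ncard_eq_toFinset_card _]
    refine Finset.card_le_mul_card_image_of_maps_to (f := fun B => cj (a B) F)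
      (fun B hB => by
        rw [Set.Finite.mem_toFinset] at hB ⊢; exact ⟨_, a1 B hB, rfl⟩) q fun X _ => ?_
    by_contra! e
    obtain ⟨B, hB⟩ := Finset.card_pos.1 ((Nat.zero_le _).trans_lt e)
    refine e.not_ge ?_
    simp only [Finset.mem_filter, Set.Finite.mem_toFinset] at hB
    rw [← hB.1.1.card_orb', Set.ncard_eq_toFinset_card _]
    refine Finset.card_le_card fun B' hB' => (Set.Finite.mem_toFinset _).2 ?_
    simp only [Finset.mem_filter, Set.Finite.mem_toFinset] at hB'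
    have b1 : (a B)⁻¹ * a B' ∈ ax A B' := hV B' hB'.1 ▸
      ⟨A.mul_mem (inv_mem (a1 B hB.1)) (a1 B' hB'.1), cj_eq_cj_iff.1 (hB'.2.trans hB.2.symm)⟩
    exact (K _ (mul_mem (inv_mem (aS (a1 B hB.1))) (f2 F hF)) (fun e => f3 F hF ((mul_mem_cancel_left
      (inv_mem (cent_mono inf_le_left (m.le_cent (a1 B hB.1))))).1 e)) B hB.1 B' hB'.1 (a2 B hB.1)
      (by simpa [mul_assoc] using mul_mem b1.2 (a2 B' hB'.1))).resolve_left hB'.1.1.ne
  rw [m.card_orb'] at h2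
  omega

end CL.WTI
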