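/-
Weakly closed TI-subgroups: the graph of the maximal edges is complete; the doubly transitive case.
-/
import Cfsg.Agent.Timm.W2
import Cfsg.Agent.Perm.PGMain

set_option autoImplicit false
set_option linter.unusedSectionVars false

open Cfsg Subgroup
open scoped commutatorElement

namespace CL.WTI

open CL.Even CL.Timm CL.Grp

universe u

section

variable {G : Type*} [Group G] [Finite G] {A B C E F : Subgroup G} {a c x y x' y' : G} {q r : ℕ}

theorem maxt_tor (e : Nb A F) (hx : x ∈ A) (hy : y ∈ F) (s1 : cj y A = cj x F) (hx' : x' ∈ A) (hy' : y' ∈ F)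
    (s2 : cj y' A = cj x' F) (h2 : x' ∉ 𝒩(F)) (h3 : x * x' ∉ 𝒩(F)) :
    x * y * x * (x' * y' * x') ∈ 𝒩(A) ∧ x * y * x * (x' * y' * x') ∈ 𝒩(F) ∧
      ∀ v ∈ ax A F, x * y * x * (x' * y' * x') * v * (x * y * x * (x' * y' * x'))⁻¹ = v → v = 1 := by
  refine ⟨cj_eq_iff_mem.1 ?_, cj_eq_iff_mem.1 ?_, fun v hv h => ?_⟩
  · rw [cj_mul, e.swap_left hx' hy' s2, e.swap_right hx hy s1]
  · rw [cj_mul, e.swap_right hx' hy' s2, e.swap_left hx hy s1]
  obtain ⟨f, hf, rfl⟩ := e.exists_cel hx' h2 hv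
  have h4 : ⁅x, f⁆ = ⁅x', f⁆ := by
    rw [← h, ← (e.swap_conj hx hy s1 hf).1]
    conv_lhs => rw [← e.swap_conj' hx' hy' s2 hf]
    group
  rw [e.eq_one_of_cel h3 hf.1 (by rw [e.cel_mul' hx hx' hf.2, h4, e.sq hv.1]), commutatorElement_one_right]

/-- decomposition along two subgroups that generate a point -/
theorem maxt_dec (w : W A) (h : B ⊔ C = A) (ha : a ∈ A) : ∃ b ∈ B, ∃ c ∈ C, b * c = a :=
  (mem_sup_nr ((h ▸ le_sup_left : B ≤ A).trans (w.le_cent.trans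
    ((cent_mono (h ▸ le_sup_right)).trans (cent_le_norm _))))).1 (h ▸ ha)

theorem maxt_two {K : Subgroup G} (w : W A) (hB : B ≤ A) (h : 4 * Nat.card (B ⊓ K : Subgroup G) ≤ Nat.card B) :
    ∃ x ∈ B, ∃ x' ∈ B, x ∉ K ∧ x' ∉ K ∧ x * x' ∉ K := by
  have hp := Nat.card_pos (α := (B ⊓ K : Subgroup G))
  obtain ⟨x, hx, h1⟩ : ∃ x ∈ B, x ∉ K := by
    by_contra! hn
    rw [inf_eq_left.2 hn] at h hp
    omega
  refine ⟨x, hx, ?_⟩
  by_contra! hn
  have := card_le_mul_of_fib (A := B) (T := zpowers x) (K := K) (fun y => by classical exact if y ∈ K then 1 else x)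
    (fun y _ => by split_ifs <;> simp) fun y hy z hz e => by
      by_cases a : y ∈ K <;> by_cases b : z ∈ K
      · exact mul_mem (inv_mem a) b
      · simp only [a, b, if_true, if_false] at e; exact (h1 (e ▸ one_mem _)).elim
      · simp only [a, b, if_true, if_false] at e; exact (h1 (e ▸ one_mem _)).elim
      · simpa [mul_assoc] using mul_mem (inv_mem (hn y hy h1 a)) (hn z hz h1 b)
  rw [Nat.card_zpowers, orderOf_eq_prime (by rw [sq, w.sq (hB hx)]) (fun e : x = 1 => h1 (e ▸ one_mem _))] at this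
  omega

/-- an element `c i` that centralizes `A_C` and an element of `F - F_A` -/
theorem maxt_e (sl : SLThm.{u}) {G : Type u} [Group G] [Finite G] {A F C : Subgroup G} {y : G} (s : S2 q r A)
    (p : Tr q r A F C) (hy : y ∈ F) (hy' : y ∉ 𝒩(A)) :
    ∃ c ∈ ax C A, c ≠ 1 ∧ (∀ x ∈ A, ⁅x, c⁆ ∈ ax A F) ∧ ∃ i ∈ ax A F, y * (c * i) = c * i * y := by
  obtain ⟨c, hc, c1, cF⟩ := p.symm.exists_mem
  have m := p.mF
  have h1 : ∀ x ∈ A, ⁅x, c⁆ ∈ ax A F := fun x hx => (p.symm.toMinP.cel_mem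
    ((s.full C F p.mC m p.ne.symm).ge hx) hc (norm_ax hc.2 cF)).2
  have h2 := (sl m (isPGroup_zpowers (k := 1) (by rw [pow_one, sq, p.mC.w'.sq hc.1])) hc.2 cF h1 (fun e =>
    p.ne (m.ax_eq_of_le p.mC fun v hv => ⟨hv.1, p.mC.norm_of_comm' hc.1 c1 (comm_of_mem e hv)⟩)) (by
      rw [← s.full.card m p.mC p.ne]
      refine Nat.mul_le_mul_left q (card_le_of_le (inf_le_inf_left _ (le_centralizer_iff.1 (zpowers_le.2 ?_))))
      exact mem_cent_iff.2 fun v hv => p.mC.comm_ax hv hc)).2.1 y hy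
  have h3 : ∀ i ∈ ax A F ⊓ ax A C, c * ⁅y, i⁆ * c⁻¹ = ⁅y, i⁆ := fun i hi => by
    rw [m.toNb.symm.cel_conj hy hi.1 cF hc.2 h2, ← p.mC.comm_ax hi.2 hc, mul_inv_cancel_right]
  obtain ⟨i, hi, e⟩ := surj_of_inj (A := ax A F ⊓ ax A C) (B := ax F A ⊓ 𝒩(C)) p.card_FI'.le (fun i => ⁅y, i⁆)
    (fun i hi => ⟨m.toNb.symm.cel_mem hy hi.1, p.mC.norm_of_comm' hc.1 c1 (mul_inv_eq_iff_eq_mul.1 (h3 i hi)).symm⟩)
    (fun i hi j hj => m.toNb.symm.cel_inj hy hy' hi.1 hj.1) (b := ⁅y, c⁆) ⟨h2, (p.ed.cel_mem hy ⟨hc.1, cF⟩).2⟩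
  exact ⟨c, hc, c1, h1, i, hi.1, cel_eq_one.1 (by rw [cel_mul_right, h3 i hi, e, m.w'.sq h2.1])⟩

end

theorem maxtThm (sl : SLThm.{u}) : MaxtThm.{u} := by
  intro G _ _ q r A F C s h4 m m' hne
  have p := s.tri F C m m' hne
  have full := s.full F C m m' hne
  have sm := s.sm F m
  obtain ⟨y, hy, hy'⟩ := m.toNb.symm.exists_not_mem
  obtain ⟨c, hc, c1, h1, i, hi, ey⟩ := maxt_e sl s p hy hy'
  have mZ : ∀ {x}, x ∈ centralizer ({c * i} : Set G) ↔ x * (c * i) = c * i * x := mem_centralizer_singleton_iff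
  have cV : ∀ x ∈ A, x ∈ centralizer ({c * i} : Set G) ↔ x ∈ 𝒩(C) := fun x hx => by
    rw [mZ, mul_assoc, ← m.comm hx hi.1, ← mul_assoc, ← mul_assoc, mul_left_inj]
    exact ⟨m'.norm_of_comm' hc.1 c1, fun e => m'.comm_ax ⟨hx, e⟩ hc⟩
  obtain ⟨a, ha, e0⟩ := (sm y hy).resolve_left fun e => hy' (cj_eq_iff_mem.1 e)
  obtain ⟨x0, hx0, v, hv, rfl⟩ := maxt_dec m.toW (sup_comm (ax A F) _ ▸ full) ha
  rw [cj_mul, cj_eq hv.2] at e0
  have tl := m.toNb.swap_left hx0.1 hy e0.symm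
  have tr := m.toNb.swap_right hx0.1 hy e0.symm
  have tZ := mul_mem (mul_mem ((cV _ hx0.1).2 hx0.2) (mZ.2 ey)) ((cV _ hx0.1).2 hx0.2)
  generalize x0 * y * x0 = t at tl tr tZ
  have f1 : cj t (ax A C) ⊔ ax F A = F := by
    have := congrArg (fun X => cj t X) full
    simpa only [cj_sup, cj_ax t A F, tl, tr, sup_comm (ax F A)] using this
  have f2 : ∀ z ∈ cj t (ax A C), z ∈ centralizer ({c * i} : Set G) := by
    rintro _ ⟨z, hz, rfl⟩
    exact mul_mem (mul_mem tZ ((cV z hz.1).2 hz.2)) (inv_mem tZ)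
  have sw : ∀ x ∈ ax A C, x ∉ 𝒩(F) → ∃ y ∈ F, cj y A = cj x F ∧ x * y * x ∈ centralizer ({c * i} : Set G) :=
    fun x hx hx' => by
    obtain ⟨z, hz, -, e⟩ := sm.exists_swap m.toNb hx.1 hx'
    obtain ⟨y, hy, f, hf, rfl⟩ := maxt_dec m.w' f1 hz
    rw [cj_mul, cj_eq hf.2] at e
    exact ⟨y, f1.le (mem_sup_left hy), e, mul_mem (mul_mem ((cV _ hx.1).2 hx.2) (f2 y hy)) ((cV _ hx.1).2 hx.2)⟩
  obtain ⟨x, hx, x', hx', n1, n2, n3⟩ := maxt_two (K := 𝒩(F)) m.toW (inf_le_left : ax A C ≤ A) (by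
    rw [m'.cr, ← s.full.card m' m hne.symm]
    exact Nat.mul_le_mul h4 (card_le_of_le fun z hz => ⟨hz.1, hz.1.1, hz.2⟩))
  obtain ⟨y1, hy1, s1, z1⟩ := sw x hx n1
  obtain ⟨y2, hy2, s2, z2⟩ := sw x' hx' n2
  obtain ⟨k1, k2, k3⟩ := maxt_tor m.toNb hx.1 hy1 s1 hx'.1 hy2 s2 n2 n3
  have k4 := mul_mem z1 z2
  generalize x * y1 * x * (x' * y2 * x') = k at k1 k2 k3 k4
  have kV : ∀ u ∈ ax A F, k * u * k⁻¹ ∈ ax A F := fun u => conj_mem (norm_ax k1 k2)
  obtain ⟨b, hb, e1⟩ := s.uni.exists_cj m' k1 (mem_norm_of_cj_le (by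
    rintro _ ⟨z, hz, rfl⟩
    exact ⟨conj_mem k1 hz.1, (cV _ (conj_mem k1 hz.1)).1 (mul_mem (mul_mem k4 ((cV z hz.1).2 hz.2)) (inv_mem k4))⟩))
  obtain ⟨v0, hv0, w, hw, rfl⟩ := maxt_dec m.toW full hb
  rw [cj_mul, cj_eq hw.2] at e1
  obtain ⟨u, hu, rfl⟩ := surj_of_inj le_rfl (fun u => u * (k * u * k⁻¹)) (fun u hu => mul_mem hu (kV u hu))
    (fun u hu u' hu' e => by
      rw [← inv_mul_eq_one]
      refine k3 _ (mul_mem (inv_mem hu) hu') ?_
      rw [← conj_mul, ← conj_inv, m.inv_eq (kV u hu).1, m.inv_eq hu.1, ← inv_mul_cancel_left u (k * u * k⁻¹),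
        show u * (k * u * k⁻¹) = u' * (k * u' * k⁻¹) from e, mul_assoc u⁻¹, mul_assoc u', m.sq (kV u' hu').1, mul_one,
        m.inv_eq hu.1]) hv0
  have k5 : k ∈ 𝒩(cj u C) := cj_eq_iff_mem.1 (by
    rw [← cj_mul, ← inv_mul_cancel_right (k * u) k, cj_mul, ← e1, ← cj_mul, m.comm hu.1 (kV u hu).1, ← mul_assoc,
      m.sq (kV u hu).1, one_mul])
  have n := m'.toNb.cj_right (le_normalizer hu.1)
  have hc' := conj_mem_cj u hc.1
  have hj : ⁅u, c⁆ * (c * i * c⁻¹) ∈ ax A F := mul_mem (h1 u hu.1) (by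
    have := mul_mem (inv_mem (h1 i hi.1)) hi
    rwa [cel_def, show (i * c * i⁻¹ * c⁻¹)⁻¹ * i = c * i * c⁻¹ by group] at this)
  have e2 : c * i = ⁅u, c⁆ * (c * i * c⁻¹) * (u * c * u⁻¹) := by
    rw [← m.comm (conj_mem hc.2 hi.1) (h1 u hu.1).1, ← m.inv_eq (h1 u hu.1).1, cel_def]
    group
  generalize ⁅u, c⁆ * (c * i * c⁻¹) = j at hj e2
  have e3 := mul_inv_eq_iff_eq_mul.2 (mZ.1 k4)
  rw [e2, ← conj_mul] at e3
  have e4 : j⁻¹ * (k * j * k⁻¹) = u * c * u⁻¹ * (k * (u * c * u⁻¹) * k⁻¹)⁻¹ := by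
    rw [eq_mul_inv_iff_mul_eq, mul_assoc, e3, inv_mul_cancel_left]
  have e5 := k3 j hj (inv_mul_eq_one.1 (n.eq_one (mul_mem (inv_mem hj.1) (kV j hj).1)
    (e4 ▸ mul_mem hc' (inv_mem (conj_mem k5 hc'))))).symm
  rw [e5, one_mul] at e2
  have nb : Nb F (cj u C) := by simpa only [cj_eq hu.2] using p.ed.toNb.conj u
  have := (m.of_card m.pt nb (by
    rw [← m'.cr, ← card_cj t]
    exact card_le_of_le fun z hz => ⟨f1.le (mem_sup_left hz), n.norm_of_comm' hc' (fun e => c1 (by simpa using e))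
      (e2 ▸ mZ.1 (f2 z hz))⟩)).conj u⁻¹
  rwa [cj_inv_cj, cj_eq (inv_mem hu.2)] at this

section

variable {G : Type*} [Group G] [Finite G] {A B C F : Subgroup G} {q r : ℕ}

theorem onan_nb (s : St q r A) (hm : ∀ F C, Mx q r A F → Mx q r A C → ax A F ≠ ax A C → Mx q r F C) (hB : Pt A B)
    (m : Mx q r B F) (m' : Mx q r B C) (hne : C ≠ F) : Mx q r F C := by
  by_cases e : ax B F = ax B C
  · exact (s.pt hB).mx_of_ax m m' e hne
  obtain ⟨g, rfl⟩ := hB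
  simpa only [cj_cj_inv] using (hm _ _ m.conj_inv m'.conj_inv fun h => e (ax_conj_inv h)).conj g

theorem onan_all (s : St q r A) (mc : MConn q r A)
    (hm : ∀ F C, Mx q r A F → Mx q r A C → ax A F ≠ ax A C → Mx q r F C) (hB : Pt A B) (hC : Pt A C) (hne : C ≠ B) :
    Mx q r B C := by
  have k : ∀ {E}, Relation.ReflTransGen (Mx q r) A E → E ≠ A → Mx q r A E := fun h => by
    induction h with
    | refl => exact fun e => (e rfl).elim
    | @tail B C _ m ih =>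
      intro e
      by_cases e' : B = A
      · exact e' ▸ m
      · exact onan_nb s hm (ih e').pt (ih e').symm m e
  by_cases e : B = A
  · exact e ▸ k (mc C hC) (e ▸ hne)
  by_cases e' : C = A
  · exact e' ▸ (k (mc B hB) e).symm
  exact onan_nb s hm (Pt.refl A) (k (mc B hB) e) (k (mc C hC) e') hne

theorem onan_tr (s : St q r A) (f : FullP q r A) (all : ∀ {B C}, Pt A B → Pt A C → C ≠ B → Mx q r B C)
    (m : Mx q r A F) (m' : Mx q r A C) : ∃ g ∈ 𝒩(A), cj g F = C := by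
  by_cases l : Ln A F C
  · obtain ⟨a, ha, e⟩ := l.resolve_left m'.ne
    exact ⟨a, le_normalizer ha, e⟩
  have n := all m.pt m'.pt fun e => l (e ▸ Ln.right A C)
  have sm := (s.pt m.pt).sm C n
  have nl : ¬ Ln F C A := fun h => l (((sm.of_ln n.toNb h (Ln.left F C) m.ne).2.2.2.2 C).2 (Ln.right F C))
  obtain ⟨x, hx, hx'⟩ := n.exists_not_mem
  have lE := (Ln.right F C).cj_left hx
  have n1 := n.cj_right (le_normalizer hx)
  have pE := m.pt.trans n1.pt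
  have n2 := all pE (Pt.refl A) fun e => nl (e ▸ lE)
  have k := (sm.of_ln n.toNb lE (Ln.left F C) n1.ne.symm).2.2.2.2
  obtain ⟨e, he, e1⟩ := ((k C).2 (Ln.right F C)).resolve_left fun e => hx' (cj_eq_iff_mem.1 e.symm)
  obtain ⟨a, ha, b, hb, rfl⟩ := maxt_dec n2.toW (f.pt pE A F n2 n1.symm fun e =>
    nl ((k A).1 ((s.pt pE).uni F A n1.symm n2 e.symm))) he
  exact ⟨a, ha.2, by rwa [cj_mul, cj_eq hb.2] at e1⟩

end

theorem onanThm : OnanThm.{u} := by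
  intro G _ _ _ q r A s f mc hm
  have all : ∀ {B C}, Pt A B → Pt A C → C ≠ B → Mx q r B C := onan_all s mc hm
  obtain ⟨F, m⟩ := s.ex
  let _ : MulAction G {B // Pt A B} :=
    { smul := fun g B => ⟨cj g B.1, B.2.cj_right g⟩
      one_smul := fun B => Subtype.ext (cj_one B.1)
      mul_smul := fun g k B => Subtype.ext (cj_mul g k B.1) }
  have hs : ∀ {g : G} {B C : {B // Pt A B}}, g • B = C ↔ cj g B.1 = C.1 := Subtype.ext_iff
  obtain ⟨v, hv, v1⟩ := m.exists_mem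
  let E : CL.Perm.ElSys G {B // Pt A B} :=
    { N := fun B => B.1
      p := 2
      prime := Nat.prime_two
      pow_eq := fun {B _} h => (sq _).trans ((s.toW.of_pt B.2).sq h)
      conj := fun g _ _ h => conj_mem_cj g h
      fix := fun h => hs.2 (cj_eq (le_normalizer h))
      comm := fun {B _ _} => (s.toW.of_pt B.2).comm
      trans := fun {a b c d} h1 h2 => by
        obtain ⟨g, e⟩ := a.2.symm.trans c.2
        obtain ⟨k, hk, e'⟩ := onan_tr (s.pt c.2) (f.pt c.2) (fun h h' => all (c.2.trans h) (c.2.trans h'))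
          (all c.2 (b.2.cj_right g) fun h => h1 (Subtype.ext (cj_inj.1 (e.trans h.symm))))
          (all c.2 d.2 fun h => h2 (Subtype.ext h.symm))
        exact ⟨k * g, hs.2 (by rw [cj_mul, e, cj_eq hk]), hs.2 (by rw [cj_mul, e'])⟩
      faithful := fun {g} h => by
        rcases (MulAction.toPermHom G {B // Pt A B}).normal_ker.eq_bot_or_eq_top with e | e
        · exact mem_bot.1 (e ▸ Equiv.ext h)
        · obtain ⟨x, hx, hx'⟩ := m.exists_not_mem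
          exact absurd (cj_eq_iff_mem.1 (hs.1 (Equiv.ext_iff.1 (e.ge (mem_top x)) ⟨F, m.pt⟩))) hx'
      nsr := ⟨⟨A, Pt.refl A⟩, ⟨F, m.pt⟩, fun e => m.ne (congrArg Subtype.val e).symm, v, hv.1, v1,
        hs.2 (cj_eq hv.2)⟩ }
  obtain ⟨K, _, _, n, pt, hn, h⟩ := E.exists_isCoord_three
  obtain ⟨φ⟩ := h.nonempty_equiv
  have e : ⨆ x, E.N x = ⊤ := E.normal_iSup.eq_bot_or_eq_top.resolve_left fun e =>
    v1 (mem_bot.1 (e ▸ mem_iSup_of_mem (S := E.N) ⟨A, Pt.refl A⟩ hv.1))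
  have h2 : (2 : K) = 0 := by
    let a : Fin n := ⟨0, by omega⟩
    let b : Fin n := ⟨1, by omega⟩
    have ab : a ≠ b := by simp [a, b]
    have n0 : ∀ (i : Fin n) (w : Fin n → K), w i = 1 → w ≠ 0 := fun i w h e => by simp [e] at h
    obtain ⟨g, hg, h3⟩ := h.exists_N (v := Pi.single a 1) (f := LinearMap.proj b) (n0 a _ (by simp)) (by simp [ab.symm])
    have h4 : g • g • pt (Pi.single b 1) = pt (Pi.single b 1) := by rw [← mul_smul, ← sq, E.pow_eq hg, one_smul]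
    rw [h3 _ (n0 b _ (by simp)), h3 _ (n0 b _ (by simp [ab.symm])),
      h.eq_iff (n0 b _ (by simp [ab.symm])) (n0 b _ (by simp))] at h4
    obtain ⟨c, h4⟩ := h4
    have := congrFun h4 a
    simp [ab, ab.symm] at this
    rw [← one_add_one_eq_two, ← this]
  exact ⟨K, inferInstance, inferInstance, CharTwo.of_one_ne_zero_of_two_eq_zero one_ne_zero h2, n, hn,
    ⟨(topEquiv.symm.trans (MulEquiv.subgroupCongr e.symm)).trans φ⟩⟩

end CL.WTI
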