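/-
Weakly closed TI-subgroups: sections without edges, and coprime generation.
-/
import Cfsg.Agent.Timm.W2
import Cfsg.Agent.Grp.Coprime2

set_option autoImplicit false

open Cfsg Subgroup
open scoped commutatorElement

namespace CL.WTI

open CL.Even CL.Timm CL.Grp

universe u

section
variable {G : Type u} [Group G] [Finite G] {A B : Subgroup G} {h : G}

theorem ne_noEd {H : Type*} [Group H] {π : G →* H} (w : W A) (hs : Function.Surjective π) (hk : π.ker ≤ 𝒩(A))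
    (e : ∀ C, Nb A C → ax A C ≤ π.ker) (C : Subgroup H) : ¬ Ed (A.map π) C := fun k => by
  obtain ⟨C, hC, rfl⟩ := Pt.exists_map hs k.pt
  exact k.nt (by rw [← w.map_ax hk hC, Subgroup.map_eq_bot_iff]; exact e C ⟨w, hC, fun e' => k.ne (by rw [e'])⟩)

theorem ne_cent (r2 : R2Thm.{u}) (se : SEThm.{u}) (ho : HoltP.{u}) (e : Nb A B) (ht : A ⊔ B = ⊤)
    (hn : ∀ C, ¬ Ed A C) (h4 : 4 ≤ Nat.card A) (h2 : IsPGroup 2 (zpowers h)) (hA : h ∈ 𝒩(A)) (hB : h ∈ 𝒩(B)) :
    h ∈ center G := by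
  have hx : ∀ C, Nb A C → ax A C = ⊥ := fun C k => by_contra fun k1 => hn C ⟨k, k1⟩
  obtain ⟨g, hg⟩ := e.pt
  obtain ⟨_, hc⟩ := r2 e.toW h4 (top_le_iff.1 (ht.ge.trans (sup_le (le_ncl _ _) (hg ▸ cj_le_ncl A (mem_top g)))))
    (le_bot_iff.1 ((inf_le_inf_left A (le_sup_right.trans (e.w'.le_norm_of_pgroup
      (isPGroup_sup e.w'.isP (pCore_isPGroup 2 G) le_normalizer_of_normal) le_sup_left))).trans (hx B e).le))
  let π := QuotientGroup.mk' (center G)
  have hs : Function.Surjective π := QuotientGroup.mk'_surjective _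
  have hk : π.ker ≤ 𝒩(A) := (QuotientGroup.ker_mk' _).le.trans (center_le_normalizer _)
  have e' := e.map hs hk
  have hn' := ne_noEd e.toW hs hk fun C k => (hx C k).le.trans bot_le
  have h1 : A.map π ≠ ⊥ := fun k => e'.not_le (k ▸ bot_le)
  rcases ho hc e'.toW h1 (fun k => ((k _ e'.pt).cases_head.elim (fun k => e'.ne k.symm) fun ⟨C, k, _⟩ => hn' C k)) with
    k | ⟨-, C, hC, k, a, ha, a1, b, hb, b1, k1⟩
  · have := se hc k e' h1 (h2.map π) ((map_mono (zpowers_le.2 hA)).trans (le_normalizer_map π))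
      ((map_mono (zpowers_le.2 hB)).trans (le_normalizer_map π))
    exact (QuotientGroup.ker_mk' _).le ((Subgroup.map_eq_bot_iff _).1 this (mem_zpowers h))
  · exact absurd (Nb.odd ⟨e'.toW, hC, fun e1 => k (e1 ▸ .refl)⟩ hn' ha a1 hb b1) (Nat.not_odd_iff_even.2 k1)

theorem ne_top (r2 : R2Thm.{u}) (se : SEThm.{u}) (ho : HoltP.{u}) (e : Ed A B) (ht : A ⊔ B = ⊤)
    (h4 : 4 * Nat.card (ax A B) ≤ Nat.card A) (h2 : IsPGroup 2 (zpowers h)) (hA : h ∈ 𝒩(A)) (hB : h ∈ 𝒩(B))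
    {x : G} (hx : x ∈ A) : ⁅x, h⁆ ∈ ax A B := by
  have : (nn A B).Normal := normal_iff_top_le.2 (ht ▸ e.sup_le_norm_nn)
  let π := QuotientGroup.mk' (nn A B)
  have hs : Function.Surjective π := QuotientGroup.mk'_surjective _
  have k0 : π.ker = nn A B := QuotientGroup.ker_mk' _
  have hk : π.ker ≤ 𝒩(A) := k0.le.trans e.nn_le_norm
  have h5 : Nat.card (ax A B) * Nat.card (A.map π) = Nat.card A := by
    rw [← relIndex_ker, k0, ← e.inf_nn, inf_comm, ← Nat.card_congr (subgroupOfEquivOfLe inf_le_right).toEquiv,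
      inf_subgroupOf_right, relIndex, card_mul_index]
  have := ne_cent r2 se ho (e.toNb.map hs hk) (by rw [← Subgroup.map_sup, ht, map_top_of_surjective _ hs])
    (ne_noEd e.toW hs hk fun C ⟨_, ⟨g, hg⟩, k⟩ => by
      subst hg
      rw [e.ax_eq (ht ▸ mem_top g) k, k0]
      exact le_sup_left)
    (Nat.le_of_mul_le_mul_left (by rw [h5, mul_comm]; exact h4) Nat.card_pos) (h := π h)
    (π.map_zpowers h ▸ h2.map π) (le_normalizer_map π (mem_map_of_mem π hA)) (le_normalizer_map π (mem_map_of_mem π hB))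
  refine e.mem_ax_of_nn ?_ (k0.le ?_)
  · rw [commutatorElement_def, mul_assoc, mul_assoc, ← mul_assoc h]
    exact mul_mem hx (conj_mem hA (inv_mem hx))
  · rw [MonoidHom.mem_ker, map_commutatorElement, commutatorElement_eq_one_iff_mul_comm]
    exact mem_center_iff.1 this _

end

theorem neThm (r2 : R2Thm.{u}) (se : SEThm.{u}) (ho : HoltP.{u}) : NEThm.{u} := by
  intro G _ _ A B h e h4 hh h2 hA hB x hx
  have c : ∀ {C}, C ≤ A → Nat.card (C.subgroupOf (A ⊔ B)) = Nat.card C := fun k =>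
    Nat.card_congr (subgroupOfEquivOfLe (k.trans le_sup_left)).toEquiv
  have := ne_top r2 se ho (A := A.subgroupOf (A ⊔ B)) (B := B.subgroupOf (A ⊔ B)) (h := ⟨h, hh⟩)
    ⟨e.toNb.subgroupOf le_sup_left le_sup_right, fun k => e.nt (by
      rw [ax_subgroupOf le_sup_right, ← Subgroup.card_eq_one, c inf_le_left] at k
      exact Subgroup.card_eq_one.1 k)⟩
    (by rw [← subgroupOf_sup le_sup_left le_sup_right, subgroupOf_self])
    (by rwa [ax_subgroupOf le_sup_right, c inf_le_left, c le_rfl])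
    (IsPGroup.of_card ((Nat.card_zpowers _).trans ((orderOf_coe _).symm.trans ((Nat.card_zpowers h).symm.trans
      (IsPGroup.iff_card.1 h2).choose_spec))))
    ((mem_norm_subgroupOf le_sup_left).2 hA) ((mem_norm_subgroupOf le_sup_right).2 hB) (x := ⟨x, mem_sup_left hx⟩) hx
  rwa [ax_subgroupOf le_sup_right] at this

theorem genThm : GenThm.{u} := by
  intro G _ _ T T₀ K E U h0 hT k1 k0 e1 e0 eK hK hE h4 hU hne hc
  have c0 : ∀ {x g}, g ∈ 𝒩(T₀) → x ∈ T₀ → ⁅x, g⁆ ∈ T₀ := fun {x g} hg hx => by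
    rw [commutatorElement_def, mul_assoc, mul_assoc, ← mul_assoc g]
    exact mul_mem hx (conj_mem hg (inv_mem hx))
  have t0 : T₀ ≤ U := fun x hx => by
    have := Finite.one_lt_card_iff_nontrivial.1 (by omega : 1 < Nat.card E)
    obtain ⟨⟨e, he⟩, h1⟩ := exists_ne (1 : E)
    exact (hc e he (fun k => h1 (Subtype.ext k)) x (h0 hx)).1 (c0 (e0 he) hx)
  have cU : cmod T T₀ ≤ 𝒩(U) := fun c k => mem_norm_of_cj_le (by
    rintro _ ⟨x, hx, rfl⟩
    simpa [commutatorElement_def, mul_assoc] using mul_mem hx (t0 (k.2 _ (inv_mem (hU hx)))))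
  let N := 𝒩(T) ⊓ 𝒩(T₀)
  have : ((cmod T T₀).subgroupOf N).Normal :=
    normal_subgroupOf_of_le_normalizer (le_norm_cmod inf_le_left inf_le_right)
  let π := QuotientGroup.mk' ((cmod T T₀).subgroupOf N)
  have ker : ∀ {g : N}, π g = 1 ↔ (g : G) ∈ cmod T T₀ := QuotientGroup.eq_one_iff _
  have KN : K ≤ N := le_inf k1 k0
  have EN : E ≤ N := le_inf e1 e0
  have sq : ∀ a ∈ (E.subgroupOf N).map π, a ^ 2 = 1 := by
    rintro _ ⟨a, ha, rfl⟩
    rw [← map_pow, show a ^ 2 = 1 from Subtype.ext (hE.2 _ ha), map_one]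
  have inj : ∀ e : N, (e : G) ∈ E → π e = 1 → (e : G) = 1 := fun e he k => by_contra fun h1 =>
    hne (hU.antisymm fun x hx => (hc e he h1 x hx).1 ((ker.1 k).2 x hx))
  have := hE.1
  have key := le_of_forall_centralizer_le (A := (E.subgroupOf N).map π) (K := (K.subgroupOf N).map π)
    (M := (𝒩(U).subgroupOf N).map π) (fun k => ?_)
    ((map_mono fun a ha => (mem_norm_subgroupOf KN).2 (eK ha)).trans (le_normalizer_map π)) ?_ ?_
  · intro k hk
    obtain ⟨n, hn, e⟩ := key (mem_map_of_mem π (show (⟨k, KN hk⟩ : N) ∈ K.subgroupOf N from hk))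
    have := cU (ker.1 (show π (n⁻¹ * ⟨k, KN hk⟩) = 1 by rw [map_mul, map_inv, e, inv_mul_cancel]))
    exact (mul_mem_cancel_left (inv_mem hn)).1 this
  · have a1 : Nat.card E ≤ Nat.card ((E.subgroupOf N).map π) := Nat.card_le_card_of_injective
      (fun e => ⟨π ⟨e, EN e.2⟩, mem_map_of_mem π e.2⟩) fun a b e => Subtype.ext (inv_mul_eq_one.1
        (inj ((⟨a, EN a.2⟩ : N)⁻¹ * ⟨b, EN b.2⟩) (mul_mem (inv_mem a.2) b.2) (by
          rw [map_mul, map_inv, inv_mul_eq_one]; exact congrArg Subtype.val e)))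
    have a2 := Nat.le_of_dvd two_pos (k.exponent_eq_card ▸ Monoid.exponent_dvd_of_forall_pow_eq_one fun a =>
      Subtype.ext (sq a a.2))
    omega
  · obtain ⟨n, hn⟩ := IsPGroup.iff_card.1 (show IsPGroup 2 ((E.subgroupOf N).map π) from fun a =>
      ⟨1, Subtype.ext (sq a a.2)⟩)
    rw [hn]
    refine Nat.Coprime.pow_left n ((Nat.Prime.coprime_iff_not_dvd Nat.prime_two).2 fun k => ?_)
    obtain ⟨⟨_, a, ha, rfl⟩, h2⟩ := exists_prime_orderOf_dvd_card' 2 k
    obtain ⟨i, m, hm, e⟩ := Nat.exists_eq_two_pow_mul_odd (orderOf_pos (a : G)).ne'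
    have a1 : π (a ^ m) = 1 := ker.2 ⟨k0 (pow_mem ha m), hK _ (pow_mem ha m) (IsPGroup.of_card (n := i) (by
      rw [Nat.card_zpowers, coe_pow, orderOf_pow_of_dvd hm.pos.ne' (e ▸ dvd_mul_left m _), e, Nat.mul_div_cancel _ hm.pos]))⟩
    rw [map_pow, ← orderOf_dvd_iff_pow_eq_one, show orderOf (π a) = 2 from (orderOf_coe _).trans h2] at a1
    exact hm.not_two_dvd_nat a1
  · rintro _ ⟨e, he, rfl⟩ h1 _ ⟨⟨k, hk, rfl⟩, h2⟩
    refine mem_map_of_mem π (mem_norm_of_cj_le ?_)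
    rintro _ ⟨x, hx, rfl⟩
    have e1 : (e : G) ≠ 1 := fun k => h1 (by rw [show e = 1 from Subtype.ext k, map_one])
    have a1 := ker.1 (show π (e⁻¹ * k⁻¹ * e * k) = 1 by
      simp only [map_mul, map_inv]
      rw [mul_assoc, ← mem_centralizer_singleton_iff.1 h2]; group)
    refine (hc e he e1 _ (conj_mem (k1 hk) (hU hx))).1 ?_
    simpa [commutatorElement_def, mul_assoc] using conj_mem (k0 hk)
      (mul_mem ((hc e he e1 x (hU hx)).2 hx) (conj_mem (e0 he) (a1.2 x (hU hx))))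

end CL.WTI
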