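/-
Weakly closed TI-subgroups: a minimal pair of axes gives a triangle (PAIR).
-/
import Cfsg.Agent.Timm.W2

set_option autoImplicit false

open Cfsg Subgroup
open scoped commutatorElement

namespace CL.WTI

open CL.Even CL.Timm CL.Grp

universe u

theorem pair_mem_sup {G : Type*} [Group G] {A B C : Subgroup G} {x : G} (w : W A) (hB : B ≤ A) (hC : C ≤ A)
    (hx : x ∈ B ⊔ C) : ∃ a ∈ B, ∃ b ∈ C, a * b = x :=
  (mem_sup_nr (hB.trans (w.le_cent.trans ((cent_mono hC).trans (cent_le_norm _))))).1 hx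

theorem pairThm (lc : LemC.{u}) : PairThm.{u} := by
  intro G _ _ q r A F C p hI
  obtain ⟨f, ⟨hf, hfV⟩, f1⟩ := (bot_or_exists_ne_one (ax F A ⊓ 𝒩(ax A C))).resolve_left fun e =>
    hI (card_eq_one.1 (by rw [← p.card_FI, e, card_bot]))
  have hfO : zpowers f ≤ 𝒩(op A (ax A C)) := norm_op (zpowers_le.2 hf.2) (zpowers_le.2 hfV)
  obtain ⟨S, hS, h1⟩ := exists_isSylowIn_ge (p.mF.w'.isP.to_le (zpowers_le.2 hf.1))
    (le_sup_right : zpowers f ≤ op A (ax A C) ⊔ zpowers f)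
  have hS' := syl_inf_of_norm hS le_sup_left (hS.1.trans (sup_le le_normalizer hfO))
  obtain ⟨z, hz, h2⟩ := p.mF.exists_cent_cj inf_le_left hS' (p.mC.w'.isP.to_le inf_le_left) p.mC.ax_le_op
  rw [cj_ax, cj_eq_of_mem_cent hz] at h2
  have hzV := ax_cent C hz
  have m' : Mx q r A (cj z C) := p.mC.cj_right (cent_le_norm _ hz)
  have h3 : ax (cj z C) A ≤ S := h2.trans inf_le_left
  have h4 : ax (cj f (cj z C)) A = cj f (ax (cj z C) A) := by rw [cj_ax, cj_eq hf.2]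
  have h5 := lc m' (m'.cj_right hf.2) (hS.isPGroup.to_le (sup_le h3 (h4 ▸ cj_le_of_mem h3 (h1 (mem_zpowers f)))))
  have p' : MinP q r A F (cj z C) := (p.of_le p.mF m' (by rw [hzV]; exact p.ne) (by rw [hzV])).1
  obtain ⟨c, hc, hc'⟩ : ∃ c ∈ ax (cj z C) A, c ∉ 𝒩(ax A F) := by
    by_contra! hn
    have e2 := p'.symm.card_FI
    rw [inf_eq_left.2 hn, m'.cr'] at e2
    have : ax A (cj z C) ⊓ ax A F = ax A F := eq_of_le_of_card_ge inf_le_right (by rw [← e2, p.mF.cr])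
    exact p'.ne (p.mF.ax_eq_of_le m' (this ▸ inf_le_left))
  have m2 : Mx q r A (cj c F) := p.mF.cj_right hc.2
  have h6 := comm_of_mem (h5 hc) (h4 ▸ conj_mem_cj f hc)
  have h7 : f ∈ 𝒩(cj c F) := by
    refine m2.norm_of_comm' (conj_mem_cj c hf.1) (by simpa using f1) ?_
    rw [p.mF.w'.inv_eq hf.1] at h6
    rw [m'.w'.inv_eq hc.1]
    simpa only [mul_assoc] using h6
  have e1 : ax A (cj c F) = cj c (ax A F) := by rw [cj_ax, cj_eq hc.2]
  obtain ⟨p2, e⟩ := p.of_le p.mF m2 (by rw [e1]; exact fun e => hc' (cj_eq_iff_mem.1 e.symm)) fun v hv =>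
    mem_inf.2 ⟨hv.1, by
      have := conj_mem_cj c hv.1
      rwa [← m'.comm_ax (hzV.ge hv.2) hc, mul_inv_cancel_right, ← e1] at this⟩
  exact ⟨z, hz, c, hc, hc', ⟨p2, e ▸ hI, fun g hg h => p2.aon (e ▸ hI) hf f1 h7 hg h⟩, e⟩

theorem triThm (pr : PairThm.{u}) : TriThm.{u} := by
  intro G _ _ q r A lt full uni F C m m' hne
  have p := full.minP m m' hne
  have hI : ax A F ⊓ ax A C ≠ ⊥ := fun e => by
    have := full.card m m' hne
    rw [e, card_bot] at this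
    omega
  obtain ⟨z, -, c, -, -, t, e⟩ := pr p hI
  obtain ⟨x', hx', h1⟩ := m.exists_not_mem_ax t.mC t.ne
  obtain ⟨v, hv, x, hx, rfl⟩ := pair_mem_sup m.toW inf_le_left inf_le_left ((full F C m m' hne).ge hx'.1)
  obtain ⟨f, hf, rfl⟩ := m.exists_cel hx.1 (fun h => h1 (mul_mem hv.2 h)) hv
  have e1 : ⁅x, f⁆ * x = f * x * f⁻¹ := by
    rw [m.comm hv.1 hx.1, cel_def, m.inv_eq hx.1, ← mul_assoc, ← mul_assoc, ← mul_assoc, m.sq hx.1, one_mul]
  have m2 := m'.cj_right hf.2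
  have e2 : ax A (cj f C) = cj f (ax A C) := by rw [cj_ax, cj_eq hf.2]
  have h3 : ax A F ⊓ ax A C ≤ ax A (cj f C) := fun v hv => by
    have := conj_mem_cj f hv.2
    rwa [← m.comm_ax hv.1 hf, mul_inv_cancel_right, ← e2] at this
  have e3 : ax A (cj c F) = ax A (cj f C) := by
    by_contra hn
    have := (p.of_le t.mC m2 hn (le_inf (e ▸ inf_le_right) h3)).2
    exact h1 (this.le ⟨hx', by rw [e1, e2]; exact conj_mem_cj f hx⟩).1.2
  obtain ⟨a, ha, e4⟩ := (uni _ _ m2 t.mC e3.symm).resolve_left t.mC.ne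
  obtain ⟨s, hs, w, hw, rfl⟩ := pair_mem_sup m.toW inf_le_left inf_le_left ((full _ _ m m2 (e3 ▸ t.ne)).ge ha)
  rw [cj_mul, cj_eq hw.2, ← cj_mul] at e4
  have := t.conj' (s * f)⁻¹
  rwa [← e4, cj_inv_cj, cj_eq (inv_mem (mul_mem (le_normalizer hs.1) hf.2)),
    cj_eq (inv_mem (mul_mem hs.2 (le_normalizer hf.1)))] at this

end CL.WTI
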