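/-
Weakly closed TI-subgroups: the reduction to simple groups.
-/
import Cfsg.Agent.Timm.W2
import Cfsg.Agent.Inv.ZStar
import Cfsg.Agent.Grp.Coprime2

set_option autoImplicit false

open Cfsg Subgroup
open scoped commutatorElement

namespace CL.WTI

open CL.Even CL.Timm CL.Grp

universe u

section
variable {G : Type*} [Group G] {A K L B : Subgroup G} {a b : G}

theorem r2_central (hK : K.Normal) (hn : ncl ⊤ A = ⊤) (h : A ≤ 𝒞(K)) : K ≤ center G := fun _ hk =>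
  mem_center_iff.2 fun g => (comm_of_mem ((hn.ge.trans (ncl_le h (le_norm_cent (normal_iff_top_le.1 hK))))
    (mem_top g)) hk).symm

theorem r2_central' (hK : K.Normal) (hn : ncl ⊤ A = ⊤) (h1 : K ≤ 𝒩(A)) (h2 : A ⊓ K = ⊥) : K ≤ center G :=
  r2_central hK hn fun x hx => mem_cent_iff.2 fun _ hk => cel_eq_one.1 (mem_bot.1 (h2.le
    ⟨cel_mem_right (h1 hk) hx, cel_mem_left hk (normal_iff_top_le.1 hK (mem_top x))⟩))

theorem r2_elem (h : W A) (h1 : B ≤ A) (hL : ∀ g ∈ L, cj g B ≤ 𝒩(A)) : IsElementaryAbelian 2 (ncl L B) := by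
  have key : ∀ g k : L, cj (g : G) B ≤ 𝒩(cj (k : G) A) := fun g k => by
    rw [← cj_norm, le_cj_iff, ← cj_mul]
    exact hL _ (mul_mem (inv_mem k.2) g.2)
  refine elem_iSup (fun g => elem_map _ (elem_of_le h.elem h1)) fun g k x hx => mem_cent_iff.2 fun y hy => ?_
  by_cases e : cj (k : G) A = cj (g : G) A
  · exact (h.conj g).comm (e ▸ cj_mono _ h1 hy) (cj_mono _ h1 hx)
  · exact Nb.comm_ax ⟨h.conj k, (Pt.of_cj _ A).symm.cj_right g, Ne.symm e⟩ ⟨cj_mono _ h1 hy, key k g hy⟩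
      ⟨cj_mono _ h1 hx, key g k hx⟩

variable [Finite G]

theorem r2_core_norm (h : W A) : pCore 2 G ≤ 𝒩(A) := le_sup_right.trans
  (h.le_norm_of_pgroup (isPGroup_sup h.isP pCore_isP (le_top.trans (normal_iff_top_le.1 inferInstance))) le_sup_left)

theorem r2_odd_norm (h : W A) (h4 : 4 ≤ Nat.card A) : oddCore G ≤ 𝒩(A) := by
  have := h.elem.1
  obtain ⟨n, hn⟩ := h.isP.exists_card_eq
  refine le_of_forall_centralizer_le (A := A) (fun hc => ?_) (le_top.trans (normal_iff_top_le.1 inferInstance))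
    (hn ▸ ((pPrimeCore_coprime 2 G).symm.pow_left n)) fun a ha h1 g hg =>
      h.mem_norm_of_comm ha h1 (mem_centralizer_singleton_iff.1 hg.2)
  obtain ⟨g, hg⟩ := IsCyclic.exists_ofOrder_eq_natCard (α := A)
  have := Nat.le_of_dvd two_pos (orderOf_dvd_of_pow_eq_one (x := g) (Subtype.ext (h.elem.2 g g.2)))
  omega

theorem r2_a {G : Type u} [Group G] [Finite G] {A K : Subgroup G} {a : G} (h : W A)
    (hc : ∀ x y : G, ⁅x, y⁆ ∈ K) (h0 : A ⊓ K = ⊥) (ha : a ∈ A) (g : G) : ⁅a, g⁆ ∈ oddCore G := by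
  by_cases h1 : a = 1
  · simp [h1]
  refine CL.Inv.zstar_mem_oddCore ⟨orderOf_eq_prime (h.elem.2 a ha) h1, fun k e => ?_⟩ g
  have h2 := h.mem_norm_of_comm ha h1 e.symm.eq
  have h3 : k * a * k⁻¹ ∈ A := h.mem_of_cent (Pt.refl A) (Pt.of_cj k A) (conj_mem_cj k ha)
    (mem_cent_iff.2 fun x hx => cel_eq_one.1 (mem_bot.1 (h0.le ⟨cel_mem_left hx h2, hc _ _⟩)))
  exact mul_inv_eq_one.1 (mem_bot.1 (h0.le ⟨A.mul_mem h3 (A.inv_mem ha), hc k a⟩))

theorem r2_b (h : W A) (hK : K.Normal) (hc : ∀ x y : G, ⁅x, y⁆ ∈ K) (ha : a ∈ A) (ha' : a ∉ K) (hb : b ∈ A)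
    (hb' : b ∈ K) (g : G) : g * b * g⁻¹ ∈ 𝒩(A) := by
  refine h.mem_norm_of_lonely ha (fun E hE e => by_contra fun n => ?_) (Pt.of_cj g A) (conj_mem_cj g hb)
    (Nat.not_odd_iff_even.1 fun e => ?_)
  · have k : Nb A E := ⟨h, hE, n⟩
    obtain ⟨x, hx, hx'⟩ := k.exists_not_mem
    obtain ⟨c, -, e'⟩ := k.exists_cel hx hx' ⟨ha, e⟩
    exact ha' (e' ▸ hc x c)
  · obtain ⟨c, e'⟩ := isConj_iff.1 (CL.Inv.isConj_of_odd_mul (h.sq ha) ((h.conj g).sq (conj_mem_cj g hb)) e).symm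
    exact ha' (e' ▸ hK.conj_mem _ (hK.conj_mem _ hb' g) c)

omit [Finite G] in
theorem r2_comm (h : W A) (hK : K.Normal) (x y : ↥(A ⊔ K)) : ⁅x, y⁆ ∈ K.subgroupOf (A ⊔ K) := by
  have hn : A ≤ 𝒩(K) := le_top.trans (normal_iff_top_le.1 hK)
  obtain ⟨a, ha, k, hk, e⟩ := (mem_sup_nr hn).1 x.2
  obtain ⟨b, hb, l, hl, e'⟩ := (mem_sup_nr hn).1 y.2
  rw [mem_subgroupOf, ← QuotientGroup.eq_one_iff]
  change QuotientGroup.mk' K ⁅(x : G), (y : G)⁆ = 1
  have h1 : ∀ k ∈ K, QuotientGroup.mk' K k = 1 := fun k hk => (QuotientGroup.eq_one_iff k).2 hk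
  rw [map_commutatorElement, ← e, ← e', map_mul, map_mul, h1 k hk, h1 l hl, mul_one, mul_one, ← map_commutatorElement,
    cel_eq_one.2 (h.comm ha hb), map_one]

end

theorem r2_le {G : Type u} [Group G] [Finite G] {A K : Subgroup G} (h : W A) (hn : ncl ⊤ A = ⊤) (hZ : center G = ⊥)
    (h2 : pCore 2 G = ⊥) (hO : oddCore G = ⊥) (hK : K.Normal) (h1 : K ≠ ⊥) : A ≤ K := by
  have hT := normal_iff_top_le.1 hK
  have w := h.subgroupOf (le_sup_left : A ≤ A ⊔ K)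
  by_cases h0 : A ⊓ K = ⊥
  · refine absurd (eq_bot_iff.2 ((r2_central hK hn fun a ha => mem_cent_iff.2 fun k hk => ?_).trans hZ.le)) h1
    have h3 := r2_a w (r2_comm h hK) (eq_bot_iff.2 fun x hx => Subtype.ext (mem_bot.1 (h0.le ⟨hx.1, hx.2⟩)))
      (a := ⟨a, mem_sup_left ha⟩) ha ⟨k, mem_sup_right hk⟩
    have h4 : pPrimeCoreOf 2 (A ⊔ K) ⊓ K ≤ pPrimeCoreOf 2 K := le_pPrimeCoreOf inf_le_right
      (le_norm_inf (le_sup_right.trans (le_normalizer_pPrimeCoreOf 2 _)) le_normalizer)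
      ((pPrimeCoreOf_coprime 2 _).of_dvd_left (card_dvd_of_le inf_le_left))
    have : (pPrimeCoreOf 2 K).Normal := normal_iff_top_le.2 (hT.trans (normalizer_le_normalizer_pPrimeCoreOf 2 K))
    exact (cel_eq_one.1 (mem_bot.1 (hO.le (le_pPrimeCore (pPrimeCoreOf_coprime 2 K)
      (h4 ⟨mem_map_of_mem _ h3, cel_mem_right (hT (mem_top a)) hk⟩))))).symm
  · refine fun a ha => by_contra fun ha' => h0 (eq_bot_iff.2 ?_)
    have h3 : IsElementaryAbelian 2 (ncl K (A ⊓ K)) := r2_elem h inf_le_left fun g hg => by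
      rintro _ ⟨b, hb, rfl⟩
      exact (mem_norm_subgroupOf le_sup_left).1 (r2_b w (hK.subgroupOf _) (r2_comm h hK) (a := ⟨a, mem_sup_left ha⟩)
        ha ha' (b := ⟨b, mem_sup_left hb.1⟩) hb.1 hb.2 ⟨g, mem_sup_right hg⟩)
    exact (le_ncl K _).trans ((le_core (ncl_le_self inf_le_right) (elem_isP h3) (le_norm_ncl K _)).trans
      ((core_le_core_of_normal le_top hT).trans (core_top.trans h2).le))

theorem r2Thm : R2Thm.{u} := by
  intro G _ _ A h h4 hn h0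
  let π := QuotientGroup.mk' (center G)
  have hs : Function.Surjective π := QuotientGroup.mk'_surjective _
  have hk : π.ker = center G := QuotientGroup.ker_mk' _
  have hk' : π.ker ≤ 𝒩(A) := hk.le.trans ((center_le_centralizer _).trans (cent_le_norm A))
  have w := h.map hs hk'
  have h1 : A ⊓ center G = ⊥ := eq_bot_iff.2 ((le_inf inf_le_left (le_pCore_of
    ⟨fun x hx g => by rwa [mem_center_iff.1 hx.2 g, mul_inv_cancel_right]⟩ (h.isP.to_le inf_le_left))).trans h0.le)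
  have h4' : 4 ≤ Nat.card (A.map π) := h4.trans (Nat.card_le_card_of_injective
    (fun a : A => (⟨π a, mem_map_of_mem π a.2⟩ : A.map π)) fun a b e => Subtype.ext (inv_mul_eq_one.1 (mem_bot.1
      (h1.le ⟨A.mul_mem (A.inv_mem a.2) b.2, QuotientGroup.eq.1 (congrArg Subtype.val e)⟩))))
  have hn' : ncl ⊤ (A.map π) = ⊤ := by rw [← map_top_of_surjective π hs, ← map_ncl, hn]
  have hZ : center (G ⧸ center G) = ⊥ := eq_bot_iff.2 fun z hz => by
    obtain ⟨z, rfl⟩ := hs z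
    refine (QuotientGroup.eq_one_iff z).2 (r2_central (K := (center _).comap π) inferInstance hn
      (fun x hx => mem_cent_iff.2 fun k hk => cel_eq_one.1 (mem_bot.1 (h1.le ⟨cel_mem_right ?_ hx, ?_⟩))) hz)
    · exact (h.mem_norm_map hk' (Pt.refl A)).1 (cent_le_norm _ (center_le_centralizer _ hk))
    · refine (QuotientGroup.eq_one_iff _).1 ?_
      change π ⁅k, x⁆ = 1
      rw [map_commutatorElement]
      exact cel_eq_one.2 (mem_center_iff.1 hk _).symm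
  have h0' : A.map π ⊓ pCore 2 _ = ⊥ := eq_bot_iff.2 fun x ⟨⟨a, ha, e⟩, hx⟩ => by
    have h5 : (pCore 2 _).comap π ≤ 𝒩(A) := fun k hk => (h.mem_norm_map hk' (Pt.refl A)).1 (r2_core_norm w hk)
    have h6 : IsElementaryAbelian 2 (ncl ⊤ (A ⊓ (pCore 2 _).comap π)) := r2_elem h inf_le_left fun g _ =>
      (cj_le_of_le inf_le_right (normal_iff_top_le.1 inferInstance (mem_top g))).trans h5
    rw [← e, mem_bot.1 (h0.le ⟨ha, le_pCore_of (normal_iff_top_le.2 (le_norm_ncl _ _)) (elem_isP h6)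
      (le_ncl _ _ ⟨ha, by rw [← e] at hx; exact hx⟩)⟩), map_one]
    exact one_mem _
  have h2 := eq_bot_iff.2 ((r2_central' inferInstance hn' (r2_core_norm w) h0').trans hZ.le)
  have hO := eq_bot_iff.2 ((r2_central' inferInstance hn' (r2_odd_norm w h4') (inf_pPrimeCore_eq_bot w.isP)).trans hZ.le)
  have hA : A.map π ≠ ⊥ := fun e => by rw [e, card_bot] at h4'; omega
  obtain ⟨a, -, a1⟩ := (bot_or_exists_ne_one _).resolve_left hA
  have : Nontrivial (G ⧸ center G) := ⟨a, 1, a1⟩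
  refine ⟨⟨fun K hK => or_iff_not_imp_left.2 fun e => eq_top_iff.2 (hn'.ge.trans
    (ncl_le (r2_le w hn' hZ h2 hO hK e) (normal_iff_top_le.1 hK)))⟩, fun c => a1 (mem_bot.1 (hZ.le ?_))⟩
  exact mem_center_iff.2 fun g => c.is_comm.comm g a

end CL.WTI
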