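/-
Weakly closed TI-subgroups: abelian large `2`-subgroups.
-/
import Cfsg.Agent.Timm.W2
import Cfsg.Agent.Loc.Bal2
import Cfsg.Prelude.Def_LocalStructure

set_option autoImplicit false

open Cfsg Subgroup
open scoped commutatorElement

namespace CL.WTI

open CL.Even CL.Timm CL.Grp

universe u

/-- an element of odd order centralizing `Ω₁(Q)` centralizes the abelian `2`-group `Q` -/
theorem s2978_cent {G : Type*} [Group G] {Q : Subgroup G} {x : G} (hQ : IsPGroup 2 Q) (hab : Q ≤ 𝒞(Q))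
    (hx : (orderOf x).Coprime 2) (hn : x ∈ 𝒩(Q)) (hc : x ∈ 𝒞(omegaOneCenter 2 Q)) : x ∈ 𝒞(Q) := by
  have key : ∀ k : ℕ, ∀ y ∈ Q, y ^ 2 ^ k = 1 → ⁅x, y⁆ = 1 := by
    intro k
    induction k with
    | zero => intro y _ e; rw [pow_zero, pow_one] at e; rw [e, commutatorElement_one_right]
    | succ k ih =>
      intro y hy e
      have h1 := ih (y * y) (mul_mem hy hy) (by rw [← sq, ← pow_mul, ← pow_succ', e])
      have h2 : ⁅x, y⁆ ∈ Q := cel_mem_right hn hy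
      rw [cel_mul_right, conj_eq_of_mem (hab hy) h2, ← sq] at h1
      exact commutator_eq_one_of_coprime (p := 2) (k := 1) hx
        (comm_of_mem hc (mem_ozc.2 ⟨h2, hab h2, h1⟩)).symm (by rwa [pow_one])
  refine mem_cent_iff.2 fun y hy => ?_
  obtain ⟨k, hk⟩ := isPGroup_iff_forall.1 hQ y hy
  exact (cel_eq_one.1 (key k y hy hk)).symm

theorem s2978_of (m : MainThm.{u}) (r2 : R2Thm.{u}) {G : Type u} [Group G] [Finite G] (_hK : Cfsg.IsKpGroup 2 G) (S : Sylow 2 G) (Q : Subgroup G) (hQS : Q ≤ (S : Subgroup G)) (hQab : IsMulCommutative ↥Q) (hlarge : Cfsg.IsLarge Q) (hQb : Q = Cfsg.largeBullet 2 Q) (hnotuniq : ∃ R : Subgroup G, IsPGroup 2 ↥R ∧ R ≠ ⊥ ∧ (S : Subgroup G) ≤ Subgroup.normalizer (R : Set G) ∧ ¬ Subgroup.normalizer (R : Set G) ≤ Subgroup.normalizer (Q : Set G)) : (∃ (F : Type) (_ : Field F) (_ : Fintype F) (_ : CharP F 2) (n : ℕ), 3 ≤ n ∧ Nonempty (↥(Cfsg.generalizedFittingSubgroup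 G) ≃* Matrix.ProjectiveSpecialLinearGroup (Fin n) F)) ∨ Cfsg.Spor.IsoM22 ↥(Cfsg.generalizedFittingSubgroup G) ∨ Cfsg.Spor.IsoM23 ↥(Cfsg.generalizedFittingSubgroup G) ∨ Cfsg.Spor.IsoM24 ↥(Cfsg.generalizedFittingSubgroup G) ∨ Nonempty (↥(Cfsg.generalizedFittingSubgroup G) ≃* alternatingGroup (Fin 6)) ∨ Nonempty (↥(Cfsg.generalizedFittingSubgroup G) ≃* alternatingGroup (Fin 9)) := by
  obtain ⟨R, hR, hR1, hSR, hRQ⟩ := hnotuniq
  have hS := isSylowIn_top S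
  generalize (S : Subgroup G) = S at hS hQS hSR
  have hab : Q ≤ 𝒞(Q) := le_centralizer_iff_isMulCommutative.2 hQab
  have hl : ∀ U, U ≤ Q → U ≠ ⊥ → 𝒩(U) ≤ 𝒩(Q) := fun U h => hlarge.2 U (h.trans hab)
  have hnb : ∀ U : Subgroup G, U ≤ Q → ⊤ ≤ 𝒩(U) → U = ⊥ := fun U h1 h2 => by
    by_contra h3
    exact hRQ (le_top.trans (h2.trans (hl U h1 h3)))
  have hQ : IsPGroup 2 Q := hS.isPGroup.to_le hQS
  have hcore : ∀ U, U ≤ 𝒩(Q) → IsPGroup 2 U → 𝒩(Q) ≤ 𝒩(U) → U ≤ Q := fun U h1 h2 h3 =>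
    (le_core h1 h2 h3).trans hQb.ge
  have hRS : R ≤ S := le_sup_right.trans (hS.eq_of_le (isPGroup_sup hS.isPGroup hR hSR) le_sup_left le_top).le
  obtain ⟨z, hz, z1, z2⟩ := exists_mem_pow_eq_one (hR.to_le inf_le_left) (inf_cent_ne_bot hR hS.isPGroup hSR hR1)
  have hZQ : S ⊓ 𝒞(S) ≤ Q := inf_le_right.trans ((cent_mono hQS).trans hlarge.1)
  have hZ1 : S ⊓ 𝒞(S) ≠ ⊥ := fun e => z1 (mem_bot.1 (e.le ⟨hRS hz.1, hz.2⟩))
  have hNS : 𝒩(S) ≤ 𝒩(S ⊓ 𝒞(S)) := le_norm_inf le_rfl (norm_le_norm_cent S)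
  have hSQ : S ≤ 𝒩(Q) := le_normalizer.trans (hNS.trans (hl _ hZQ hZ1))
  have hS' : IsSylowIn 2 S 𝒩(Q) := hS.of_le hSQ le_top
  obtain ⟨A, hA⟩ : ∃ A, A = omegaOneCenter 2 Q := ⟨_, rfl⟩
  have hzA : z ∈ A := hA ▸ mem_ozc.2 ⟨hZQ ⟨hRS hz.1, hz.2⟩, cent_mono hQS hz.2, z2⟩
  have hA1 : A ≠ ⊥ := fun e => z1 (mem_bot.1 (e ▸ hzA))
  have hAQ : A ≤ Q := hA ▸ ozc_le Q
  have hQA : 𝒩(Q) ≤ 𝒩(A) := hA ▸ norm_le_norm_ozc Q
  have hAQ' : 𝒩(A) ≤ 𝒩(Q) := hl A hAQ hA1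
  have hel : IsElementaryAbelian 2 A := hA ▸ ozc_elem Q
  have hCn : 𝒞(A) ≤ 𝒩(Q) := (cent_le_norm A).trans hAQ'
  have hCp : IsPGroup 2 𝒞(A) := isPGroup_of_coprime fun x hx ho =>
    eq_one_of_coprime_of_mem hQ ho (hlarge.1 (s2978_cent hQ hab ho (hCn hx) (hA ▸ hx)))
  have hC : 𝒞(A) ≤ Q := hcore _ hCn hCp (hQA.trans (norm_le_norm_cent A))
  have key : ∀ g, cj g A ≤ 𝒩(Q) → cj g A = A := fun g hg => by
    obtain ⟨n, hn, h1⟩ := syl_conj_le hS' (isPGroup_cj (elem_isP hel) g) hg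
    rw [← cj_mul] at h1
    have h2 : cj (n * g)⁻¹ (S ⊓ 𝒞(S)) ≤ Q := by
      rw [← le_cj_iff]
      exact inf_le_right.trans ((cent_mono h1).trans (cj_cent (n * g) A ▸ cj_mono _ hC))
    have h3 := hl _ h2 (mt cj_eq_bot.1 hZ1)
    rw [← cj_norm] at h3
    obtain ⟨k, hk, h4⟩ := syl_conj_le hS' (isPGroup_cj hS.isPGroup (n * g)⁻¹)
      ((cj_mono _ (le_normalizer.trans hNS)).trans h3)
    rw [← cj_mul] at h4
    have h5 := hl _ hZQ hZ1 (hNS (mem_norm_of_cj_le h4))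
    rw [mul_mem_cancel_left hk, inv_mem_iff, mul_mem_cancel_left hn] at h5
    exact cj_eq (hQA h5)
  have w : W A := ⟨⟨hel, fun g => or_iff_not_imp_right.2 fun hne => by
    obtain ⟨d, hd, d1⟩ := (bot_or_exists_ne_one _).resolve_left hne
    refine key g (le_trans ?_ ((cent_le_norm _).trans (hl (zpowers d) (zpowers_le.2 (hAQ hd.2)) (zpowers_eq_bot.not.2 d1))))
    exact (elem_le_cent (elem_map _ hel)).trans (cent_mono (zpowers_le.2 hd.1))⟩, fun g hg => key g (hg.trans hAQ')⟩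
  obtain ⟨g, hg, hg'⟩ := SetLike.not_le_iff_exists.1 hRQ
  have nb : Nb A (cj g A) := ⟨w, Pt.of_cj g A, fun e => hg' (hAQ' (cj_eq_iff_mem.1 e))⟩
  have ed : Ed A (cj g A) := Ed.of_mem nb hzA (by
    rw [← cj_norm]; exact mem_cj.2 (hQA (hSQ (hRS (conj_mem' hg hz.1))))) z1
  obtain ⟨L, hL⟩ : ∃ L, L = ncl ⊤ A := ⟨_, rfl⟩
  have hLn : ⊤ ≤ 𝒩(L) := hL ▸ le_norm_ncl ⊤ A
  have hAL : ∀ g, cj g A ≤ L := fun g => hL ▸ cj_le_ncl A (mem_top g)
  have hAL' : A ≤ L := hL ▸ le_ncl ⊤ A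
  have hCL : 𝒞(L) = ⊥ := hnb _ ((cent_mono hAL').trans hC) (le_norm_cent hLn)
  have w' := w.subgroupOf hAL'
  have hO : pCore 2 L = ⊥ := by
    have h1 : ⊤ ≤ 𝒩(pCoreOf 2 L) := le_norm_core hLn
    have h2 : pCoreOf 2 L ≤ S := (le_core le_top (core_isP L) h1).trans (core_le_syl hS)
    exact core_eq_bot_iff.1 (hnb _ (hcore _ (h2.trans hSQ) (core_isP L) (le_top.trans h1)) h1)
  have hcard : 4 ≤ Nat.card (A.subgroupOf L) := by
    obtain ⟨q, r, F, mx⟩ := ed.exists_mx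
    rw [Nat.card_congr (subgroupOfEquivOfLe hAL').toEquiv, mx.cq]
    exact Nat.mul_le_mul mx.two_le_q mx.two_le_r
  have hncl : ncl ⊤ (A.subgroupOf L) = ⊤ := by
    refine map_injective L.subtype_injective ?_
    rw [map_ncl, ← MonoidHom.range_eq_map, range_subtype, map_subgroupOf_eq_of_le hAL']
    refine le_antisymm (ncl_le_self hAL') (hL.le.trans (ncl_le_iff.2 fun g _ => ?_))
    obtain ⟨l, hl, e⟩ := w.exists_cj_eq (Pt.of_cj g A) hAL' (hAL g)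
    exact e ▸ cj_le_ncl A hl
  obtain ⟨hs, hna⟩ := r2 w' hcard hncl (by rw [hO, inf_bot_eq])
  have hZ : center L = ⊥ := eq_bot_iff.2 fun x hx => Subtype.ext (mem_bot.1 (hCL.le (mem_cent_iff.2 fun y hy =>
    congrArg Subtype.val (mem_center_iff.1 hx ⟨y, hy⟩))))
  have e := (QuotientGroup.quotientMulEquivOfEq hZ).trans QuotientGroup.quotientBot
  have : IsSimpleGroup L := e.symm.isSimpleGroup
  have hna' : ¬ IsMulCommutative L := fun h => hna ⟨⟨fun a b => e.injective (by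
    rw [map_mul, map_mul, h.1.1])⟩⟩
  rw [CL.Loc.fstar_eq_of_cent_eq_bot ⟨(normal_iff_top_le.2 hLn).isSubnormal, CL.Loc.isQuasisimple_of_isSimpleGroup hna'⟩ hCL]
  have ed' : Ed (A.subgroupOf L) ((cj g A).subgroupOf L) := ⟨nb.subgroupOf hAL' (hAL g), by
    rw [ax_subgroupOf (hAL g), Ne, subgroupOf_eq_bot, disjoint_iff, inf_eq_left.2 (inf_le_left.trans hAL')]
    exact ed.nt⟩
  rcases m hna' w' (fun e => ed'.nt (by rw [ax, e, bot_inf_eq])) with h | h | h | h | h | h | h | h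
  · exact (h.2 _ ed').elim
  · exact .inl h
  · exact .inr (.inr (.inr (.inr (.inl h))))
  · exact (h.2 (cent_subgroupOf hAL' ▸ hCp.comap_subtype)).elim
  · exact .inr (.inr (.inr (.inr (.inr h))))
  · exact .inr (.inl h)
  · exact .inr (.inr (.inl h))
  · exact .inr (.inr (.inr (.inl h)))

end CL.WTI
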