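/-
Weakly closed TI-subgroups, step SL: the spread count and small lines.
-/
import Cfsg.Agent.Timm.W2

set_option autoImplicit false
set_option linter.unusedSectionVars false

open Cfsg Subgroup
open scoped commutatorElement

namespace CL.WTI

open CL.Even CL.Timm CL.Grp

universe u

variable {G : Type*} [Group G] [Finite G] {A F B : Subgroup G} {h g x y v f n : G}

theorem sl_vf (e : Nb A F) (hx : x ∈ A) (hv : v ∈ ax A F) (hf : f ∈ ax F A) : ⁅x, v * f⁆ = ⁅x, f⁆ := by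
  rw [cel_mul_right, cel_eq_one.2 (e.comm hx hv.1), one_mul, e.comm hv.1 (e.cel_mem hx hf).1, mul_inv_cancel_right]

theorem sl_mul (e : Nb A F) (h1 : h ∈ 𝒩(A)) (h2 : h ∈ 𝒩(F)) (hn : n ∈ nn A F) (hy : y ∈ nn A F) :
    ⁅n * y, h⁆ = ⁅n, h⁆ * ⁅y, h⁆ := by
  have c : ∀ {a b}, a ∈ nn A F → b ∈ nn A F → a * b = b * a := fun ha hb => comm_of_mem (elem_le_cent e.elem_nn hb) ha
  have k := norm_nn h1 h2
  rw [cel_mul_left, c hn (cel_mem_left hy k), mul_inv_cancel_right, c (cel_mem_left hy k) (cel_mem_left hn k)]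

/-- equivariance -/
theorem sl_eqv (e : Nb A F) (h1 : h ∈ 𝒩(A)) (h2 : h ∈ 𝒩(F)) (hx : x ∈ A) (h3 : ⁅x, h⁆ ∈ ax A F) (hf : f ∈ ax F A) :
    ⁅⁅x, f⁆, h⁆ = ⁅x, ⁅f, h⁆⁆ := by
  rw [show ⁅f, h⁆ = f * (h * f⁻¹ * h⁻¹) by rw [cel_def]; group, e.cel_mul hx hf (conj_mem (norm_ax h2 h1) (inv_mem hf)),
    ← e.cel_conj hx (inv_mem hf) h1 h2 h3, e.w'.inv_eq hf.1, cel_def ⁅x, f⁆, e.inv_eq (e.cel_mem hx hf).1]
  group

theorem sl_eqv' (e : Nb A F) (h1 : h ∈ 𝒩(A)) (h2 : h ∈ 𝒩(F)) (hx : x ∈ A) (h3 : ⁅x, h⁆ ∈ ax A F) (hn : n ∈ nn A F) :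
    ⁅⁅x, n⁆, h⁆ = ⁅x, ⁅n, h⁆⁆ := by
  obtain ⟨v, hv, f, hf, rfl⟩ := e.mem_nn.1 hn
  rw [sl_vf e hx hv hf, sl_mul e h1 h2 (mem_sup_left hv) (mem_sup_right hf),
    sl_vf e hx (cel_mem_left hv (norm_ax h1 h2)) (cel_mem_left hf (norm_ax h2 h1)), sl_eqv e h1 h2 hx h3 hf]

/-- the group `[V, h]` -/
theorem sl_img (e : Nb A F) (h1 : h ∈ 𝒩(A)) (h2 : h ∈ 𝒩(F)) : ∃ U : Subgroup G,
    (∀ u, u ∈ U ↔ ∃ v ∈ ax A F, ⁅v, h⁆ = u) ∧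
      Nat.card (ax A F ⊓ 𝒞(zpowers h) : Subgroup G) * Nat.card U = Nat.card (ax A F) := by
  let φ : ax A F →* G := MonoidHom.mk' (fun v => ⁅(v : G), h⁆) fun a b =>
    sl_mul e h1 h2 (mem_sup_left a.2) (mem_sup_left b.2)
  refine ⟨φ.range, fun u => ⟨fun ⟨v, hv⟩ => ⟨v, v.2, hv⟩, fun ⟨v, hv, e⟩ => ⟨⟨v, hv⟩, e⟩⟩, ?_⟩
  rw [← index_ker, ← card_mul_index φ.ker, ← Nat.card_congr (subgroupOfEquivOfLe inf_le_left).toEquiv,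
    inf_subgroupOf_left]
  congr 3
  ext v
  exact ⟨fun hv => cel_eq_one.2 (comm_of_mem hv (mem_zpowers h)).symm, fun hv => mem_cent_iff.2 (by
    rintro _ ⟨k, rfl⟩
    exact (Commute.zpow_left (cel_eq_one.1 hv).symm k).eq)⟩

theorem sl_ex (e : Nb A F) (h1 : h ∈ 𝒩(A)) (h2 : h ∈ 𝒩(F)) (hx : x ∈ A) (hx' : x ∉ 𝒩(F)) (h3 : ⁅x, h⁆ ∈ ax A F)
    (h4 : h ∉ 𝒞(ax A F)) : ∃ f ∈ ax F A, ⁅f, h⁆ ≠ 1 := by
  by_contra! hn
  refine h4 (mem_cent_iff.2 fun v hv => cel_eq_one.1 ?_)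
  obtain ⟨f, hf, rfl⟩ := e.exists_cel hx hx' hv
  rw [sl_eqv e h1 h2 hx h3 hf, hn f hf, commutatorElement_one_right]

theorem sl_fib (e : Nb A F) (hf : f ∈ ax F A) (f1 : f ≠ 1) (hx : x ∈ A) (hy : y ∈ A) (e' : ⁅x, f⁆ = ⁅y, f⁆) :
    x⁻¹ * y ∈ 𝒩(F) := e.norm_of_comm' hf.1 f1 (cel_eq_one.1 (by
  rw [e.cel_mul' (inv_mem hx) hy hf.2, e.inv_eq hx, e', e.sq (e.cel_mem hy hf).1]))

theorem scThm : SCThm.{u} := by
  intro G _ _ A F A₁ h e h1 h2 _ hA hn h3 h4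
  obtain ⟨x, hx, hx'⟩ := SetLike.not_le_iff_exists.1 hn
  obtain ⟨f, hf, f1⟩ := sl_ex e.toNb h1 h2 (hA hx) hx' (h3 x hx) h4
  obtain ⟨U, hU, hc⟩ := sl_img e.toNb h1 h2
  have h5 := card_le_mul_of_fib (A := A₁) (T := U) (K := 𝒩(F)) (fun a => ⁅a, ⁅f, h⁆⁆)
    (fun a ha => (hU _).2 ⟨_, e.cel_mem (hA ha) hf, sl_eqv e.toNb h1 h2 (hA ha) (h3 a ha) hf⟩)
    fun a ha b hb => sl_fib e.toNb (cel_mem_left hf (norm_ax h2 h1)) f1 (hA ha) (hA hb)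
  calc _ ≤ Nat.card U * Nat.card (ax A F) * Nat.card (ax A F ⊓ 𝒞(zpowers h) : Subgroup G) :=
        Nat.mul_le_mul_right _ (h5.trans (Nat.mul_le_mul_left _ (card_le_of_le (inf_le_inf_right _ hA))))
    _ = _ := by rw [mul_right_comm, mul_comm (Nat.card U), hc]

/-- the points of the line cover `[N, h]` -/
theorem sl_cover {q r : ℕ} (m : Mx q r A F) (h1 : h ∈ 𝒩(A)) (h2 : h ∈ 𝒩(F)) (h3 : ∀ x ∈ A, ⁅x, h⁆ ∈ ax A F)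
    (h5 : r ≤ q * Nat.card (ax A F ⊓ 𝒞(zpowers h) : Subgroup G)) (hn : n ∈ nn A F) : ∃ B, Ln A F B ∧ ⁅n, h⁆ ∈ B := by
  have e := m.toNb
  obtain ⟨v, hv, f, hf, rfl⟩ := e.mem_nn.1 hn
  rw [sl_mul e h1 h2 (mem_sup_left hv) (mem_sup_right hf)]
  by_cases f1 : ⁅f, h⁆ = 1
  · exact ⟨A, Ln.left A F, by rw [f1, mul_one]; exact cel_mem_left hv.1 h1⟩
  have hu := cel_mem_left hf (norm_ax h2 h1)
  obtain ⟨U, hU, hc⟩ := sl_img e h1 h2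
  let ψ : A →* G := MonoidHom.mk' (fun a => ⁅(a : G), ⁅f, h⁆⁆) fun a b => e.cel_mul' a.2 b.2 hu.2
  have h6 := card_le_mul_of_fib (A := A) (T := ψ.range) (K := 𝒩(F)) (fun a => ⁅a, ⁅f, h⁆⁆)
    (fun a ha => ⟨⟨a, ha⟩, rfl⟩) fun a ha b hb => sl_fib e hu f1 ha hb
  rw [m.cq, m.cr] at h6
  rw [m.cr] at hc
  have h7 : ψ.range = U := eq_of_le_of_card_ge (by
    rintro _ ⟨a, rfl⟩
    exact (hU _).2 ⟨_, e.cel_mem a.2 hf, sl_eqv e h1 h2 a.2 (h3 a a.2) hf⟩) (by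
    refine le_trans ?_ (Nat.le_of_mul_le_mul_right h6 (by have := m.two_le_r; omega))
    exact Nat.le_of_mul_le_mul_left (by rw [hc, mul_comm]; exact h5) Nat.card_pos)
  obtain ⟨a, ha⟩ : ⁅v, h⁆ ∈ ψ.range := h7 ▸ (hU _).2 ⟨v, hv, rfl⟩
  refine ⟨_, Or.inr ⟨a, a.2, rfl⟩, ?_⟩
  rw [← ha, show ψ a * ⁅f, h⁆ = a * ⁅f, h⁆ * (a : G)⁻¹ from inv_mul_cancel_right _ _]
  exact conj_mem_cj _ hu.1

/-- a point of `⟨A, F⟩` fixed by `h` lies on the line -/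
theorem sl_ln (e : Nb A F) (h1 : h ∈ 𝒩(A)) (h2 : h ∈ 𝒩(F)) (h3 : ∀ x ∈ A, ⁅x, h⁆ ∈ ax A F) (h4 : h ∉ 𝒞(ax A F))
    (cov : ∀ n ∈ nn A F, ∃ B, Ln A F B ∧ ⁅n, h⁆ ∈ B) (hg : g ∈ A ⊔ F) (h5 : h ∈ 𝒩(cj g A)) : Ln A F (cj g A) := by
  by_contra hn
  have k : Nb A (cj g A) := ⟨e.toW, Pt.of_cj g A, fun e' => hn (Or.inl e')⟩
  have b1 : cj g (ax A F) ≤ nn A F := cj_le_of_le le_sup_left (e.sup_le_norm_nn hg)
  have b2 : cj g (ax A F) ≤ cj g A := cj_mono g inf_le_left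
  obtain ⟨x, hx, hx'⟩ := e.exists_not_mem
  refine h4 (mem_cent_iff.2 fun v hv => cel_eq_one.1 ?_)
  obtain ⟨b, hb, rfl⟩ := surj_of_inj (A := cj g (ax A F)) (card_cj g _).ge (fun b => ⁅x, b⁆)
    (fun b hb => e.cel_nn hx (b1 hb)) (fun a ha b hb e' => by
      obtain ⟨v, hv, f, hf, rfl⟩ := e.mem_nn.1 (b1 ha)
      obtain ⟨v', hv', f', hf', rfl⟩ := e.mem_nn.1 (b1 hb)
      rw [sl_vf e hx hv hf, sl_vf e hx hv' hf'] at e'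
      obtain rfl := e.cel_inj hx hx' hf hf' e'
      refine mul_inv_eq_one.1 (k.eq_one ?_ (b2 (mul_mem ha (inv_mem hb))))
      simpa [mul_assoc] using A.mul_mem hv.1 (A.inv_mem hv'.1)) hv
  obtain ⟨B, l, hB⟩ := cov b (b1 hb)
  have h6 : ⁅b, h⁆ = 1 := by_contra fun h6 =>
    hn (e.eq_of_mem_pt (l.pt e.pt) (Pt.of_cj g A) hB (cel_mem_left (b2 hb) h5) h6 ▸ l)
  rw [sl_eqv' e h1 h2 hx (h3 x hx) (b1 hb), h6, commutatorElement_one_right]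

theorem sl_fix (e : Nb A F) (h1 : h ∈ 𝒩(A)) (hy : y ∈ F) (h3 : ⁅y, h⁆ ∈ ax F A) : h ∈ 𝒩(cj y A) := by
  rw [← cj_eq_iff_mem, ← cj_mul, cj_eq_cj_iff, show y⁻¹ * (h * y) = y⁻¹ * (⁅y, h⁆⁻¹ * y) * h by rw [cel_def]; group,
    e.w'.comm (inv_mem h3.1) hy, inv_mul_cancel_left]
  exact mul_mem (inv_mem h3.2) h1

theorem slThm : SLThm.{u} := by
  intro G _ _ q r A F h m hP h1 h2 h3 h4 h5
  have e := m.toNb
  have ln : ∀ y ∈ F, ⁅y, h⁆ ∈ ax F A → Ln A F (cj y A) := fun y hy h6 =>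
    sl_ln e h1 h2 h3 h4 (fun _ => sl_cover m h1 h2 h3 h5) (mem_sup_right hy) (sl_fix e h1 hy h6)
  have key : ∀ y ∈ F, ⁅y, h⁆ ∈ ax F A := by
    obtain ⟨y, hy, hy', h6⟩ := exists_fix_mod (K := F) (K₀ := ax F A) hP e.w'.isP
      (fun e' => e.symm.not_le (e'.trans inf_le_right)) (zpowers_le.2 h2) (zpowers_le.2 (norm_ax h2 h1))
      (e.w'.le_cent.trans ((cent_mono inf_le_left).trans (cent_le_norm _)))
    have h7 := h6 h (mem_zpowers h)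
    obtain ⟨x, hx, s⟩ := (ln y hy h7).resolve_left fun e' => hy' ⟨hy, cj_eq_iff_mem.1 e'⟩
    have n1 := e.sup_le_norm_nn (mem_sup_left hx)
    have n2 := e.sup_le_norm_nn (mem_sup_right hy)
    have h8 : ⁅x * y * x, h⁆ ∈ nn A F := by
      rw [cel_mul_left, cel_mul_left]
      exact mul_mem (conj_mem (mul_mem n1 n2) (mem_sup_left (h3 x hx)))
        (mul_mem (conj_mem n1 (mem_sup_right h7)) (mem_sup_left (h3 x hx)))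
    have s1 := e.swap_left hx hy s.symm
    have s2 := e.swap_right hx hy s.symm
    generalize x * y * x = t at h8 s1 s2
    intro z hz
    have h9 := conj_mem_cj t (h3 _ (mem_cj.1 (s1 ▸ hz)))
    rw [cj_ax, s1, s2, cel_conj, show t * (t⁻¹ * z * t) * t⁻¹ = z by group,
      show t * h * t⁻¹ = ⁅t, h⁆ * h by rw [cel_def]; group, cel_mul_right,
      mul_mem_cancel_left (e.symm.cel_nn hz (nn_comm A F ▸ h8))] at h9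
    generalize ⁅t, h⁆ = n at h8 h9
    simpa [mul_assoc] using conj_mem' (norm_ax (e.symm.nn_le_norm (nn_comm A F ▸ h8)) (e.nn_le_norm h8)) h9
  refine ⟨fun y hy => ln y hy (key y hy), key, h5.antisymm ?_⟩
  have h6 := scThm m.toEd h1 h2 inf_le_left le_rfl e.not_le h3 h4
  rw [m.cq, m.cr, mul_right_comm] at h6
  exact Nat.le_of_mul_le_mul_right h6 (by have := m.two_le_r; omega)

end CL.WTI
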