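/-
Weakly closed TI-subgroups: two axes generate `A`, all maximal edges are small.
-/
import Cfsg.Agent.Timm.W2

set_option autoImplicit false

open Cfsg Subgroup
open scoped commutatorElement

namespace CL.WTI

open CL.Even CL.Timm CL.Grp

universe u

section

variable {G : Type u} [Group G] [Finite G] {q r : ℕ} {A F C : Subgroup G} {f : G}

theorem wa_card (m : Mx q r A F) (m' : Mx q r A C) :
    Nat.card (ax A F ⊔ ax A C : Subgroup G) * Nat.card (ax A F ⊓ ax A C : Subgroup G) = r * r := by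
  rw [card_sup_mul m.toW inf_le_left inf_le_left, m.cr, m'.cr]

theorem wa_nt (lt : q < r) (m : Mx q r A F) (m' : Mx q r A C) : ax A F ⊓ ax A C ≠ ⊥ := fun e => by
  have h1 := wa_card m m'
  have h2 := card_le_of_le (sup_le inf_le_left inf_le_left : ax A F ⊔ ax A C ≤ A)
  rw [e, card_bot, mul_one] at h1
  rw [h1, m.cq] at h2
  exact absurd (Nat.le_of_mul_le_mul_right h2 (by omega)) (by omega)

theorem wa_not_cent (m : Mx q r A F) (m' : Mx q r A C) (hne : ax A F ≠ ax A C) (hf : f ∈ F) (f1 : f ≠ 1) :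
    f ∉ 𝒞(ax A C) := fun h =>
  let ⟨x, h1, h2⟩ := m.exists_not_mem_ax m' hne
  h2 (m.norm_of_comm' hf f1 (h x h1))

omit [Finite G] in
theorem wa_le (e : Nb A F) (hf : f ∈ ax F A) : ax A F ⊓ ax A C ≤ ax A C ⊓ 𝒞(zpowers f) := fun v hv =>
  ⟨hv.2, fun _ hy => (e.comm_ax hv.1 ((zpowers_le.2 hf) hy)).symm⟩

theorem wa_two {H K : Subgroup G} (h : H ≤ K) (hne : H ≠ K) : 2 * Nat.card H ≤ Nat.card K := by
  obtain ⟨k, hk⟩ := card_dvd_of_le h
  have h1 := card_lt_of_lt h fun e => hne (le_antisymm h e)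
  rw [hk] at h1 ⊢
  rw [mul_comm]
  exact Nat.mul_le_mul_left _ ((Nat.lt_mul_iff_one_lt_right Nat.card_pos).1 h1)

theorem wa_tr (sc : SCThm.{u}) (ne : NEThm.{u}) (gen : GenThm.{u}) (lt : q < r) (t : Tr q r A F C) :
    ax A F ⊔ ax A C = A := by
  by_contra hne
  have m := t.mF
  have m' := t.mC
  have hW : ax A F ⊔ ax A C ≤ A := sup_le inf_le_left inf_le_left
  have c1 := wa_card m m'
  have c2 := m.cq ▸ wa_two hW hne
  have c3 := m.cr ▸ wa_two (inf_le_left : ax A F ⊓ ax A C ≤ _) fun e => t.ne (m.ax_eq_of_le m' (inf_eq_left.1 e))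
  have c0 : 0 < Nat.card (ax A F ⊓ ax A C : Subgroup G) := Nat.card_pos
  have hE : IsElementaryAbelian 2 (ax F A ⊓ 𝒩(C) : Subgroup G) := elem_of_le m.w'.elem (inf_le_left.trans inf_le_left)
  have c4 : 4 ≤ q ∧ 4 ≤ Nat.card (ax F A ⊓ 𝒩(C) : Subgroup G) := by
    obtain ⟨k, hk⟩ := IsPGroup.iff_card.1 (m.w'.isP.to_le (inf_le_left.trans inf_le_left : ax F A ⊓ 𝒩(C) ≤ F))
    have h1 := t.card_FI'
    generalize Nat.card (ax A F ⊔ ax A C : Subgroup G) = w at *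
    generalize Nat.card (ax A F ⊓ ax A C : Subgroup G) = i at *
    have h2 : 2 * r ≤ q * i := Nat.le_of_mul_le_mul_right (c := r) (by nlinarith) (by omega)
    have h3 : 2 * r ≤ w := Nat.le_of_mul_le_mul_right (c := i) (by nlinarith) c0
    refine ⟨Nat.le_of_mul_le_mul_right (c := r) (by omega) (by omega), ?_⟩
    have h4 : 2 < i := by
      by_contra h4
      have := Nat.mul_le_mul_left q (not_lt.1 h4)
      omega
    rw [hk] at h1 ⊢
    obtain _ | _ | k := k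
    exacts [by omega, by omega, by rw [pow_add, pow_add]; have := Nat.two_pow_pos k; omega]
  obtain ⟨x', hx', hx''⟩ := m'.exists_not_mem_ax m t.ne.symm
  have key : ∀ f ∈ ax F A ⊓ 𝒩(C), f ≠ 1 → ∀ x ∈ A, ⁅x, f⁆ ∈ ax A C → x ∈ ax A F ⊔ ax A C := fun f hf f1 x hx h => by
    let A₁ : Subgroup G :=
      { carrier := {x | x ∈ A ∧ ⁅x, f⁆ ∈ ax A C}
        one_mem' := ⟨one_mem _, by simp⟩
        mul_mem' := fun ha hb => ⟨mul_mem ha.1 hb.1, m.cel_mul' ha.1 hb.1 hf.1.2 ▸ mul_mem ha.2 hb.2⟩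
        inv_mem' := fun ha => (m.inv_eq ha.1).symm ▸ ha }
    have h1 : ax A F ⊔ ax A C ≤ A₁ := fun x hx => ⟨hW hx, (t.cel_mem hx hf.1 (norm_ax hf.1.2 hf.2)).2⟩
    have h2 := sc (A₁ := A₁) m'.toEd hf.1.2 hf.2 (le_sup_right.trans h1) (fun x hx => hx.1)
      (fun e => hx'' (e (h1 (mem_sup_left hx')))) (fun x hx => hx.2) (wa_not_cent m m' t.ne hf.1.1 f1)
    rw [m'.cr, ← c1] at h2
    rw [eq_of_le_of_card_ge h1 (Nat.le_of_mul_le_mul_right
      ((Nat.mul_le_mul_left _ (card_le_of_le (wa_le m.toNb hf.1))).trans h2) c0)]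
    exact ⟨hx, h⟩
  have hK := gen (T := A) (T₀ := ax A C) (K := (A ⊔ C) ⊓ 𝒩(A) ⊓ 𝒩(C)) (E := ax F A ⊓ 𝒩(C)) (U := ax A F ⊔ ax A C)
    inf_le_left
    (fun a ha => cent_le_norm _ (centralizer_le (by exact_mod_cast inf_le_left) (m.le_cent ha)))
    (fun k hk => hk.1.2) (fun k hk => norm_ax hk.1.2 hk.2) (fun e he => he.1.2) (fun e he => norm_ax he.1.2 he.2)
    (le_norm_inf (le_norm_inf (fun e he => norm_sup he.1.2 he.2) (le_norm_of_le fun e he => he.1.2))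
      (le_norm_of_le inf_le_right))
    (fun k hk h2 => ne m'.toEd (by rw [m'.cr, m.cq]; exact Nat.mul_le_mul_right _ c4.1) hk.1.1 h2 hk.1.2 hk.2) hE c4.2 hW
    hne fun f hf f1 x hx => ⟨key f hf f1 x hx, fun h => (t.cel_mem h hf.1 (norm_ax hf.1.2 hf.2)).2⟩
  refine hne (le_antisymm hW fun x hx => ?_)
  by_cases h : x ∈ 𝒩(C)
  · exact mem_sup_right ⟨hx, h⟩
  · obtain ⟨k, h1, h2, h3, rfl⟩ := m'.toEd.exists_tr hx h hx'.1 hx''
    exact (mem_normalizer_iff.1 (hK ⟨⟨h1, h2⟩, h3⟩) x').1 (mem_sup_left hx')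

end

theorem waThm (p : PairThm.{u}) (sc : SCThm.{u}) (sl : SLThm.{u}) (ne : NEThm.{u}) (gen : GenThm.{u}) : WAThm.{u} := by
  intro G _ _ q r A lt cov
  have full : FullP q r A := fun F C m m' hne => by
    obtain ⟨C₁, F₁, mp⟩ := cov.exists_minP m
    obtain ⟨z, -, c, -, -, t, -⟩ := p mp (wa_nt lt mp.mF mp.mC)
    have h1 := wa_card t.mF t.mC
    rw [wa_tr sc ne gen lt t, ← wa_card m m'] at h1
    exact eq_of_le_of_card_ge (sup_le inf_le_left inf_le_left) (Nat.le_of_mul_le_mul_right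
      ((Nat.mul_le_mul_left _ (t.min F C m m' hne)).trans h1.le) Nat.card_pos)
  refine ⟨full, fun F m => ?_⟩
  obtain ⟨C, m', hne⟩ := cov.exists_ne m
  obtain ⟨z, -, c, -, -, t, -⟩ := p (full.minP m m' hne) (wa_nt lt m m')
  obtain ⟨f, hf, f1, h1⟩ := t.symm.exists_mem
  refine (sl m (t.mC.w'.isP.to_le (zpowers_le.2 hf.1)) hf.2 h1 (fun x hx => (t.toMinP.symm.cel_mem ?_ hf
    (norm_ax hf.2 h1)).2) (wa_not_cent t.mC m t.ne.symm hf.1 f1) ?_).1
  · rwa [full _ _ t.mC m t.ne.symm]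
  · exact (full.card t.mC m t.ne.symm).ge.trans (Nat.mul_le_mul_left _ (card_le_of_le (wa_le t.mC.toNb hf)))

end CL.WTI
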