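/-
Weakly closed TI-subgroups: `A` is self-centralizing.
-/
import Cfsg.Agent.Timm.W2
import Cfsg.Agent.Grp.Action

set_option autoImplicit false

open Cfsg Subgroup
open scoped commutatorElement

namespace CL.WTI

open CL.Even CL.Timm CL.Grp

universe u

variable {G : Type u} [Group G] [Finite G] {q r : ℕ} {A F C : Subgroup G}

/-- averaging over an orbit of odd length -/
theorem za_avg {H Z : Subgroup G} (hZ : ∀ z ∈ Z, z * z = 1) (hA : A ≤ Z) (hn : H ≤ 𝒩(Z)) {e : G} (he : e ∈ Z)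
    (hc : ∀ h ∈ H, ⁅e, h⁆ ∈ A) (hi : ¬ 2 ∣ (centralizer {e}).relIndex H) : ∃ a ∈ A, e * a ∈ 𝒞(H) := by
  have iv : ∀ z ∈ Z, z⁻¹ = z := fun z hz => inv_eq_of_mul_eq_one_left (hZ z hz)
  letI : CommGroup Z := { (inferInstance : Group Z) with
    mul_comm := fun a b => Subtype.ext (by
      have := iv _ (a * b).2
      rwa [coe_mul, mul_inv_rev, iv _ a.2, iv _ b.2, eq_comm] at this) }
  letI := conjAction hn
  have := Fintype.ofFinite (MulAction.orbit H (⟨e, he⟩ : Z))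
  obtain ⟨k, hk⟩ : Odd (Fintype.card (MulAction.orbit H (⟨e, he⟩ : Z))) := by
    rw [← Nat.card_eq_fintype_card, Nat.card_coe_set_eq, ← MulAction.index_stabilizer,
      show MulAction.stabilizer H (⟨e, he⟩ : Z) = (centralizer {e}).subgroupOf H from ext fun h => by
        rw [MulAction.mem_stabilizer_iff, Subtype.ext_iff, conjAction_smul_coe, mul_inv_eq_iff_eq_mul, mem_subgroupOf,
          mem_centralizer_singleton_iff]]
    exact Nat.odd_iff.2 (Nat.two_dvd_ne_zero.1 hi)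
  let p : Z := ∏ x : MulAction.orbit H (⟨e, he⟩ : Z), (x : Z)
  refine ⟨e⁻¹ * p, ?_, mem_cent_iff.2 fun h hh => ?_⟩
  · have h1 : (QuotientGroup.mk' (A.subgroupOf Z)) p = QuotientGroup.mk' _ ⟨e, he⟩ := by
      rw [map_prod, Finset.prod_congr rfl (g := fun _ => QuotientGroup.mk' (A.subgroupOf Z) ⟨e, he⟩), Finset.prod_const,
        Finset.card_univ, hk, ← map_pow, pow_succ, pow_mul, sq, show (⟨e, he⟩ : Z) * ⟨e, he⟩ = 1 from
          Subtype.ext (hZ e he), one_pow, one_mul]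
      rintro ⟨_, h, rfl⟩ -
      refine (QuotientGroup.eq.2 ?_).symm
      simpa [mem_subgroupOf, conjAction_smul_coe, cel_def, iv e he, mul_assoc] using hc h h.2
    exact (QuotientGroup.eq (s := A.subgroupOf Z)).1 h1.symm
  · have h1 : (⟨h, hh⟩ : H) • p = p := by
      rw [Finset.smul_prod']
      exact Equiv.prod_comp (MulAction.toPerm (⟨h, hh⟩ : H)) fun x : MulAction.orbit H (⟨e, he⟩ : Z) => (x : Z)
    rw [mul_inv_cancel_left]
    exact mul_inv_eq_iff_eq_mul.1 (congrArg Subtype.val h1)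

/-- a set of elements centralizing a point and carried along the edges is trivial -/
theorem za_T [IsSimpleGroup G] (hG : ¬ IsMulCommutative G) (m : Mx q r A F) (mc : MConn q r A)
    {Φ : Subgroup G → Prop} {x : G} (h1 : ∀ B, Pt A B → Φ B → x ∈ 𝒞(B))
    (h2 : ∀ B B', Pt A B → Mx q r B B' → Φ B → Φ B') (h : Φ A) : x = 1 := by
  have h3 : ∀ B, Relation.ReflTransGen (Mx q r) A B → Pt A B ∧ Φ B := fun B hB => by
    induction hB with
    | refl => exact ⟨Pt.refl A, h⟩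
    | tail _ e ih => exact ⟨ih.1.trans e.pt, h2 _ _ ih.1 e ih.2⟩
  obtain ⟨a, ha, a1⟩ := m.exists_mem
  have h4 : normalClosure {a} ≤ centralizer {x} := (closure_le _).2 fun y hy => by
    obtain ⟨_, rfl, e⟩ := Group.mem_conjugatesOfSet_iff.1 hy
    obtain ⟨g, rfl⟩ := isConj_iff.1 e
    exact mem_centralizer_singleton_iff.2
      (comm_of_mem (h1 _ (Pt.of_cj g A) (h3 _ (mc _ (Pt.of_cj g A))).2) (conj_mem_cj g ha.1))
  rw [((normalClosure_normal (s := {a})).eq_bot_or_eq_top).resolve_left fun e =>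
    a1 (mem_bot.1 (e ▸ subset_normalClosure rfl))] at h4
  rcases (inferInstance : (center G).Normal).eq_bot_or_eq_top with e | e
  · exact mem_bot.1 (e ▸ mem_center_iff.2 fun g => mem_centralizer_singleton_iff.1 (h4 (mem_top g)))
  · exact (hG ⟨⟨fun a b => mem_center_iff.1 (e ▸ mem_top b) a⟩⟩).elim

theorem za_H (z : ZnP q r A) (m : Mx q r A F) {g : G} (h1 : g ∈ A ⊔ F) (h2 : g ∈ 𝒩(A)) : g ∈ cmod 𝒞(A) A :=
  ⟨h2, fun x hx => by
    obtain ⟨a, ha, c, hc, rfl⟩ := z F m x hx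
    rw [cel_mul_left, cel_eq_one.2 (comm_of_mem hc h1).symm, mul_one, mul_inv_cancel, one_mul]
    exact cel_mem_left ha h2⟩

theorem za_L (s : St q r A) (z : ZnP q r A) (hq : 4 ≤ q ∨ (q = 2 ∧ 4 ≤ r ∧ uu q r A = ⊥)) (m : Mx q r A F) {a : G}
    (ha : a ∈ A) (h : a ∈ 𝒞(cmod 𝒞(A) A ⊓ 𝒩(A ⊔ F))) : a = 1 := by
  obtain ⟨f, hf, f1⟩ := m.exists_mem'
  have h1 : a ∈ ax A F := ⟨ha, m.norm_of_comm' hf.1 f1 (comm_of_mem h
    ⟨za_H z m (mem_sup_right hf.1) hf.2, le_normalizer (mem_sup_right hf.1)⟩).symm⟩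
  rcases hq with h4 | ⟨rfl, h4, hu⟩
  · obtain ⟨k, k0, k1, -, k2⟩ := (s.sm F m).exists_fpf m h4
    exact k2 a h1 (mul_inv_eq_iff_eq_mul.2 (comm_of_mem h ⟨za_H z m k0 k1, le_normalizer k0⟩))
  by_contra a1
  obtain ⟨C, mC, h2⟩ : ∃ C, Mx 2 r A C ∧ a ∉ 𝒩(C) := by
    by_contra! e
    exact a1 (mem_bot.1 (hu ▸ mem_uu.2 ⟨ha, e⟩))
  obtain ⟨i, hi, i1⟩ := (bot_or_exists_ne_one (ax A F ⊓ ax A C)).resolve_left fun e => by
    have := card_sup_mul m.toW (inf_le_left : ax A F ≤ A) (inf_le_left : ax A C ≤ A)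
    have h3 := card_le_of_le (sup_le inf_le_left inf_le_left : ax A F ⊔ ax A C ≤ A)
    rw [e, card_bot, m.cr, mC.cr, mul_one] at this
    rw [this, m.cq] at h3
    nlinarith
  obtain ⟨c, hc, rfl⟩ := mC.exists_cel ha h2 hi.2
  have h3 : (ax A C).relIndex A = 2 := by
    have := card_mul_relIndex (inf_le_left : ax A C ≤ A)
    rw [mC.cr, mC.cq, mul_comm] at this
    exact Nat.eq_of_mul_eq_mul_right (by omega) this
  have h5 : c ∈ 𝒩(ax A F) := mem_normalizer_fintype fun x hx => by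
    rw [show c * x * c⁻¹ = ⁅x, c⁆⁻¹ * x by simp only [cel_def]; group]
    refine (ax A F).mul_mem (inv_mem ?_) hx
    by_cases e : x ∈ ax A C
    · rw [mC.cel_ax e hc]; exact one_mem _
    · have h6 := mC.cel_ax (v := x * a) ((mul_mem_iff_of_index_two h3 (a := ⟨x, hx.1⟩) (b := ⟨a, ha⟩)).2
        (iff_of_false e fun e => h2 e.2)) hc
      rw [mC.cel_mul' hx.1 ha hc.2, mul_eq_one_iff_eq_inv] at h6
      exact h6 ▸ inv_mem hi.1
  exact i1 (cel_eq_one.2 (comm_of_mem h ⟨za_H z mC (mem_sup_right hc.1) hc.2, (s.uni.norm_nn m hc.2 h5).2⟩).symm)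

theorem zaThm : ZAThm.{u} := by
  intro G _ _ _ q r A hG s mc z hq
  obtain ⟨F, m⟩ := s.ex
  have sq : ∀ B, Pt A B → ∀ x ∈ 𝒞(B), x * x = 1 := fun B hB x hx => by
    obtain ⟨F, m⟩ := m.exists_at hB
    refine za_T hG m (mc.pt hB) (Φ := fun C => ∃ y ∈ 𝒞(C), y * y = x * x) (fun C _ ⟨y, hy, e⟩ => e ▸ mul_mem hy hy)
      (fun C C' hC m' ⟨y, hy, e⟩ => ?_) ⟨x, hx, rfl⟩
    obtain ⟨a, ha, c, hc, rfl⟩ := z.pt (hB.trans hC) C' m' y hy
    refine ⟨c, cent_mono le_sup_right hc, e ▸ ?_⟩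
    rw [mul_assoc, ← mul_assoc c, ← comm_of_mem hc (mem_sup_left ha), ← mul_assoc, ← mul_assoc, m'.sq ha, one_mul]
  have key : ∀ {B}, Pt A B → ∀ {F}, Mx q r B F → 𝒞(B ⊔ F) ≤ 𝒞(cmod 𝒞(B) B) := fun {B} hB {F} m e he => by
    have eB : e ∈ 𝒞(B) := cent_mono le_sup_left he
    have h1 : e ∈ 𝒞(cmod 𝒞(B) B ⊓ 𝒩(B ⊔ F)) := mem_cent_iff.2 fun h hh => (cel_eq_one.1 (m.eq_one (hh.1.2 e eB)
      (m.mem_of_cent m.pt (Pt.refl B) (hh.1.2 e eB)
        (cent_mono le_sup_right (cel_mem_left he (norm_le_norm_cent _ hh.2)))))).symm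
    obtain ⟨S, hS, -⟩ := exists_isSylowIn_ge (IsPGroup.of_bot (p := 2)) (bot_le : ⊥ ≤ cmod 𝒞(B) B)
    have nS : S ≤ 𝒩(B) := fun x hx => (hS.le hx).1
    obtain ⟨g, hg, -, h2⟩ := m.exists_pgroup hS.isPGroup nS
    have h3 := syl_cj hS g⁻¹
    rw [cj_eq (le_norm_cmod (norm_le_norm_cent B) le_rfl (inv_mem hg))] at h3
    obtain ⟨a, ha, h4⟩ := za_avg (H := cmod 𝒞(B) B) (sq B hB) m.le_cent (fun x hx => norm_le_norm_cent _ hx.1) eB (fun h hh => hh.2 e eB)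
      fun d => h3.2.2 (d.trans (relIndex_dvd_of_le_left _ fun x hx => mem_centralizer_singleton_iff.2
        (comm_of_mem h1 ⟨h3.le hx, ((s.uni.pt hB).norm_nn m (h3.le hx).1 (by
          rw [← cj_eq hg, ← cj_ax, ← cj_norm] at h2; exact cj_le_iff.2 (by rwa [inv_inv]) hx)).2⟩)))
    rwa [za_L (s.pt hB) (z.pt hB) (hq.imp_right fun ⟨a, b, c⟩ => ⟨a, b, by
      obtain ⟨g, rfl⟩ := hB
      rw [← cj_uu, c, cj_bot]⟩) m ha ((mul_mem_cancel_left h1).1 (cent_mono inf_le_left h4)), mul_one] at h4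
  intro x hx
  obtain ⟨a, ha, c, hc, rfl⟩ := z F m x hx
  rwa [za_T hG m mc (Φ := fun B => ∃ B', Mx q r B B' ∧ c ∈ 𝒞(B ⊔ B')) (fun B _ ⟨_, _, e⟩ => cent_mono le_sup_left e)
    (fun B B' hB m' ⟨C, mC, e⟩ => ⟨B, m'.symm, by
      obtain ⟨a, ha, d, hd, rfl⟩ := z.pt hB B' m' c (cent_mono le_sup_left e)
      rw [za_L (s.pt hB) (z.pt hB) (hq.imp_right fun ⟨a, b, c⟩ => ⟨a, b, by
        obtain ⟨g, rfl⟩ := hB
        rw [← cj_uu, c, cj_bot]⟩) m' ha (cent_mono inf_le_left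
          ((mul_mem_cancel_right (key hB m' hd)).1 (key hB mC e))), one_mul, sup_comm]
      exact hd⟩) ⟨F, m, hc⟩, mul_one]

end CL.WTI
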